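import Cfsg.Agent.AH.R2

/-! A centralizer of order divisible by five and less than fifty (notes/AH.md, section A5a). -/

set_option autoImplicit false

namespace Cfsg.Agent.AH

open Subgroup

universe u

theorem a5a_core {H : Type u} [Group H] [Finite H] (hR : RatG H) {V : Subgroup H} (hV : MN V 5)
    {x s t w : H} (e : x = s * t) (hs : s ∈ V) (ht : ¬ 5 ∣ orderOf t) (ctx : Commute t x) (hw : w ∈ V)
    (w1 : w ≠ 1) (cw : Commute w t) (h50 : cc x < 50) :
    Nat.card V = 25 ∧ ∃ v ∈ V, v ≠ 1 ∧ centralizer {v} = V := by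
  have le : V ⊓ centralizer {t} ≤ centralizer {x} := fun d hd => by
    rw [mem_centralizer_singleton_iff, e]
    exact (Commute.mul_right (hV.comm d hd.1 s hs) (mem_centralizer_singleton_iff.1 hd.2)).eq
  obtain ⟨k, hk⟩ := hV.card Nat.prime_five (K := V ⊓ centralizer {t}) inf_le_left
  have d : 5 ^ k ∣ cc x := hk ▸ card_dvd_of_le le
  have k0 : k ≠ 0 := by
    rintro rfl
    exact w1 (mem_bot.1 (card_eq_one.1 hk ▸
      (⟨hw, mem_centralizer_singleton_iff.2 cw.eq⟩ : w ∈ V ⊓ centralizer {t})))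
  have k1 : k ≠ 1 := by
    rintro rfl
    exact r2 hR hV.nm hV.comm hV.exp ht hk
  have p := cc_pos x
  have k2 : k = 2 := by
    by_contra k2
    have := (Nat.pow_le_pow_right (by norm_num : 0 < 5) (by omega : 3 ≤ k)).trans (Nat.le_of_dvd p d)
    omega
  subst k2
  have c : cc x = 25 := by omega
  have eq : V ⊓ centralizer {t} = centralizer {x} := eq_of_le_of_card_ge le (by rw [hk]; exact c.le)
  have t1 : t = 1 := by
    have : t ∈ V ⊓ centralizer {t} := eq ▸ mem_centralizer_singleton_iff.2 ctx.eq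
    exact orderOf_eq_one_iff.1 (((Nat.dvd_prime Nat.prime_five).1
      (orderOf_dvd_of_pow_eq_one (hV.exp t this.1))).resolve_right fun h => ht h.symm.dvd)
  subst t1
  have e1 : V ⊓ centralizer {(1 : H)} = V :=
    inf_eq_left.2 fun v _ => mem_centralizer_singleton_iff.2 (by simp)
  rw [e1] at hk eq
  rw [mul_one] at e
  subst e
  refine ⟨hk, x, hs, ?_, eq.symm⟩
  rintro rfl
  have o : orderOf w = 5 := orderOf_eq_prime (hV.exp w hw) w1
  obtain ⟨g, hg⟩ := isConj_iff.1 (hR w 2 (by rw [o]; norm_num))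
  have hg' : g ∈ V := eq ▸ mem_centralizer_singleton_iff.2 (by simp)
  rw [hV.comm g hg' w hw, mul_inv_cancel_right, pow_two] at hg
  exact w1 (by simpa using hg)

theorem a5a {G : Type u} [Group G] [Finite G] (hs : Group.IsSolvable G) (hR : RatG G) {x : G}
    (h5 : 5 ∣ cc x) (h50 : cc x < 50) : ∃ (N : Subgroup G) (_ : N.Normal) (V : Subgroup (G ⧸ N)),
      MN V 5 ∧ Nat.card V = 25 ∧ ∃ v ∈ V, v ≠ 1 ∧ centralizer {v} = V := by
  obtain ⟨a, c, n, e, ha, hc, -⟩ := exists_part x Nat.prime_five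
  obtain ⟨w, m, w1, hw, cw, hx⟩ : ∃ (w : G) (m : ℕ), w ≠ 1 ∧ w ^ 5 ^ m = 1 ∧ Commute w x ∧
      (x ^ a = w ∨ x ^ a = 1) := by
    by_cases h1 : x ^ a = 1
    · obtain ⟨w, hw⟩ := exists_prime_orderOf_dvd_card' (G := centralizer ({x} : Set G)) 5 h5
      rw [← orderOf_coe] at hw
      refine ⟨w, 1, fun h => ?_, by rw [pow_one, ← hw, pow_orderOf_eq_one],
        mem_centralizer_singleton_iff.1 w.2, Or.inr h1⟩
      rw [h, orderOf_one] at hw
      omega
    · exact ⟨x ^ a, n, h1, ha, (Commute.refl x).pow_left a, Or.inl rfl⟩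
  obtain ⟨N, hN, V, hV, m1, m2⟩ := chief hs Nat.prime_five w1 hw
  have sj := QuotientGroup.mk'_surjective N
  refine ⟨N, hN, V, hV, a5a_core (hR.of_surj _ sj) hV (x := QuotientGroup.mk' N x)
    (s := QuotientGroup.mk' N (x ^ a)) (t := QuotientGroup.mk' N (x ^ c)) (by rw [← map_mul, ← e]) ?_
    (fun h => hc (h.trans (orderOf_map_dvd _ _))) (((Commute.refl x).pow_left c).map _) m1 m2
    ((cw.pow_right c).map (QuotientGroup.mk' N)) ((cc_le _ sj x).trans_lt h50)⟩
  rcases hx with h | h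
  · rw [h]; exact m1
  · rw [h, map_one]; exact one_mem _

end Cfsg.Agent.AH
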