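import Cfsg.Agent.AH.BasA

set_option autoImplicit false

namespace Cfsg.Agent.AH

open Subgroup

universe u

theorem u8_ord4 {X : Type*} [Group X] {z a : X} (hz : z ≠ 1) (h2 : z * z = 1) (ha : a * a = z) :
    orderOf a = 4 := by
  have h := orderOf_eq_prime_pow (x := a) (p := 2) (n := 1) (by
    rw [pow_one, sq, ha]; exact hz) (by
    rw [show 2 ^ (1 + 1) = 2 * 2 from rfl, pow_mul, sq a, ha, sq, h2])
  simpa using h

theorem u8_twelve {X : Type*} [Group X] [Finite X] (hR : RatG X) (h24 : Nat.card X = 24) {z y : X}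
    (hz : z ≠ 1) (h2 : z * z = 1) (hu : ∀ t : X, t * t = 1 → t = 1 ∨ t = z) (hy : orderOf y = 3)
    (h12 : cc y = 12) : False := by
  classical
  obtain ⟨K, hK⟩ := Sylow.exists_subgroup_card_pow_prime (G := centralizer ({y} : Set X)) 2 (n := 2)
    (by unfold cc at h12; rw [h12]; norm_num)
  have hex : ∃ c : K, c.1.1 ≠ 1 ∧ c.1.1 ≠ z := by
    by_contra hn
    push Not at hn
    have hinj : Function.Injective (fun c : K => decide (c.1.1 = 1)) := by
      intro c d hcd
      simp only [decide_eq_decide] at hcd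
      apply Subtype.ext
      apply Subtype.ext
      by_cases hc : c.1.1 = 1
      · rw [hc, hcd.1 hc]
      · rw [hn c hc, hn d (fun e => hc (hcd.2 e))]
    have := Nat.card_le_card_of_injective _ hinj
    rw [hK, Nat.card_eq_fintype_card, Fintype.card_bool] at this
    norm_num at this
  obtain ⟨c, hc1, hcz⟩ := hex
  have h4 : c ^ 4 = 1 := by
    have := pow_card_eq_one' (x := c)
    rwa [hK] at this
  have h4' : c.1.1 ^ 4 = 1 := by
    have := congrArg (fun t : K => t.1.1) h4
    simpa using this
  have hcc : c.1.1 * c.1.1 = z := by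
    rcases hu (c.1.1 * c.1.1) (by rw [← h4']; simp only [pow_succ, pow_zero, one_mul, mul_assoc]) with h | h
    · rcases hu _ h with h | h
      · exact absurd h hc1
      · exact absurd h hcz
    · exact h
  have ho := u8_ord4 hz h2 hcc
  have hcom : Commute y c.1.1 := (mem_centralizer_singleton_iff.1 c.1.2).symm
  have h12' : orderOf (y * c.1.1) = 12 := by
    rw [hcom.orderOf_mul_eq_mul_orderOf_of_coprime (by rw [hy, ho]; norm_num), hy, ho]
  have h1 := hR.ord (y * c.1.1)
  have h3 := dvd_cc (Commute.refl (y * c.1.1))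
  rw [h12'] at h1 h3
  rw [h24, show Nat.totient 12 = 4 by decide] at h1
  have := (Nat.mul_dvd_mul_left 4 h3).trans h1
  norm_num at this

theorem u8_six {X : Type*} [Group X] [Finite X] (hR : RatG X) (h24 : Nat.card X = 24) {y : X}
    (hy : orderOf y = 3) (h6 : cc y = 6) : False := by
  classical
  have hP : Nat.card (zpowers y) = 3 ^ (Nat.card X).factorization 3 := by
    rw [Nat.card_zpowers, hy, h24]
    have : (24 : ℕ).factorization 3 = 1 := by
      rw [Nat.factorization_def _ Nat.prime_three]; decide +kernel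
    rw [this]; norm_num
  let P : Sylow 3 X := Sylow.ofCard (zpowers y) hP
  have hPc : (P : Subgroup X) = zpowers y := rfl
  have hn : Nat.card (Sylow 3 X) = (normalizer ((P : Subgroup X) : Set X)).index :=
    Sylow.card_eq_index_normalizer P
  have hm := card_sylow_modEq_one 3 X
  obtain ⟨h, hh⟩ := isConj_iff.1 (hR.inv y)
  have hy3 : y ^ 3 = 1 := by rw [← hy]; exact pow_orderOf_eq_one y
  have hne : y⁻¹ ≠ y := by
    intro e
    have h2 : y ^ 2 = 1 := by rw [sq]; nth_rewrite 1 [← e]; exact inv_mul_cancel y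
    have := orderOf_dvd_of_pow_eq_one h2
    rw [hy] at this
    norm_num at this
  have key : ∀ g : X, g * y * g⁻¹ ∈ zpowers y → g ∈ normalizer ((P : Subgroup X) : Set X) := by
    intro g hg
    apply mem_normalizer_fintype
    intro x hx
    obtain ⟨k, rfl⟩ := mem_zpowers_iff.1 (show x ∈ zpowers y from hx)
    rw [← conj_zpow]
    exact zpow_mem hg k
  have hle : centralizer ({y} : Set X) ≤ normalizer ((P : Subgroup X) : Set X) := by
    intro g hg
    apply key
    rw [mem_centralizer_singleton_iff.1 hg, mul_inv_cancel_right]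
    exact mem_zpowers y
  have hhN : h ∈ normalizer ((P : Subgroup X) : Set X) := key h (by rw [hh]; exact inv_mem (mem_zpowers y))
  have hhC : h ∉ centralizer ({y} : Set X) := by
    intro hc
    rw [mem_centralizer_singleton_iff.1 hc, mul_inv_cancel_right] at hh
    exact hne hh.symm
  have hd := card_dvd_of_le hle
  have hi := (normalizer ((P : Subgroup X) : Set X)).index_mul_card
  unfold cc at h6
  rw [h6] at hd
  rw [h24, ← hn] at hi
  have hlt : 6 < Nat.card (normalizer ((P : Subgroup X) : Set X)) := by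
    by_contra hc
    have := eq_of_le_of_card_ge hle (by rw [h6]; omega)
    exact hhC (this ▸ hhN)
  have hone : Nat.card (Sylow 3 X) = 1 := by
    obtain ⟨k, hk⟩ := hd
    rw [hk] at hi hlt
    have hk2 : 2 ≤ k := by omega
    have : Nat.card (Sylow 3 X) ≤ 2 := by
      by_contra hc
      have := Nat.mul_le_mul (show 3 ≤ Nat.card (Sylow 3 X) by omega) (show 12 ≤ 6 * k by omega)
      omega
    unfold Nat.ModEq at hm
    omega
  rw [hn, index_eq_one] at hone
  have hall : ∀ g : X, g * y * g⁻¹ = y ∨ g * y * g⁻¹ = y⁻¹ := by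
    intro g
    have hg : g ∈ normalizer ((P : Subgroup X) : Set X) := hone ▸ mem_top g
    have h1 : g * y * g⁻¹ ∈ zpowers y := (mem_normalizer_iff.1 hg y).1 (mem_zpowers y)
    rw [mem_zpowers_iff_mem_range_orderOf, hy] at h1
    obtain ⟨k, hk, e⟩ := Finset.mem_image.1 h1
    have hk3 := Finset.mem_range.1 hk
    interval_cases k
    · exfalso
      rw [pow_zero] at e
      have : y = 1 := by
        have := congrArg (fun t => g⁻¹ * t * g) e
        simpa [mul_assoc] using this.symm
      rw [this, orderOf_one] at hy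
      norm_num at hy
    · left; rw [← e, pow_one]
    · right; rw [← e]
      apply eq_inv_of_mul_eq_one_left
      rw [← pow_succ, hy3]
  have hidx : (centralizer ({y} : Set X)).index = 2 := by
    rw [index_eq_two_iff]
    refine ⟨h, fun g => ?_⟩
    have e1 : ∀ t : X, t ∈ centralizer ({y} : Set X) ↔ t * y * t⁻¹ = y := fun t => by
      rw [mem_centralizer_singleton_iff, mul_inv_eq_iff_eq_mul]
    have e2 : g * h * y * (g * h)⁻¹ = (g * y * g⁻¹)⁻¹ := by
      calc g * h * y * (g * h)⁻¹ = g * (h * y * h⁻¹) * g⁻¹ := by group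
        _ = _ := by rw [hh]; group
    rw [e1, e1, e2]
    rcases hall g with e | e
    · rw [e]; exact Or.inr ⟨rfl, hne⟩
    · rw [e, inv_inv]; exact Or.inl ⟨rfl, hne⟩
  have := (centralizer ({y} : Set X)).index_mul_card
  rw [hidx, h6, h24] at this
  norm_num at this

theorem u8 {X : Type*} [Group X] [Finite X] (hR : RatG X) (h24 : Nat.card X ∣ 24) {z a : X} (hz : z ≠ 1)
    (h2 : z * z = 1) (hu : ∀ t : X, t * t = 1 → t = 1 ∨ t = z) (ha : a * a = z) :
    Nat.card X = 8 ∧ (zpowers z).index = 4 ∧ ∀ g, g ∉ zpowers z → 4 ∣ orderOf g := by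
  have h8 := hR.eight (x := a) (by rw [u8_ord4 hz h2 ha])
  have hoz : orderOf z = 2 := orderOf_eq_prime (by rw [sq, h2]) hz
  have hcen : ∀ g : X, g * z = z * g := by
    intro g
    rcases hu (g * z * g⁻¹) (by
      calc g * z * g⁻¹ * (g * z * g⁻¹) = g * (z * z) * g⁻¹ := by group
        _ = 1 := by rw [h2]; group) with h | h
    · exfalso
      apply hz
      have := congrArg (fun t => g⁻¹ * t * g) h
      simpa [mul_assoc] using this
    · exact mul_inv_eq_iff_eq_mul.1 h
  have hc : Nat.card X = 8 := by
    have hle := Nat.le_of_dvd (by norm_num) h24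
    obtain ⟨k, hk⟩ := h8
    have hk' : k ≤ 3 := by omega
    rw [hk] at h24
    interval_cases k
    · norm_num at h24
    · omega
    · norm_num at h24
    · exfalso
      have h24' : Nat.card X = 24 := by omega
      obtain ⟨y, hy⟩ := exists_prime_orderOf_dvd_card' (G := X) 3 (by rw [h24']; norm_num)
      have hyz : Commute y z := hcen y
      have h6 : orderOf (y * z) = 6 := by
        rw [hyz.orderOf_mul_eq_mul_orderOf_of_coprime (by rw [hy, hoz]; norm_num), hy, hoz]
      have h1 := dvd_cc ((Commute.refl y).mul_right hyz)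
      have h3 := hR.ord y
      rw [h6] at h1
      rw [hy, h24', show Nat.totient 3 = 2 by decide] at h3
      have h12 : cc y ∣ 12 := Nat.dvd_of_mul_dvd_mul_left (k := 2) (by norm_num) h3
      obtain ⟨m, hm⟩ := h1
      have hle := Nat.le_of_dvd (by norm_num) h12
      have hpos := cc_pos y
      have : cc y = 6 ∨ cc y = 12 := by omega
      rcases this with h | h
      · exact u8_six hR h24' hy h
      · exact u8_twelve hR h24' hz h2 hu hy h
  refine ⟨hc, ?_, fun g hg => ?_⟩
  · have := (zpowers z).index_mul_card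
    rw [Nat.card_zpowers, hoz, hc] at this
    omega
  · have hd : orderOf g ∣ 2 ^ 3 := by
      have := orderOf_dvd_natCard g
      rwa [hc] at this
    obtain ⟨k, hk, e⟩ := (Nat.dvd_prime_pow Nat.prime_two).1 hd
    have hsq : g * g ≠ 1 := by
      intro h
      rcases hu g h with h | h
      · exact hg (h ▸ one_mem _)
      · exact hg (h ▸ mem_zpowers _)
    have hn : ¬ orderOf g ∣ 2 := by
      intro h
      exact hsq (by rw [← sq]; exact orderOf_dvd_iff_pow_eq_one.1 h)
    rw [e] at hn ⊢
    interval_cases k <;> simp_all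

end Cfsg.Agent.AH
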