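import Cfsg.Agent.AH.A5a
import Cfsg.Agent.AH.U8

set_option autoImplicit false

namespace Cfsg.Agent.AH

open Subgroup

universe u

theorem a5b_dvd {G Ω : Type*} [Group G] [MulAction G Ω] [Finite G] [Finite Ω] {m : ℕ}
    (h : ∀ w : Ω, (MulAction.stabilizer G w).index = m) : m ∣ Nat.card Ω := by
  classical
  have := Fintype.ofFinite (MulAction.orbitRel.Quotient G Ω)
  rw [Nat.card_congr (MulAction.selfEquivSigmaOrbitsQuotientStabilizer G Ω), Nat.card_sigma]
  exact Finset.dvd_sum fun ω _ => dvd_of_eq (h _).symm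

/-- conjugation on the nontrivial elements of a normal subgroup -/
abbrev a5bAct {H : Type*} [Group H] {V : Subgroup H} (hV : V.Normal) : MulAction H {w : H // w ∈ V ∧ w ≠ 1} where
  smul g w := ⟨g * w * g⁻¹, hV.conj_mem _ w.2.1 g, fun e => w.2.2 (conj_eq_one_iff.1 e)⟩
  one_smul w := Subtype.ext (by change 1 * w.1 * 1⁻¹ = w.1; group)
  mul_smul g k w := Subtype.ext (by change g * k * w.1 * (g * k)⁻¹ = g * (k * w.1 * k⁻¹) * g⁻¹; group)

theorem a5b_lift {G X : Type*} [Group G] [Group X] (f : G →* X) (hf : Function.Surjective f)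
    (h : ∃ N : Subgroup X, N.index = 4 ∧ ∀ g, g ∉ N → 4 ∣ orderOf g) :
    ∃ N : Subgroup G, N.index = 4 ∧ ∀ g, g ∉ N → 4 ∣ orderOf g := by
  obtain ⟨N, h1, h2⟩ := h
  exact ⟨N.comap f, by rw [index_comap_of_surjective _ hf, h1], fun g hg =>
    (h2 (f g) hg).trans (orderOf_map_dvd f g)⟩

theorem a5b {H : Type u} [Group H] [Finite H] (hR : RatG H) {V : Subgroup H} (hV : MN V 5)
    (h25 : Nat.card V = 25) {v : H} (hv : v ∈ V) (h1 : v ≠ 1) (hC : centralizer {v} = V) :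
    ∃ N : Subgroup H, N.index = 4 ∧ ∀ g, g ∉ N → 4 ∣ orderOf g := by
  classical
  have := hV.nm
  let _ := a5bAct hV.nm
  have hX : RatG (H ⧸ V) := hR.of_surj (QuotientGroup.mk' V) (QuotientGroup.mk'_surjective V)
  have st : ∀ w : {w : H // w ∈ V ∧ w ≠ 1}, MulAction.stabilizer H w = centralizer {w.1} := fun w => by
    ext g
    rw [MulAction.mem_stabilizer_iff, mem_centralizer_singleton_iff, Subtype.ext_iff]
    exact mul_inv_eq_iff_eq_mul
  have c24 : Nat.card {w : H // w ∈ V ∧ w ≠ 1} = 24 := by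
    have e : {w : H // w ∈ V ∧ w ≠ 1} ≃ {w : V // w ≠ 1} :=
      ⟨fun w => ⟨⟨w.1, w.2.1⟩, fun e => w.2.2 (congrArg Subtype.val e)⟩,
        fun w => ⟨w.1.1, w.1.2, fun e => w.2 (Subtype.ext e)⟩, fun _ => rfl, fun _ => rfl⟩
    have := Fintype.ofFinite V
    rw [Nat.card_congr e, Nat.card_eq_fintype_card, Fintype.card_subtype_compl, Fintype.card_subtype_eq,
      ← Nat.card_eq_fintype_card, h25]
  have le24 : Nat.card (H ⧸ V) ≤ 24 := by
    have := MulAction.index_stabilizer H (⟨v, hv, h1⟩ : {w : H // w ∈ V ∧ w ≠ 1})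
    rw [st, hC] at this
    rw [← c24, ← index_eq_card, this]
    exact Set.ncard_le_card _
  have o5 : orderOf v = 5 := orderOf_eq_prime (hV.exp v hv) h1
  have v5 := hV.exp v hv
  have mC : ∀ g, g ∈ V ↔ g * v * g⁻¹ = v := fun g => by
    rw [mul_inv_eq_iff_eq_mul, ← mem_centralizer_singleton_iff, hC]
  obtain ⟨a, ha⟩ := isConj_iff.1 (hR v 2 (by rw [o5]; norm_num))
  have ha2 : a * a * v * (a * a)⁻¹ = v⁻¹ := by
    calc a * a * v * (a * a)⁻¹ = a * (a * v * a⁻¹) * a⁻¹ := by group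
      _ = a * v ^ 2 * a⁻¹ := by rw [ha]
      _ = (a * v * a⁻¹) ^ 2 := conj_pow.symm
      _ = v⁻¹ := by rw [ha, ← pow_mul]; exact eq_inv_of_mul_eq_one_left (by rw [← pow_succ]; exact v5)
  have vne : v⁻¹ ≠ v := fun e => by
    have : v ^ 2 = 1 := by rw [pow_two]; nth_rewrite 1 [← e]; exact inv_mul_cancel v
    have := orderOf_dvd_of_pow_eq_one this
    rw [o5] at this
    omega
  have z1 : ((a : H ⧸ V) * a) ≠ 1 := fun e => by
    rw [← QuotientGroup.mk_mul, QuotientGroup.eq_one_iff, mC, ha2] at e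
    exact vne e
  have z2 : ((a : H ⧸ V) * a) * (a * a) = 1 := by
    rw [← QuotientGroup.mk_mul, ← QuotientGroup.mk_mul, QuotientGroup.eq_one_iff, mC]
    calc a * a * (a * a) * v * (a * a * (a * a))⁻¹ = a * a * (a * a * v * (a * a)⁻¹) * (a * a)⁻¹ := by group
      _ = a * a * v⁻¹ * (a * a)⁻¹ := by rw [ha2]
      _ = (a * a * v * (a * a)⁻¹)⁻¹ := conj_inv.symm
      _ = v := by rw [ha2, inv_inv]
  have o4 : orderOf (a : H ⧸ V) = 2 ^ 2 := orderOf_eq_prime_pow (by rwa [pow_one, pow_two])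
    (by rw [← z2, ← pow_two, ← pow_two, ← pow_mul]; rfl)
  have d8 := hX.eight (x := (a : H ⧸ V)) (by rw [o4]; norm_num)
  have pos : 0 < Nat.card (H ⧸ V) := Nat.card_pos
  have n5 : ¬ 5 ∣ Nat.card (H ⧸ V) := by omega
  have free : ∀ h, h ∉ V → ∀ w ∈ V, h * w = w * h → w = 1 := fun h hh w hw e => by
    obtain ⟨i, c, n, e1, e2, e3, -⟩ := exists_part h Nat.prime_five
    have hi : h ^ i ∈ V := by
      rw [← QuotientGroup.eq_one_iff, ← orderOf_eq_one_iff]
      refine Nat.eq_one_of_dvd_coprimes (k := orderOf ((h ^ i : H) : H ⧸ V))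
        (((Nat.Prime.coprime_iff_not_dvd Nat.prime_five).2 n5).pow_left n) ?_ (orderOf_dvd_natCard _)
      exact orderOf_dvd_of_pow_eq_one (by rw [← QuotientGroup.mk_pow, e2, QuotientGroup.mk_one])
    obtain ⟨k, hk⟩ := hV.card Nat.prime_five (K := V ⊓ centralizer {h ^ c}) inf_le_left
    have d : Nat.card (V ⊓ centralizer {h ^ c} : Subgroup H) ∣ 5 ^ 2 := by
      rw [show 5 ^ 2 = 25 from rfl, ← h25]; exact card_dvd_of_le inf_le_left
    rw [hk, Nat.pow_dvd_pow_iff_le_right (by norm_num)] at d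
    interval_cases k
    · have hb : (V ⊓ centralizer {h ^ c} : Subgroup H) = ⊥ := card_eq_one.1 hk
      have : w ∈ (V ⊓ centralizer {h ^ c} : Subgroup H) :=
        mem_inf.2 ⟨hw, mem_centralizer_singleton_iff.2 (Commute.pow_right e.symm c).eq⟩
      rwa [hb, mem_bot] at this
    · exact absurd hk (r2 hR hV.nm hV.comm hV.exp e3)
    · have hb : (V ⊓ centralizer {h ^ c} : Subgroup H) = V :=
        eq_of_le_of_card_ge inf_le_left (by rw [hk, h25]; norm_num)
      have : v ∈ centralizer {h ^ c} := (mem_inf.1 (hb.symm ▸ hv : v ∈ V ⊓ centralizer {h ^ c})).2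
      have h3 : h ^ c ∈ V := hC ▸ mem_centralizer_singleton_iff.2 (mem_centralizer_singleton_iff.1 this).symm
      exact absurd (e1 ▸ mul_mem hi h3) hh
  have d24 : Nat.card (H ⧸ V) ∣ 24 := by
    rw [← c24]
    refine a5b_dvd (G := H) fun w => ?_
    have : centralizer {w.1} = V := le_antisymm (fun g hg => by
      by_contra hn
      exact w.2.2 (free g hn w w.2.1 (mem_centralizer_singleton_iff.1 hg)))
      fun g hg => mem_centralizer_singleton_iff.2 (hV.comm g hg w w.2.1)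
    rw [st, this, index_eq_card]
  obtain ⟨-, i4, hN⟩ := u8 hX d24 z1 z2 (a := (a : H ⧸ V)) (fun t ht => by
    obtain ⟨t, rfl⟩ := QuotientGroup.mk_surjective t
    by_cases hn : t ∈ V
    · exact Or.inl ((QuotientGroup.eq_one_iff t).2 hn)
    refine Or.inr ?_
    rw [← QuotientGroup.mk_mul, QuotientGroup.eq_one_iff, mC] at ht
    have c := hV.comm v hv _ (hV.nm.conj_mem v hv t)
    have e := free t hn (v * (t * v * t⁻¹)) (mul_mem hv (hV.nm.conj_mem v hv t)) (by
      calc t * (v * (t * v * t⁻¹)) = t * v * t⁻¹ * (t * t * v * (t * t)⁻¹) * t := by group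
        _ = _ := by rw [ht, ← c])
    have e' : t * v * t⁻¹ = v⁻¹ := eq_inv_of_mul_eq_one_right e
    rw [← QuotientGroup.mk_mul, QuotientGroup.eq, mC]
    calc t⁻¹ * (a * a) * v * (t⁻¹ * (a * a))⁻¹ = t⁻¹ * (a * a * v * (a * a)⁻¹) * t := by group
      _ = v := by rw [ha2, ← e']; group) rfl
  exact a5b_lift (QuotientGroup.mk' V) (QuotientGroup.mk'_surjective V) ⟨_, i4, hN⟩

theorem a5 {G : Type u} [Group G] [Finite G] (hs : Group.IsSolvable G) (hR : RatG G) {x : G}
    (h5 : 5 ∣ cc x) (h50 : cc x < 50) :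
    ∃ N : Subgroup G, N.index = 4 ∧ ∀ g, g ∉ N → 4 ∣ orderOf g := by
  obtain ⟨N, _, V, hV, h25, v, hv, h1, hC⟩ := a5a hs hR h5 h50
  exact a5b_lift (QuotientGroup.mk' N) (QuotientGroup.mk'_surjective N)
    (a5b (hR.of_surj (QuotientGroup.mk' N) (QuotientGroup.mk'_surjective N)) hV h25 hv h1 hC)

end Cfsg.Agent.AH
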