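import Cfsg.Agent.AH.Defs
import Cfsg.Agent.H2.MinNormal
import Cfsg.Agent.H4.SCN

set_option autoImplicit false

namespace Cfsg.Agent.AH

open Subgroup

universe u

variable {G H : Type*} [Group G] [Group H] [Finite G]

theorem BasB_card (f : G →* H) (hf : Function.Surjective f) (K : Subgroup H) :
    Nat.card (K.comap f) = Nat.card f.ker * Nat.card K := by
  have : Finite H := Finite.of_surjective f hf
  have h1 := (K.comap f).card_mul_index
  have h2 := K.card_mul_index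
  have h3 := f.ker.card_mul_index
  rw [index_ker, MonoidHom.range_eq_top.2 hf, card_top] at h3
  rw [index_comap_of_surjective _ hf] at h1
  refine Nat.eq_of_mul_eq_mul_right (Nat.pos_of_ne_zero K.index_ne_zero_of_finite) ?_
  rw [h1, mul_assoc, h2, h3]

theorem cc_le (f : G →* H) (hf : Function.Surjective f) (x : G) : cc (f x) ≤ cc x := by
  have h0 := BasB_card f hf (centralizer {f x})
  set D := (centralizer ({f x} : Set H)).comap f
  have h1 : (centralizer {x}).relIndex D ≤ Nat.card f.ker := by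
    refine H4.relIndex_centralizer_le fun c hc => ?_
    rw [MonoidHom.mem_ker, map_commutatorElement]
    exact commutatorElement_eq_one_iff_mul_comm.mpr (hc (f x) rfl)
  have h2 := H2.card_inf_mul_relIndex (centralizer {x}) D
  have h3 : Nat.card ↥(centralizer {x} ⊓ D) ≤ Nat.card (centralizer ({x} : Set G)) :=
    card_le_of_le inf_le_left
  refine Nat.le_of_mul_le_mul_left (c := Nat.card f.ker) ?_ Nat.card_pos
  unfold cc
  rw [← h0, ← h2, mul_comm]
  exact Nat.mul_le_mul h1 h3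

theorem cc_half (f : G →* H) (hf : Function.Surjective f) {t u : G} (ht : f t = 1) (h1 : t ≠ 1)
    (h2 : t * t = 1) (hc : ∀ g, g * t = t * g) (hu : u ^ 3 = 1) : 2 * cc (f u) ≤ cc u := by
  have hm : ∀ y ∈ zpowers t, y = 1 ∨ y = t := fun y hy => by
    obtain ⟨k, rfl⟩ := mem_powers_iff_mem_zpowers.2 hy
    have hk : ∀ k : ℕ, t ^ k = 1 ∨ t ^ k = t := fun k => by
      induction k with
      | zero => exact Or.inl (pow_zero t)
      | succ k ih =>
        rcases ih with e | e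
        · exact Or.inr (by rw [pow_succ, e, one_mul])
        · exact Or.inl (by rw [pow_succ, e, h2])
    exact hk k
  have hN : (zpowers t).Normal := ⟨fun y hy g => by
    rcases hm y hy with rfl | rfl
    · rw [mul_one, mul_inv_cancel]
      exact one_mem _
    · rwa [hc, mul_inv_cancel_right]⟩
  have hk : zpowers t ≤ f.ker := zpowers_le_of_mem ht
  have h3 := cc_le (QuotientGroup.lift (zpowers t) f hk)
    (QuotientGroup.lift_surjective_of_surjective _ f hf hk) (u : G ⧸ zpowers t)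
  rw [QuotientGroup.lift_mk] at h3
  have h4 := BasB_card (QuotientGroup.mk' (zpowers t)) (QuotientGroup.mk'_surjective _)
    (centralizer {(u : G ⧸ zpowers t)})
  have h5 : orderOf t = 2 := orderOf_eq_prime (by rw [pow_two, h2]) h1
  rw [QuotientGroup.ker_mk', Nat.card_zpowers, h5] at h4
  have h6 : (centralizer {(u : G ⧸ zpowers t)}).comap (QuotientGroup.mk' (zpowers t)) ≤
      centralizer {u} := fun c hc' => by
    have e : ((c * u * c⁻¹ : G) : G ⧸ zpowers t) = u := by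
      rw [QuotientGroup.mk_mul, QuotientGroup.mk_mul, QuotientGroup.mk_inv, mul_inv_eq_iff_eq_mul]
      exact mem_centralizer_singleton_iff.1 hc'
    rcases hm _ (QuotientGroup.eq.1 e.symm) with e' | e'
    · rw [inv_mul_eq_one, eq_mul_inv_iff_mul_eq] at e'
      exact mem_centralizer_singleton_iff.2 e'.symm
    · rw [inv_mul_eq_iff_eq_mul] at e'
      have e3 : (u * t) ^ 3 = 1 := by rw [← e', conj_pow, hu, mul_one, mul_inv_cancel]
      rw [(show Commute u t from hc u).mul_pow, hu, one_mul, pow_succ, pow_two, h2, one_mul] at e3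
      exact absurd e3 h1
  exact (Nat.mul_le_mul_left 2 h3).trans (h4.ge.trans (card_le_of_le h6))

theorem exists_MN (hs : Group.IsSolvable G) {N : Subgroup G} (hN : N.Normal) (h0 : N ≠ ⊥) :
    ∃ (V : Subgroup G) (q : ℕ), q.Prime ∧ V ≤ N ∧ MN V q := by
  obtain ⟨V, q, hq, h1, h2, h3, h4, -, h5, h6⟩ :=
    H2.exists_minimal_normal_le_of_solvable N hN inferInstance h0
  exact ⟨V, q, hq, h3, h1, h2, fun x hx y hy => H2.mul_comm_of_mem h4 hx hy, h5, h6⟩

theorem chief (hs : Group.IsSolvable G) {q n : ℕ} (hq : q.Prime) {x : G} (h1 : x ≠ 1)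
    (hx : x ^ q ^ n = 1) : ∃ (N : Subgroup G) (_ : N.Normal) (V : Subgroup (G ⧸ N)),
      MN V q ∧ (x : G ⧸ N) ∈ V ∧ (x : G ⧸ N) ≠ 1 := by
  have hwf : WellFoundedGT (Subgroup G) := inferInstance
  obtain ⟨N, ⟨hN, hxN⟩, hmax⟩ := hwf.wf.has_min {M : Subgroup G | M.Normal ∧ x ∉ M}
    ⟨⊥, inferInstance, fun h => h1 (mem_bot.1 h)⟩
  have h2 : (x : G ⧸ N) ≠ 1 := fun e => hxN ((QuotientGroup.eq_one_iff x).1 e)
  have : Nontrivial (G ⧸ N) := ⟨_, _, h2⟩
  obtain ⟨V, r, hr, -, hV⟩ := exists_MN (G := G ⧸ N) inferInstance (N := ⊤) inferInstance top_ne_bot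
  have h3 : (x : G ⧸ N) ∈ V := by
    by_contra h
    refine hmax (V.comap (QuotientGroup.mk' N)) ⟨hV.nm.comap _, h⟩
      (lt_of_le_of_ne (QuotientGroup.le_comap_mk' N V) fun e => hV.ne (eq_bot_iff.2 fun v hv => ?_))
    obtain ⟨g, rfl⟩ := QuotientGroup.mk_surjective v
    exact (QuotientGroup.eq_one_iff g).2 (e.ge hv)
  have := Fact.mk hr
  have h4 : orderOf (x : G ⧸ N) ∣ q ^ n :=
    orderOf_dvd_of_pow_eq_one (by rw [← QuotientGroup.mk_pow, hx, QuotientGroup.mk_one])
  rw [orderOf_eq_prime (hV.exp _ h3) h2] at h4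
  obtain rfl := (Nat.prime_dvd_prime_iff_eq hr hq).1 (hr.dvd_of_dvd_pow h4)
  exact ⟨N, hN, V, hV, h3, h2⟩

theorem MN.card {V : Subgroup G} {q : ℕ} (hq : q.Prime) (h : MN V q) {K : Subgroup G} (hK : K ≤ V) :
    ∃ n, Nat.card K = q ^ n := by
  have := Fact.mk hq
  exact (H2.isPGroup_of_forall_pow_eq_one fun x hx => h.exp x (hK hx)).exists_card_eq

/-- `x` is the product of its `q`-part and its `q'`-part -/
theorem exists_part (x : G) {q : ℕ} (hq : q.Prime) : ∃ a c n : ℕ, x = x ^ a * x ^ c ∧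
    (x ^ a) ^ q ^ n = 1 ∧ ¬ q ∣ orderOf (x ^ c) ∧ ¬ q ∣ a := by
  obtain ⟨n, m, hm, ho⟩ := Nat.exists_eq_pow_mul_and_not_dvd (orderOf_pos x).ne' q hq.ne_one
  have hco : ∀ k, (q ^ k).Coprime m := fun k => ((hq.coprime_iff_not_dvd).2 hm).pow_left k
  obtain ⟨a, ha1, ha2⟩ := Nat.chineseRemainder (hco (n + 1)) 1 0
  obtain ⟨c, hc1, hc2⟩ := Nat.chineseRemainder (hco n) 0 1
  refine ⟨a, c, n, ?_, ?_, fun h => hm (h.trans (orderOf_dvd_of_pow_eq_one ?_)), fun h => ?_⟩
  · rw [← pow_add]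
    conv_lhs => rw [← pow_one x]
    rw [pow_eq_pow_iff_modEq, ho, ← Nat.modEq_and_modEq_iff_modEq_mul (hco n)]
    exact ⟨((ha1.of_dvd (pow_dvd_pow q n.le_succ)).add hc1).symm, (ha2.add hc2).symm⟩
  · rw [← pow_mul, ← orderOf_dvd_iff_pow_eq_one, ho, mul_comm]
    exact Nat.mul_dvd_mul_right (Nat.modEq_zero_iff_dvd.1 ha2) _
  · rw [← pow_mul, ← orderOf_dvd_iff_pow_eq_one, ho]
    exact Nat.mul_dvd_mul_right (Nat.modEq_zero_iff_dvd.1 hc1) _
  · exact hq.not_dvd_one ((ha1.dvd_iff (dvd_pow_self q n.succ_ne_zero)).1 h)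

end Cfsg.Agent.AH
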