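import Cfsg.Agent.AH.Defs

set_option autoImplicit false

namespace Cfsg.Agent.AH

open Subgroup

universe u

variable {F V : Type*} [Field F] [AddCommGroup V] [Module F V] {b : V →ₗ[F] V →ₗ[F] F}
  {Γ : Subgroup (V ≃ₗ[F] V)}

theorem pow_eig {x : V ≃ₗ[F] V} {v : V} {θ : F} (h : x v = θ • v) (n : ℕ) : (x ^ n) v = θ ^ n • v := by
  induction n with
  | zero => simp
  | succ n ih => rw [pow_succ', LinearEquiv.mul_apply, ih, map_smul, h, smul_smul, pow_succ]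

theorem ng_ne_one [Nontrivial V] (h2 : (2 : F) ≠ 0) : (ng : V ≃ₗ[F] V) ≠ 1 := fun h => by
  obtain ⟨v, hv⟩ := exists_ne (0 : V)
  have h1 : -v = v := LinearEquiv.congr_fun h v
  have h3 : (2 : F) • v = 0 := by rw [two_smul]; exact neg_eq_iff_add_eq_zero.1 h1
  exact hv ((smul_eq_zero.1 h3).resolve_left h2)

/-- an involution without fixed vectors is `-1` -/
theorem eq_ng {x : V ≃ₗ[F] V} (h : x * x = 1) (hf : ∀ v, x v = v → v = 0) : x = ng :=
  LinearEquiv.ext fun v => by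
    have h1 : x (x v) = v := LinearEquiv.congr_fun h v
    exact eq_neg_of_add_eq_zero_left (hf (x v + v) (by rw [map_add, h1, add_comm]))

theorem exists_res (N : Subgroup (V ≃ₗ[F] V)) (U : Submodule F V) (h : ∀ x ∈ N, ∀ v ∈ U, x v ∈ U) :
    ∃ r : N →* (U ≃ₗ[F] U), ∀ (x : N) (v : U), (r x v : V) = x.1 v := by
  let f : N → (U ≃ₗ[F] U) := fun x =>
    { toFun := fun v => ⟨x.1 v, h x.1 x.2 v v.2⟩
      map_add' := fun v w => Subtype.ext (map_add x.1 v.1 w.1)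
      map_smul' := fun c v => Subtype.ext (map_smul x.1 c v.1)
      invFun := fun v => ⟨x⁻¹.1 v, h x⁻¹.1 x⁻¹.2 v v.2⟩
      left_inv := fun v => Subtype.ext (x.1.symm_apply_apply v.1)
      right_inv := fun v => Subtype.ext (x.1.apply_symm_apply v.1) }
  exact ⟨MonoidHom.mk' f fun x y => LinearEquiv.ext fun v => rfl, fun x v => rfl⟩

theorem Sp.mono (h : Sp b Γ) {Δ : Subgroup (V ≃ₗ[F] V)} (hΔ : Δ ≤ Γ) : Sp b Δ :=
  ⟨h.alt, h.nd, fun x hx => h.inv x (hΔ hx)⟩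

/-- restriction to a nondegenerate subspace -/
theorem Sp.res (h : Sp b Γ) {N : Subgroup (V ≃ₗ[F] V)} (hN : N ≤ Γ) {U : Submodule F V} (hU : Nd b U)
    {r : N →* (U ≃ₗ[F] U)} (hr : ∀ (x : N) (v : U), (r x v : V) = x.1 v) :
    Sp (b.compl₁₂ U.subtype U.subtype) r.range := by
  refine ⟨fun v => h.alt v, fun v hv => Subtype.ext (hU v v.2 fun w hw => hv ⟨w, hw⟩), ?_⟩
  rintro _ ⟨x, rfl⟩ v w
  simp only [LinearMap.compl₁₂_apply, Submodule.subtype_apply, hr]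
  exact h.inv x (hN x.2) v w

theorem Sp.skew (h : Sp b Γ) (v w : V) : b v w = - b w v := by
  have := h.alt (v + w)
  simp only [map_add, LinearMap.add_apply, h.alt, zero_add, add_zero] at this
  exact eq_neg_of_add_eq_zero_right this

theorem Sp.QL (h : Sp b Γ) {r : V ≃ₗ[F] V} (hr : r ∈ Γ) (hq : ∀ v, b v (r v) = 0) : r * r = 1 := by
  have h1 : ∀ v w, b v (r w) = b (r v) w := fun v w => by
    have := hq (v + w)
    simp only [map_add, LinearMap.add_apply, hq, zero_add, add_zero] at this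
    rw [h.skew (r v) w]
    exact eq_neg_of_add_eq_zero_right this
  refine LinearEquiv.ext fun v => sub_eq_zero.1 (h.nd _ fun w => ?_)
  rw [map_sub, LinearMap.sub_apply, LinearEquiv.mul_apply, ← h1, h.inv r hr]
  exact sub_self _

theorem Sp.q_zero (h : Sp b Γ) {x r : V ≃ₗ[F] V} (hx : x ∈ Γ) (hc : x * r = r * x) {v : V} {θ : F}
    (hv : x v = θ • v) (hθ : θ ^ 2 ≠ 1) : b v (r v) = 0 := by
  have h1 := h.inv x hx v (r v)
  have h2 : x (r v) = r (x v) := LinearEquiv.congr_fun hc v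
  rw [h2, hv] at h1
  simp only [map_smul, LinearMap.smul_apply, smul_eq_mul] at h1
  have h3 : (θ ^ 2 - 1) * b v (r v) = 0 := by linear_combination h1
  exact (mul_eq_zero.1 h3).resolve_left (sub_ne_zero.2 hθ)

/-- averaging over a subgroup fixing `v` -/
theorem Sp.avg (h : Sp b Γ) {L : Subgroup (V ≃ₗ[F] V)} [Fintype L] (hL : L ≤ Γ) {v : V}
    (hv : v ∈ Fix L) (w : V) :
    ∑ l : L, l.1 w ∈ Fix L ∧ b v (∑ l : L, l.1 w) = (Nat.card L : F) * b v w := by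
  refine ⟨fun x hx => ?_, ?_⟩
  · rw [map_sum]
    exact Fintype.sum_equiv (Equiv.mulLeft (⟨x, hx⟩ : L)) _ _ fun l => rfl
  · have h1 : ∀ l : L, b v (l.1 w) = b v w := fun l => by
      conv_lhs => rw [← hv l.1 l.2]
      exact h.inv l.1 (hL l.2) v w
    rw [map_sum]
    simp only [h1, Finset.sum_const, Finset.card_univ, nsmul_eq_mul, Nat.card_eq_fintype_card]

theorem Sp.fix_nd (h : Sp b Γ) {L : Subgroup (V ≃ₗ[F] V)} [Finite L] (hL : L ≤ Γ)
    (hc : (Nat.card L : F) ≠ 0) : Nd b (Fix L) := fun v hv hw => h.nd v fun w => by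
  have := Fintype.ofFinite L
  obtain ⟨h1, h2⟩ := h.avg hL hv w
  rw [hw _ h1] at h2
  exact (mul_eq_zero.1 h2.symm).resolve_left hc

/-- a normal `p`-subgroup of an irreducible group in characteristic `p` is trivial -/
theorem Irr.pgroup {p : ℕ} [Fact p.Prime] {V : Type*} [AddCommGroup V] [Module (ZMod p) V] [Finite V]
    {Γ A : Subgroup (V ≃ₗ[ZMod p] V)} (h : Irr Γ) (hA : A ≤ Γ)
    (hn : ∀ g ∈ Γ, ∀ a ∈ A, g * a * g⁻¹ ∈ A) (hp : IsPGroup p A) : A = ⊥ := by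
  rcases subsingleton_or_nontrivial V with hV | hV
  · exact eq_bot_iff.2 fun a _ => mem_bot.2 (LinearEquiv.ext fun v => Subsingleton.elim _ _)
  have h1 : p ∣ Nat.card V := by
    rw [Module.natCard_eq_pow_finrank (K := ZMod p), Nat.card_zmod]
    exact dvd_pow_self p Module.finrank_pos.ne'
  obtain ⟨v, hv, hv0⟩ := hp.exists_fixed_point_of_prime_dvd_card_of_fixed_point V h1 (a := 0)
    fun a => smul_zero a
  rcases h (Fix A) (fun x hx v hv a ha => by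
    have h2 := hv _ (hn x⁻¹ (Γ.inv_mem hx) a ha)
    rw [inv_inv] at h2
    have h3 : x⁻¹ (a (x v)) = v := h2
    rw [← x.apply_symm_apply (a (x v))]
    exact congrArg x h3) with h2 | h2
  · have h3 : v ∈ Fix A := fun a ha => hv ⟨a, ha⟩
    rw [h2] at h3
    exact absurd (Submodule.mem_bot _ |>.1 h3).symm hv0
  · exact eq_bot_iff.2 fun a ha => mem_bot.2 (LinearEquiv.ext fun v =>
      (show v ∈ Fix A from h2 ▸ Submodule.mem_top) a ha)

theorem prim_pow {p : ℕ} [Fact p.Prime] {ζ : ZMod p} (hp : 7 ≤ p) (hζ : IsPrimitiveRoot ζ (p - 1)) :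
    ζ ≠ 0 ∧ ζ ^ 8 ≠ 1 ∧ ζ ^ 4 ≠ 1 ∧ ζ ^ 2 ≠ 1 ∧ ζ ≠ 1 ∧ ζ ≠ -1 ∧ (ζ ^ 6 = 1 → p = 7) ∧
      (ζ ^ 24 = 1 → p = 7 ∨ p = 13) := by
  have hpr : p.Prime := Fact.out
  have h24 : ζ ^ 24 = 1 → p = 7 ∨ p = 13 := fun h => by
    have h1 := (hζ.pow_eq_one_iff_dvd 24).1 h
    have h2 := Nat.le_of_dvd (by norm_num) h1
    have h3 : p ≤ 25 := by omega
    interval_cases p <;> first | omega | exact absurd hpr (by norm_num)
  have h8 : ζ ^ 8 ≠ 1 := fun h => by
    have h1 := (hζ.pow_eq_one_iff_dvd 8).1 h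
    rcases h24 (by rw [show 24 = 8 * 3 from rfl, pow_mul, h, one_pow]) with rfl | rfl <;> omega
  have h4 : ζ ^ 4 ≠ 1 := fun h => h8 (by rw [show 8 = 4 * 2 from rfl, pow_mul, h, one_pow])
  have h2 : ζ ^ 2 ≠ 1 := fun h => h4 (by rw [show 4 = 2 * 2 from rfl, pow_mul, h, one_pow])
  refine ⟨hζ.ne_zero (by omega), h8, h4, h2, fun h => h2 (by rw [h, one_pow]),
    fun h => h2 (by rw [h, neg_one_sq]), fun h => ?_, h24⟩
  have := Nat.le_of_dvd (by norm_num) ((hζ.pow_eq_one_iff_dvd 6).1 h)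
  omega

theorem Sm.cast_ne {n p : ℕ} [Fact p.Prime] (h : Sm n) (hp : 7 ≤ p) {m : ℕ} (hm : m ∣ n) :
    (m : ZMod p) ≠ 0 := fun h0 => by
  have := h p Fact.out (((ZMod.natCast_eq_zero_iff m p).1 h0).trans hm)
  omega

end Cfsg.Agent.AH
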