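import Cfsg.Agent.AH.BasB
import Cfsg.Agent.AH.BasC
import Cfsg.Agent.AH.BasL

set_option autoImplicit false
set_option linter.unusedSectionVars false
set_option linter.unusedVariables false

namespace Cfsg.Agent.AH

open Subgroup

universe u

section lin
variable {W : Type*} [AddCommGroup W] [Module (ZMod 5) W]

/-- common eigenspace of three maps -/
def r2E (T y a : W ≃ₗ[ZMod 5] W) (μ l : ZMod 5) : Submodule (ZMod 5) W where
  carrier := {w | T w = w ∧ y w = μ • w ∧ a w = l • w}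
  add_mem' h k := ⟨by rw [map_add, h.1, k.1], by rw [map_add, h.2.1, k.2.1, smul_add],
    by rw [map_add, h.2.2, k.2.2, smul_add]⟩
  zero_mem' := ⟨map_zero _, by rw [map_zero, smul_zero], by rw [map_zero, smul_zero]⟩
  smul_mem' c w h := ⟨by rw [map_smul, h.1], by rw [map_smul, h.2.1, smul_comm], by rw [map_smul, h.2.2, smul_comm]⟩

theorem r2_mem {T y a : W ≃ₗ[ZMod 5] W} {μ l : ZMod 5} {w : W} :
    w ∈ r2E T y a μ l ↔ T w = w ∧ y w = μ • w ∧ a w = l • w := Iff.rfl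

theorem r2_app {x y : W ≃ₗ[ZMod 5] W} (h : x * y = y * x) (w : W) : x (y w) = y (x w) := by
  rw [← LinearEquiv.mul_apply, h, LinearEquiv.mul_apply]

theorem r2_split {T y a : W ≃ₗ[ZMod 5] W} (h1 : T * y = y * T) (h2 : a * y = y * a) (l : ZMod 5) :
    Nat.card (r2E T (y * y) a 1 l) = Nat.card (r2E T y a 1 l) * Nat.card (r2E T y a (-1) l) := by
  rw [← Nat.card_prod]
  have six : ∀ w : W, (3 : ZMod 5) • (w + w) = w := fun w => by
    rw [← two_smul (ZMod 5), smul_smul, show (3 * 2 : ZMod 5) = 1 by decide, one_smul]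
  have m : ∀ w ∈ r2E T (y * y) a 1 l, y w ∈ r2E T (y * y) a 1 l ∧ y (y w) = w := fun w hw => by
    obtain ⟨k1, k2, k3⟩ := hw
    rw [one_smul, LinearEquiv.mul_apply] at k2
    exact ⟨⟨by rw [r2_app h1, k1], by rw [one_smul, LinearEquiv.mul_apply, k2], by rw [r2_app h2, k3, map_smul]⟩, k2⟩
  refine Nat.card_congr ⟨fun w => (⟨(3 : ZMod 5) • (w.1 + y w.1), Submodule.smul_mem _ _ ?_⟩,
    ⟨(3 : ZMod 5) • (w.1 - y w.1), Submodule.smul_mem _ _ ?_⟩), fun w => ⟨w.1.1 + w.2.1, add_mem ?_ ?_⟩,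
    fun w => Subtype.ext ?_, fun w => Prod.ext (Subtype.ext ?_) (Subtype.ext ?_)⟩
  · have := add_mem w.2 (m _ w.2).1
    exact ⟨this.1, by rw [map_add, (m _ w.2).2, one_smul, add_comm], this.2.2⟩
  · have := sub_mem w.2 (m _ w.2).1
    exact ⟨this.1, by rw [map_sub, (m _ w.2).2, neg_one_smul, neg_sub], this.2.2⟩
  · obtain ⟨k1, k2, k3⟩ := w.1.2
    exact ⟨k1, by rw [LinearEquiv.mul_apply, k2, map_smul, k2, one_smul], k3⟩
  · obtain ⟨k1, k2, k3⟩ := w.2.2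
    exact ⟨k1, by rw [LinearEquiv.mul_apply, k2, map_smul, k2, smul_smul, neg_mul_neg, one_mul], k3⟩
  · change (3 : ZMod 5) • (w.1 + y w.1) + (3 : ZMod 5) • (w.1 - y w.1) = w.1
    rw [← smul_add, add_add_sub_cancel, six]
  · change (3 : ZMod 5) • (w.1.1 + w.2.1 + y (w.1.1 + w.2.1)) = w.1.1
    rw [map_add, w.1.2.2.1, w.2.2.2.1, one_smul, neg_one_smul, show w.1.1 + w.2.1 + (w.1.1 + -w.2.1) =
      w.1.1 + w.1.1 by abel, six]
  · change (3 : ZMod 5) • (w.1.1 + w.2.1 - y (w.1.1 + w.2.1)) = w.2.1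
    rw [map_add, w.1.2.2.1, w.2.2.2.1, one_smul, neg_one_smul, show w.1.1 + w.2.1 - (w.1.1 + -w.2.1) =
      w.2.1 + w.2.1 by abel, six]

theorem r2_mul {T y a : W ≃ₗ[ZMod 5] W} {μ : ZMod 5} (h : μ * μ = 1) (l : ZMod 5) :
    r2E T y (a * y) μ l = r2E T y a μ (μ * l) := by
  ext w
  simp only [r2_mem, LinearEquiv.mul_apply]
  refine and_congr_right fun _ => and_congr_right fun k => ?_
  rw [k, map_smul]
  exact ⟨fun e => by rw [mul_smul, ← e, smul_smul, h, one_smul], fun e => by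
    rw [e, smul_smul, ← mul_assoc, h, one_mul]⟩

theorem r2_step [Finite W] {T y a : W ≃ₗ[ZMod 5] W} (h1 : T * y = y * T) (h2 : a * y = y * a)
    (e1 : Nat.card (r2E T (y * y) a 1 2) = Nat.card (r2E T (y * y) a 1 3))
    (e2 : Nat.card (r2E T (y * y) (a * y) 1 2) = Nat.card (r2E T (y * y) (a * y) 1 3)) :
    Nat.card (r2E T y a 1 2) = Nat.card (r2E T y a 1 3) := by
  have h3 : a * y * y = y * (a * y) := by rw [← mul_assoc, h2]
  rw [r2_split h1 h2, r2_split h1 h2] at e1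
  rw [r2_split h1 h3, r2_split h1 h3, r2_mul (one_mul 1), r2_mul (one_mul 1), r2_mul (by decide), r2_mul (by decide),
    one_mul, one_mul, show (-1 * 2 : ZMod 5) = 3 by decide, show (-1 * 3 : ZMod 5) = 2 by decide] at e2
  have p2 : 0 < Nat.card (r2E T y a (-1) 2) := Nat.card_pos
  have p3 : 0 < Nat.card (r2E T y a (-1) 3) := Nat.card_pos
  generalize Nat.card (r2E T y a (-1) 2) = M2 at e1 e2 p2
  generalize Nat.card (r2E T y a (-1) 3) = M3 at e1 e2 p3
  generalize Nat.card (r2E T y a 1 2) = P2 at e1 e2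
  generalize Nat.card (r2E T y a 1 3) = P3 at e1 e2
  refine Nat.mul_self_inj.1 (Nat.eq_of_mul_eq_mul_right (Nat.mul_pos p2 p3) ?_)
  calc P2 * P2 * (M2 * M3) = P2 * M2 * (P2 * M3) := by ring
    _ = P3 * M3 * (P3 * M2) := by rw [e1, e2]
    _ = _ := by ring

theorem r2_base [Finite W] {T a h : W ≃ₗ[ZMod 5] W} (h1 : h * T = T * h) (h2 : h * a * h⁻¹ = a⁻¹) :
    Nat.card (r2E T 1 a 1 2) = Nat.card (r2E T 1 a 1 3) := by
  have h3 : a * h * a = h := by rw [mul_assoc, mul_inv_eq_iff_eq_mul.1 h2, mul_inv_cancel_left]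
  have key : ∀ l l' : ZMod 5, l' * l = 1 → Nat.card (r2E T 1 a 1 l) ≤ Nat.card (r2E T 1 a 1 l') := fun l l' e =>
    Nat.card_le_card_of_injective (fun w => ⟨h w.1, by rw [← r2_app h1, w.2.1], by simp, by
      have := congrArg (fun f : W ≃ₗ[ZMod 5] W => l' • f w.1) h3
      simp only [LinearEquiv.mul_apply] at this
      rw [← this, w.2.2.2, map_smul, map_smul, smul_smul, e, one_smul]⟩)
      fun a b k => Subtype.ext (h.injective (congrArg Subtype.val k))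
  exact le_antisymm (key 2 3 (by decide)) (key 3 2 (by decide))

end lin

theorem r2 {G : Type u} [Group G] [Finite G] (hR : RatG G) {V : Subgroup G} (hV : V.Normal)
    (hc : ∀ x ∈ V, ∀ y ∈ V, x * y = y * x) (he : ∀ x ∈ V, x ^ 5 = 1) {t : G} (ht : ¬ 5 ∣ orderOf t) :
    Nat.card (V ⊓ centralizer {t} : Subgroup G) ≠ 5 := fun h5 => by
  obtain ⟨W, _, _, φ, ρ, h⟩ := exists_rep V hV 5 hc he
  have := h.finite
  obtain ⟨⟨v, hv⟩, ov⟩ := exists_prime_orderOf_dvd_card' (G := (V ⊓ centralizer {t} : Subgroup G)) 5 h5.symm.dvd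
  rw [orderOf_mk] at ov
  have zv : zpowers v = V ⊓ centralizer {t} :=
    eq_of_le_of_card_ge (zpowers_le_of_mem hv) (by rw [h5, Nat.card_zpowers, ov])
  obtain ⟨w0, rfl⟩ := (h.mem v).1 (mem_inf.1 hv).1
  have w1 : w0 ≠ 0 := fun e => by rw [e, h.zero, orderOf_one] at ov; omega
  have vt : Commute t (φ w0) := (mem_centralizer_singleton_iff.1 (mem_inf.1 hv).2).symm
  obtain ⟨g0, c0, e0⟩ := hR.comm vt (by rw [ov]; exact ((Nat.Prime.coprime_iff_not_dvd Nat.prime_five).2 ht).symm)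
    (k := 2) (by rw [ov]; norm_num)
  have e1 : ρ g0 w0 = (2 : ZMod 5) • w0 := h.inj (by rw [h.conj, e0, ← h.smul]; rfl)
  obtain ⟨a, -, m, -, g2, -, oa⟩ := exists_part g0 Nat.prime_two
  have e2 := pow_eig e1 a
  rw [← map_pow] at e2
  have hμ : (2 : ZMod 5) ^ a = 2 ∨ (2 : ZMod 5) ^ a = 3 := by
    obtain ⟨j, rfl⟩ := Nat.odd_iff.2 (Nat.two_dvd_ne_zero.1 oa)
    rw [pow_succ, pow_mul, show (2 : ZMod 5) ^ 2 = -1 by decide]
    rcases neg_one_pow_eq_or (ZMod 5) j with k | k <;> rw [k] <;> decide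
  have cg : Commute (g0 ^ a) t := c0.pow_left a
  generalize g0 ^ a = g at g2 e2 cg
  generalize (2 : ZMod 5) ^ a = μ at e2 hμ
  obtain ⟨i, j, n, et, s2, ot, -⟩ := exists_part t Nat.prime_two
  have claim : ∀ d k, k + d = n → ∀ x : ℕ, Nat.card (r2E (ρ (t ^ j)) (ρ ((t ^ i) ^ 2 ^ k)) (ρ (g * (t ^ i) ^ x)) 1 2) =
      Nat.card (r2E (ρ (t ^ j)) (ρ ((t ^ i) ^ 2 ^ k)) (ρ (g * (t ^ i) ^ x)) 1 3) := by
    intro d
    induction d with
    | zero =>
      rintro k rfl x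
      have cx : Commute g ((t ^ i) ^ x) := (cg.pow_right i).pow_right x
      have o2 : orderOf (g * (t ^ i) ^ x) ∣ 2 ^ (m + (k + 0)) := orderOf_dvd_of_pow_eq_one (by
        rw [cx.mul_pow, ← pow_mul (t ^ i), mul_comm x, pow_mul (t ^ i), pow_add 2 m, pow_mul g, g2, mul_comm (2 ^ m),
          pow_mul (t ^ i), s2]; simp)
      obtain ⟨y, y1, y2⟩ := hR.comm_inv (a := t ^ j) (c := g * (t ^ i) ^ x)
        ((cg.pow_right j).symm.mul_right ((Commute.pow_pow_self t j i).pow_right x))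
        (Nat.Coprime.coprime_dvd_right o2 (((Nat.Prime.coprime_iff_not_dvd Nat.prime_two).2 ot).symm.pow_right _))
      rw [add_zero] at s2
      rw [s2, map_one]
      exact r2_base (h := ρ y) (y1.map ρ) (by rw [← map_inv, ← map_mul, ← map_mul, y2, map_inv])
    | succ d ih =>
      intro k hk x
      have i1 := ih (k + 1) (by omega) x
      have i2 := ih (k + 1) (by omega) (x + 2 ^ k)
      rw [pow_succ 2 k, pow_mul (t ^ i), sq, map_mul] at i1 i2
      rw [pow_add, ← mul_assoc, map_mul] at i2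
      exact r2_step (((Commute.pow_pow_self t j i).pow_right _).map ρ)
        ((((cg.pow_right i).pow_right _).mul_left (Commute.pow_pow_self _ _ _)).map ρ) i1 i2
  have fin := claim n 0 (zero_add n) 0
  rw [pow_zero, pow_one, pow_zero, mul_one] at fin
  have mem : w0 ∈ r2E (ρ (t ^ j)) (ρ (t ^ i)) (ρ g) 1 μ :=
    ⟨(h.fix _ _).2 (vt.pow_left j), by rw [one_smul]; exact (h.fix _ _).2 (vt.pow_left i), e2⟩
  have c1 : Nat.card (r2E (ρ (t ^ j)) (ρ (t ^ i)) (ρ g) 1 μ) ≠ 1 := fun k => by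
    have := (Nat.card_eq_one_iff_unique.1 k).1
    exact w1 (congrArg Subtype.val (Subsingleton.elim (⟨w0, mem⟩ : r2E (ρ (t ^ j)) (ρ (t ^ i)) (ρ g) 1 μ) 0))
  have c2 : ∀ l, l ≠ μ → Nat.card (r2E (ρ (t ^ j)) (ρ (t ^ i)) (ρ g) 1 l) = 1 := fun l hl => by
    have z : ∀ w ∈ r2E (ρ (t ^ j)) (ρ (t ^ i)) (ρ g) 1 l, w = 0 := fun w ⟨k1, k2, k3⟩ => by
      rw [one_smul] at k2
      have k4 : φ w ∈ zpowers (φ w0) := zv ▸ mem_inf.2 ⟨(h.mem _).2 ⟨w, rfl⟩, mem_centralizer_singleton_iff.2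
        ((h.fix _ _).1 (by rw [et, map_mul, LinearEquiv.mul_apply, k1, k2])).symm⟩
      obtain ⟨r, hr⟩ := mem_powers_iff_mem_zpowers.2 k4
      obtain rfl : (r : ZMod 5) • w0 = w := h.inj (by rw [h.smul]; exact hr)
      rw [map_smul, e2, smul_comm, ← sub_eq_zero, ← sub_smul] at k3
      exact (smul_eq_zero.1 k3).resolve_left (sub_ne_zero.2 hl.symm)
    exact Nat.card_eq_one_iff_unique.2 ⟨⟨fun a b => Subtype.ext ((z _ a.2).trans (z _ b.2).symm)⟩, ⟨0⟩⟩
  rcases hμ with rfl | rfl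
  · exact c1 (fin.trans (c2 3 (by decide)))
  · exact c1 (fin.symm.trans (c2 2 (by decide)))

end Cfsg.Agent.AH
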