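import Cfsg.Agent.AH.L6
import Cfsg.Agent.AH.R2

/-! Elements of order dividing six have large centralizers (notes/AH.md, section C6). -/

set_option autoImplicit false

namespace Cfsg.Agent.AH

open Subgroup

universe u

theorem c6_cop {H : Type*} [Group H] {a c : H} {m : ℕ} (ha : a ^ m = 1) (hc : c ^ 5 = 1)
    (hm : m.Coprime 5) : (orderOf a).Coprime (orderOf c) :=
  (hm.coprime_dvd_left (orderOf_dvd_of_pow_eq_one ha)).coprime_dvd_right (orderOf_dvd_of_pow_eq_one hc)

theorem c6_two {H : Type*} [Group H] {c : H} (hc : c ^ 5 = 1) : Nat.Coprime 2 (orderOf c) :=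
  (by norm_num : Nat.Coprime 2 5).coprime_dvd_right (orderOf_dvd_of_pow_eq_one hc)

section
variable {H : Type u} [Group H] [Finite H] {V : Subgroup H} {t s : H}

theorem c6_a (hs : Group.IsSolvable H) (hR : RatG H) (hV : MN V 5) (t2 : t ^ 2 = 1) (s3 : s ^ 3 = 1)
    (c : Commute s t) (h6 : cc (t * s) ≤ 6) (hf : ∀ v ∈ V, Commute (t * s) v → v = 1)
    (h0 : V ⊓ centralizer {t} ≠ ⊥) : False := by
  have nm := hV.nm
  let D := centralizer ({t} : Set H)
  have mD : ∀ d : D, Commute (d : H) t := fun d => mem_centralizer_singleton_iff.1 d.2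
  obtain ⟨U, q, -, le, hU⟩ := exists_MN (G := D) inferInstance (N := V.subgroupOf D) inferInstance
    fun e => h0 (by rwa [subgroupOf_eq_bot, disjoint_iff] at e)
  have e5 : ∀ x ∈ U, x ^ 5 = 1 := fun x hx => Subtype.ext (hV.exp x (le hx))
  obtain ⟨W, _, _, φ, ρ, h⟩ := exists_rep U hU.nm 5 hU.comm e5
  have := h.finite
  have := h.nontrivial hU.ne
  have sj := ρ.rangeRestrict_surjective
  let s' : D := ⟨s, mem_centralizer_singleton_iff.2 c.eq⟩
  let t' : D := ⟨t, mem_centralizer_singleton_iff.2 rfl⟩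
  have s3' : s' ^ 3 = 1 := Subtype.ext s3
  have c6 : cc s' ≤ 6 := by
    refine le_trans (Nat.le_of_dvd (cc_pos _) ?_) h6
    rw [cc, ← card_map_of_injective D.subtype_injective]
    refine card_dvd_cc ?_
    rintro _ ⟨d, hd, rfl⟩
    have : Commute (d : H) s := congrArg Subtype.val (mem_centralizer_singleton_iff.1 hd)
    exact ((mD d).mul_right this).eq
  refine l6 (Γ := ρ.range) (Group.isSolvable_of_surjective sj) (h.irr hU.min) ?_ (ρ.rangeRestrict s')
    (by rw [← map_pow, s3', map_one]) (fun w hw => ?_) ?_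
  · refine h.ep' 2 fun v hv => ?_
    have v5 := hV.exp v (le hv)
    obtain ⟨g, cg, e⟩ := hR.comm (mD v).symm (c6_cop t2 v5 (by norm_num)) (c6_two v5)
    exact ⟨⟨g, mem_centralizer_singleton_iff.2 cg.eq⟩, Subtype.ext e⟩
  · have e : Commute s (φ w : H) := congrArg Subtype.val ((h.fix s' w).1 hw)
    exact h.eq_one.1 (Subtype.ext (hf _ (le ((h.mem _).2 ⟨w, rfl⟩)) ((mD (φ w)).symm.mul_left e)))
  · by_cases t1 : t = 1
    · have hD : RatG D := hR.of_surj ((MonoidHom.id H).codRestrict D fun x =>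
        mem_centralizer_singleton_iff.2 (by simp [t1])) fun d => ⟨d, rfl⟩
      exact Or.inr ⟨(cc_le _ sj s').trans c6, hD.of_surj _ sj⟩
    · have := cc_half ρ.rangeRestrict sj (t := t') (u := s')
        (Subtype.ext ((h.ker t').2 fun v _ => Subtype.ext (mD v).symm.eq))
        (fun e => t1 (congrArg Subtype.val e)) (Subtype.ext ((pow_two t).symm.trans t2))
        (fun g => Subtype.ext (mD g).eq) s3'
      exact Or.inl (by omega)

theorem c6_b (hs : Group.IsSolvable H) (hR : RatG H) (hV : MN V 5) (t2 : t ^ 2 = 1) (s3 : s ^ 3 = 1)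
    (h6 : cc (t * s) ≤ 6) (h0 : V ⊓ centralizer {t} = ⊥) : False := by
  obtain ⟨W, _, _, φ, ρ, h⟩ := exists_rep V hV.nm 5 hV.comm hV.exp
  have := h.finite
  have := h.nontrivial hV.ne
  have sj := ρ.rangeRestrict_surjective
  have hΓ : RatG ρ.range := hR.of_surj _ sj
  have et : ρ t = ng := eq_ng (by rw [← map_mul, ← pow_two, t2, map_one]) fun w hw =>
    h.eq_one.1 (mem_bot.1 (h0 ▸ (⟨(h.mem _).2 ⟨w, rfl⟩,
      mem_centralizer_singleton_iff.2 ((h.fix t w).1 hw).symm⟩ : φ w ∈ V ⊓ centralizer {t})))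
  have s3' : ρ.rangeRestrict s ^ 3 = 1 := by rw [← map_pow, s3, map_one]
  have c6 : cc (ρ.rangeRestrict s) ≤ 6 := by
    refine le_trans (Nat.le_of_dvd (cc_pos _) (card_dvd_cc fun d hd => ?_)) ((cc_le _ sj _).trans h6)
    have c1 : Commute d (ρ.rangeRestrict t) := Subtype.ext (by
      rw [coe_mul, coe_mul, MonoidHom.coe_rangeRestrict, et, ng_comm])
    rw [map_mul]
    exact (c1.mul_right (mem_centralizer_singleton_iff.1 hd)).eq
  refine l6 (Γ := ρ.range) (Group.isSolvable_of_surjective sj) (h.irr hV.min) (h.ep hR (by decide))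
    (ρ.rangeRestrict s) s3' (fun w hw => ?_) (Or.inr ⟨c6, hΓ⟩)
  by_contra w0
  have v5 := hV.exp _ ((h.mem _).2 ⟨w, rfl⟩)
  obtain ⟨g, cg, e⟩ := hR.comm (a := s) (c := φ w) ((h.fix s w).1 hw) (c6_cop s3 v5 (by norm_num))
    (c6_two v5)
  have d4 : 4 ∣ orderOf (ρ.rangeRestrict g) := by
    rw [← orderOf_coe]
    exact four_dvd w0 (h.inj ((h.conj g w).trans (e.trans (h.smul 2 w).symm)))
  have p := cc_pos (ρ.rangeRestrict s)
  by_cases s1 : ρ.rangeRestrict s = 1
  · have := hΓ.eight d4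
    rw [← cc_one, ← s1] at this
    omega
  · have : Fact (Nat.Prime 3) := ⟨Nat.prime_three⟩
    have d3 := dvd_cc (Commute.refl (ρ.rangeRestrict s))
    rw [orderOf_eq_prime s3' s1] at d3
    have := d4.trans (dvd_cc (cg.symm.map ρ.rangeRestrict))
    omega

theorem c6_core (hs : Group.IsSolvable H) (hR : RatG H) (hV : MN V 5) {y : H} (hy : y ^ 6 = 1)
    (h6 : cc y ≤ 6) : False := by
  have e : y ^ 3 * y ^ 4 = y := by rw [← pow_add, pow_succ, hy, one_mul]
  have t2 : (y ^ 3) ^ 2 = 1 := by rw [← pow_mul, hy]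
  have s3 : (y ^ 4) ^ 3 = 1 := by rw [← pow_mul, show 4 * 3 = 6 * 2 from rfl, pow_mul, hy, one_pow]
  by_cases h0 : V ⊓ centralizer {y ^ 3} = ⊥
  · exact c6_b hs hR hV t2 s3 (by rwa [e]) h0
  refine c6_a hs hR hV t2 s3 ((Commute.refl y).pow_pow 4 3) (by rwa [e]) (fun v hv c => ?_) h0
  rw [e] at c
  obtain ⟨k, hk⟩ := hV.card Nat.prime_five (K := V ⊓ centralizer {y}) inf_le_left
  have d : 5 ^ k ∣ cc y := hk ▸ card_dvd_of_le inf_le_right
  have k1 : k ≠ 1 := by
    rintro rfl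
    exact r2 hR hV.nm hV.comm hV.exp
      (fun h => absurd (h.trans (orderOf_dvd_of_pow_eq_one hy)) (by norm_num)) hk
  have k0 : k = 0 := by
    by_contra k0
    have := (Nat.pow_le_pow_right (by norm_num : 0 < 5) (by omega : 2 ≤ k)).trans
      (Nat.le_of_dvd (cc_pos y) d)
    omega
  subst k0
  exact mem_bot.1 (card_eq_one.1 hk ▸
    (⟨hv, mem_centralizer_singleton_iff.2 c.symm.eq⟩ : v ∈ V ⊓ centralizer {y}))

end

theorem c6 {G : Type u} [Group G] [Finite G] (hs : Group.IsSolvable G) (hR : RatG G)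
    (h5 : 5 ∣ Nat.card G) {y : G} (hy : y ^ 6 = 1) : 6 < cc y := by
  by_contra h6
  obtain ⟨x, hx⟩ := exists_prime_orderOf_dvd_card' 5 h5
  obtain ⟨N, hN, V, hV, -, -⟩ := chief hs Nat.prime_five (x := x) (n := 1)
    (by rintro rfl; rw [orderOf_one] at hx; omega) (by rw [pow_one, ← hx, pow_orderOf_eq_one])
  have sj := QuotientGroup.mk'_surjective N
  exact c6_core inferInstance (hR.of_surj _ sj) hV (y := QuotientGroup.mk' N y)
    (by rw [← map_pow, hy, map_one]) ((cc_le _ sj y).trans (not_lt.1 h6))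

end Cfsg.Agent.AH
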