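import Cfsg.Agent.AH.BasA
import Cfsg.Agent.H4.MaxClass
import Cfsg.Agent.H42.Index2
import Cfsg.Agent.H81.Eppo23

set_option autoImplicit false

namespace Cfsg.Agent.AH

open Subgroup

universe u

variable {G : Type*} [Group G] [Finite G]

theorem cls_card (x : G) : {y | IsConj x y}.ncard * cc x = Nat.card G := by
  have h1 := (MulAction.stabilizer (ConjAct G) x).index_mul_card
  rw [MulAction.index_stabilizer, ← Subgroup.nat_card_centralizer_nat_card_stabilizer] at h1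
  have h2 : MulAction.orbit (ConjAct G) x = {y | IsConj x y} := by
    ext y
    rw [ConjAct.mem_orbit_conjAct]
    exact isConj_comm
  rw [h2] at h1
  exact h1

theorem cls (h : AHyp G) (Ω : Set G) (hΩ : ∀ x ∈ Ω, ∀ g, g * x * g⁻¹ ∈ Ω) : ∃ s : Finset ℕ,
    (∀ n, n ∈ s ↔ ∃ x ∈ Ω, cc x = n) ∧ (Ω.ncard : ℚ) = Nat.card G * ∑ n ∈ s, (1 / n : ℚ) := by
  classical
  have hf : Ω.Finite := Set.toFinite _
  refine ⟨hf.toFinset.image cc, fun n => by simp, ?_⟩
  rw [Set.ncard_eq_toFinset_card Ω hf, Finset.card_eq_sum_card_image cc, Finset.mul_sum, Nat.cast_sum]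
  refine Finset.sum_congr rfl fun n hn => ?_
  obtain ⟨x, hx, rfl⟩ := Finset.mem_image.1 hn
  rw [hf.mem_toFinset] at hx
  have e : ((hf.toFinset.filter fun y => cc y = cc x : Finset G) : Set G) = {y | IsConj x y} := by
    ext y
    simp only [Finset.coe_filter, hf.mem_toFinset, Set.mem_setOf_eq]
    refine ⟨fun k => h x y k.2.symm, fun k => ⟨?_, (cc_conj k).symm⟩⟩
    obtain ⟨g, rfl⟩ := isConj_iff.1 k
    exact hΩ x hx g
  have p : (cc x : ℚ) ≠ 0 := Nat.cast_ne_zero.2 (cc_pos x).ne'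
  rw [← cls_card x, ← e, Set.ncard_coe_finset, Nat.cast_mul]
  field_simp

theorem cls_pow {x w : G} {q : ℕ} (hq : q.Prime) (hx : orderOf x = q) (hw : w ∈ zpowers x) (h1 : w ≠ 1) :
    cc w = cc x := by
  obtain ⟨k, rfl⟩ := (mem_powers_iff_mem_zpowers.2 hw : ∃ k : ℕ, x ^ k = _)
  refine cc_pow ?_
  rw [hx]
  exact ((hq.coprime_iff_not_dvd).2 fun e => h1 (orderOf_dvd_iff_pow_eq_one.1 (hx ▸ e))).symm

theorem cls_mem {x w u : G} (hx : cc w = orderOf x) (hw : w ∈ zpowers x) (hu : u * w = w * u) : u ∈ zpowers x := by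
  have e : zpowers x = centralizer ({w} : Set G) :=
    eq_of_le_of_card_ge (fun y hy => basA_mem.2 (by
      obtain ⟨a, rfl⟩ := hy
      obtain ⟨b, rfl⟩ := hw
      exact (Commute.zpow_zpow_self x a b).eq)) (by rw [Nat.card_zpowers, ← hx]; exact le_rfl)
  rw [e]
  exact basA_mem.2 hu

theorem cls_syl {p n k : ℕ} [hp : Fact p.Prime] (P : Sylow p G) (hn : Nat.card P = p ^ n) (hk : p ^ k ∣ Nat.card G) :
    k ≤ n := by
  rw [← (P : Subgroup G).card_mul_index, hn] at hk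
  have := (Nat.Coprime.pow_left k ((hp.out.coprime_iff_not_dvd).2 P.not_dvd_index)).dvd_of_dvd_mul_right hk
  exact (Nat.pow_dvd_pow_iff_le_right hp.out.one_lt).1 this

theorem syl1 {x : G} {q : ℕ} (hq : q.Prime) (hx : cc x = q) :
    ¬ q ^ 2 ∣ Nat.card G ∧ ∀ y : G, q ∣ cc y → y = 1 ∨ cc y = q := by
  haveI : Fact q.Prime := ⟨hq⟩
  by_cases x1 : x = 1
  · subst x1
    rw [cc_one] at hx
    refine ⟨fun e => ?_, fun y hy => Or.inr (Nat.dvd_antisymm (hx ▸ cc_dvd y) hy)⟩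
    rw [hx] at e
    have := (Nat.pow_dvd_pow_iff_le_right hq.one_lt (k := 2) (l := 1)).1 (by rwa [pow_one])
    omega
  have ox : orderOf x = q :=
    ((Nat.dvd_prime hq).1 (hx ▸ dvd_cc (Commute.refl x))).resolve_left fun e => x1 (orderOf_eq_one_iff.1 e)
  have px : IsPGroup q (zpowers x) := IsPGroup.of_card (n := 1) (by rw [Nat.card_zpowers, ox, pow_one])
  obtain ⟨P, hP⟩ := px.exists_le_sylow
  have xP : x ∈ (P : Subgroup G) := hP (mem_zpowers x)
  haveI : Nontrivial P := ⟨⟨⟨x, xP⟩, 1, fun e => x1 (congrArg Subtype.val e)⟩⟩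
  haveI := P.isPGroup'.center_nontrivial
  obtain ⟨⟨z, hz⟩, z1⟩ := exists_ne (1 : center (P : Subgroup G))
  have zc : ∀ y ∈ (P : Subgroup G), y * z = z * y := fun y hy =>
    congrArg Subtype.val (mem_center_iff.1 hz ⟨y, hy⟩)
  have zx : (z : G) ∈ zpowers x := cls_mem (hx.trans ox.symm) (mem_zpowers x) (zc x xP).symm
  have z2 : (z : G) ≠ 1 := fun e => z1 (Subtype.ext (Subtype.ext e))
  have Px : (P : Subgroup G) = zpowers x :=
    le_antisymm (fun y hy => cls_mem ((cls_pow hq ox zx z2).trans (hx.trans ox.symm)) zx (zc y hy)) hP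
  have cP : Nat.card P = q ^ 1 := by
    show Nat.card (P : Subgroup G) = _
    rw [Px, Nat.card_zpowers, ox, pow_one]
  refine ⟨fun e => absurd (cls_syl P cP e) (by norm_num), fun y hy => ?_⟩
  obtain ⟨⟨c, hc⟩, oc⟩ := exists_prime_orderOf_dvd_card' (G := centralizer ({y} : Set G)) q hy
  rw [← Subgroup.orderOf_coe] at oc
  have pc : IsPGroup q (zpowers c) := IsPGroup.of_card (n := 1) (by rw [Nat.card_zpowers, pow_one]; exact oc)
  obtain ⟨Q, hQ⟩ := pc.exists_le_sylow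
  obtain ⟨g, hg⟩ := MulAction.exists_smul_eq G Q P
  have m : g * c * g⁻¹ ∈ zpowers x := by
    rw [← Px, ← hg]
    exact smul_mem_pointwise_smul c (MulAut.conj g) _ (hQ (mem_zpowers c))
  have c1 : g * c * g⁻¹ ≠ 1 := fun e => hq.one_lt.ne' (by
    rw [← oc, orderOf_eq_one_iff]
    exact conj_eq_one_iff.1 e)
  have m2 : g * y * g⁻¹ ∈ zpowers x := cls_mem ((cls_pow hq ox m c1).trans (hx.trans ox.symm)) m (by
    have := basA_mem.1 hc
    calc _ = g * (y * c) * g⁻¹ := by group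
      _ = _ := by rw [← this]; group)
  by_cases y1 : y = 1
  · exact Or.inl y1
  · exact Or.inr ((cc_conj (isConj_iff.2 ⟨g, rfl⟩)).trans
      ((cls_pow hq ox m2 fun e => y1 (conj_eq_one_iff.1 e)).trans hx))

theorem s8 (hR : RatG G) {x : G} (hx : cc x = 4) : ¬ 16 ∣ Nat.card G := by
  intro h16
  have px : IsPGroup 2 (zpowers x) := by
    obtain ⟨k, -, hk⟩ := (Nat.dvd_prime_pow Nat.prime_two (m := 2)).1 (hx ▸ dvd_cc (Commute.refl x) :)
    exact IsPGroup.of_card (n := k) (by rw [Nat.card_zpowers, hk])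
  obtain ⟨P, hP⟩ := px.exists_le_sylow
  have xP : x ∈ (P : Subgroup G) := hP (mem_zpowers x)
  obtain ⟨n, hn⟩ := P.isPGroup'.exists_card_eq
  have n4 : 4 ≤ n := cls_syl P hn h16
  have hC : Nat.card (centralizer ({⟨x, xP⟩} : Set (P : Subgroup G))) ≤ 2 ^ 2 := by
    rw [show 2 ^ 2 = cc x from hx.symm]
    exact Nat.card_le_card_of_injective
      (fun a => (⟨a.1.1, basA_mem.2 (congrArg Subtype.val (basA_mem.1 a.2))⟩ : centralizer ({x} : Set G)))
      fun a b e => Subtype.ext (Subtype.ext (Subtype.mk.inj e))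
  have hc := H4.nilpotencyClass_eq_of_card_centralizer_le n (by omega) _ hn _ hC
  have h4 : (commutator (P : Subgroup G)).index = 4 := H4.index_commutator_of_maximal_class (by omega) hn hc
  obtain ⟨a, ha⟩ := H4.exists_index_zpowers_eq_two _ P.isPGroup' h4
  obtain ⟨m, rfl⟩ : ∃ m, n = m + 4 := ⟨n - 4, by omega⟩
  have hoa : orderOf (a : G) = 2 ^ (m + 2 + 1) := by
    have h1 := (zpowers a).card_mul_index
    rw [ha, hn, Nat.card_zpowers, pow_succ] at h1
    rw [Subgroup.orderOf_coe]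
    exact Nat.eq_of_mul_eq_mul_right two_pos h1
  have h1 := hR.ord (a : G)
  have h2 := dvd_cc (Commute.refl (a : G))
  rw [hoa] at h1 h2
  rw [Nat.totient_prime_pow_succ Nat.prime_two, show 2 - 1 = 1 from rfl, mul_one] at h1
  have h3 : 2 ^ (m + 2 + (m + 2 + 1)) ∣ Nat.card G := by
    rw [pow_add]
    exact (Nat.mul_dvd_mul_left _ h2).trans h1
  have := cls_syl P hn h3
  omega

theorem six (h6 : Nat.card G = 6) (h : ∀ x : G, cc x = 6 → x = 1) : Nonempty (G ≃* Equiv.Perm (Fin 3)) := by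
  classical
  obtain ⟨s, hs⟩ := exists_prime_orderOf_dvd_card' (G := G) 2 (by rw [h6]; norm_num)
  have s1 : s ≠ 1 := fun e => by rw [e, orderOf_one] at hs; omega
  refine H81.nonempty_mulEquiv_perm_three h6 hs fun hn => s1 (h s ?_)
  refine Nat.dvd_antisymm (h6 ▸ cc_dvd s) ?_
  rw [← h6, ← card_top]
  refine card_dvd_cc fun g _ => ?_
  have m := hn.conj_mem s (mem_zpowers s) g
  rw [mem_zpowers_iff_mem_range_orderOf, hs] at m
  simp only [Finset.mem_image, Finset.mem_range] at m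
  obtain ⟨k, hk, e⟩ := m
  interval_cases k
  · exact absurd (conj_eq_one_iff.1 (e.symm.trans (pow_zero s))) s1
  · rw [pow_one] at e
    exact mul_inv_eq_iff_eq_mul.1 e.symm

end Cfsg.Agent.AH
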