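import Cfsg.Agent.AH.Defs
import Cfsg.Agent.H2.MinNormal

set_option autoImplicit false

namespace Cfsg.Agent.AH

open Subgroup

universe u

variable {A : Type*} [Group A] {Γ : Subgroup A}

/-- a nontrivial finite solvable group has a nontrivial abelian normal subgroup -/
theorem exists_ab [Finite Γ] (hs : Group.IsSolvable Γ) (h0 : Γ ≠ ⊥) : ∃ B ≤ Γ, B ≠ ⊥ ∧
    (∀ g ∈ Γ, ∀ a ∈ B, g * a * g⁻¹ ∈ B) ∧ ∀ a ∈ B, ∀ a' ∈ B, a * a' = a' * a := by
  have := (nontrivial_iff_ne_bot Γ).2 h0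
  obtain ⟨M, p, -, h1, h2, h3, -⟩ := H2.exists_minimal_normal_of_solvable (G := Γ)
  refine ⟨M.map Γ.subtype, map_subtype_le _, fun h => h2 ((map_eq_bot_iff_of_injective _ Γ.subtype_injective).1 h),
    ?_, ?_⟩
  · rintro g hg _ ⟨a, ha, rfl⟩
    exact ⟨_, h1.conj_mem a ha ⟨g, hg⟩, rfl⟩
  · rintro _ ⟨a, ha, rfl⟩ _ ⟨b, hb, rfl⟩
    exact congrArg Subtype.val (H2.mul_comm_of_mem h3 ha hb)

theorem ex_core {G : Type*} [Group G] [Finite G] [Group.IsSolvable G] {z : G} (hc : ∀ g, g * z = z * g)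
    (h2 : z * z = 1) (hA : ∀ B : Subgroup G, B.Normal → (∀ a ∈ B, ∀ a' ∈ B, a * a' = a' * a) →
      ∀ a ∈ B, a = 1 ∨ a = z) : ∃ E : Subgroup G, E.Normal ∧ z ∈ E ∧
      (∀ e ∈ E, ∀ f ∈ E, e * f = f * e ∨ e * f = z * (f * e)) ∧ ∀ g, (∀ e ∈ E, g * e = e * g) → g = 1 ∨ g = z := by
  have zz : ∀ x, z * (z * x) = x := fun x => by rw [← mul_assoc, h2, one_mul]
  have zc : ∀ g x, g * (z * x) = z * (g * x) := fun g x => by rw [← mul_assoc, hc, mul_assoc]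
  let Z : Subgroup G :=
    { carrier := {x | x = 1 ∨ x = z}
      one_mem' := Or.inl rfl
      mul_mem' := by rintro _ _ (rfl | rfl) (rfl | rfl) <;> simp [h2]
      inv_mem' := by rintro _ (rfl | rfl) <;> simp [inv_eq_of_mul_eq_one_right h2] }
  have hZ : ∀ x, x ∈ Z ↔ x = 1 ∨ x = z := fun _ => Iff.rfl
  have Zc : ∀ g, ∀ x ∈ Z, g * x = x * g := by
    rintro g _ (rfl | rfl)
    exacts [by simp, hc g]
  have Zn : Z.Normal := ⟨fun x hx g => by rwa [Zc g x hx, mul_inv_cancel_right]⟩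
  obtain ⟨E, -, ⟨hE, hz, hm⟩, mx⟩ := Finite.exists_le_maximal (p := fun E : Subgroup G => E.Normal ∧ z ∈ E ∧
    ∀ e ∈ E, ∀ f ∈ E, e * f = f * e ∨ e * f = z * (f * e)) (a := Z) ⟨Zn, Or.inr rfl, fun e _ f hf => Or.inl (Zc e f hf)⟩
  refine ⟨E, hE, hz, hm, fun g hg => ?_⟩
  by_contra hg'
  have hK : (centralizer (E : Set G)).map (QuotientGroup.mk' Z) ≠ ⊥ := fun h => by
    rw [Subgroup.map_eq_bot_iff, QuotientGroup.ker_mk'] at h
    exact hg' (h fun e he => (hg e he).symm)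
  obtain ⟨M, p, -, h1, h3, h4, h5, -⟩ := H2.exists_minimal_normal_le_of_solvable _
    (Normal.map inferInstance _ (QuotientGroup.mk'_surjective Z)) inferInstance hK
  have hD : M.comap (QuotientGroup.mk' Z) ≤ centralizer (E : Set G) := by
    refine (comap_mono h4).trans ?_
    rw [comap_map_eq, QuotientGroup.ker_mk']
    exact sup_le le_rfl fun x hx e _ => Zc e x hx
  have hd : ∀ d ∈ M.comap (QuotientGroup.mk' Z), ∀ d' ∈ M.comap (QuotientGroup.mk' Z),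
      d * d' = d' * d ∨ d * d' = z * (d' * d) := fun d hd d' hd' => by
    have := H2.mul_comm_of_mem h5 hd' hd
    rw [← map_mul, ← map_mul, QuotientGroup.mk'_apply, QuotientGroup.mk'_apply, QuotientGroup.eq, hZ,
      inv_mul_eq_iff_eq_mul, inv_mul_eq_iff_eq_mul, mul_one, hc] at this
    exact this
  have Dn : (M.comap (QuotientGroup.mk' Z)).Normal := inferInstance
  have le := mx (y := M.comap (QuotientGroup.mk' Z) ⊔ E) ⟨inferInstance, mem_sup_right hz, fun x hx y hy => by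
    obtain ⟨d, dm, e, em, rfl⟩ := mem_sup_of_normal_right.1 hx
    obtain ⟨d', dm', e', em', rfl⟩ := mem_sup_of_normal_right.1 hy
    rw [show d * e * (d' * e') = d * d' * (e * e') by rw [mul_assoc, ← mul_assoc e, hD dm' e em]; group,
      show d' * e' * (d * e) = d' * d * (e' * e) by rw [mul_assoc, ← mul_assoc e', hD dm e' em']; group]
    rcases hd d dm d' dm' with a | a <;> rcases hm e em e' em' with b | b <;> rw [a, b]
    · exact Or.inl rfl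
    · exact Or.inr (zc _ _)
    · exact Or.inr (mul_assoc _ _ _)
    · exact Or.inl (by rw [zc, mul_assoc z, zz])⟩ le_sup_right
  refine h3 (eq_bot_iff.2 fun x hx => ?_)
  obtain ⟨x, rfl⟩ := QuotientGroup.mk'_surjective Z x
  exact (QuotientGroup.eq_one_iff x).2
    (hA _ Dn (fun a ha b hb => hD hb a (le (mem_sup_left ha))) x hx)

theorem ex [Finite Γ] (hs : Group.IsSolvable Γ) {z : A} (hz : z ∈ Γ) (hc : ∀ g ∈ Γ, g * z = z * g)
    (h2 : z * z = 1) (hA : ∀ B ≤ Γ, (∀ g ∈ Γ, ∀ a ∈ B, g * a * g⁻¹ ∈ B) →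
      (∀ a ∈ B, ∀ a' ∈ B, a * a' = a' * a) → ∀ a ∈ B, a = 1 ∨ a = z)
    (hne : ∃ g ∈ Γ, g ≠ 1 ∧ g ≠ z) : ∃ E, XE z Γ E := by
  obtain ⟨E, hE, h1, h3, h4⟩ := ex_core (G := Γ) (z := ⟨z, hz⟩) (fun g => Subtype.ext (hc g g.2)) (Subtype.ext h2)
    fun B hB h a ha => (hA (B.map Γ.subtype) (map_subtype_le _) (by
      rintro g hg _ ⟨a, ha, rfl⟩
      exact ⟨_, hB.conj_mem a ha ⟨g, hg⟩, rfl⟩) (by
      rintro _ ⟨a, ha, rfl⟩ _ ⟨b, hb, rfl⟩
      exact congrArg Subtype.val (h a ha b hb)) a ⟨a, ha, rfl⟩).imp Subtype.ext Subtype.ext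
  have cm : ∀ e ∈ E.map Γ.subtype, ∀ f ∈ E.map Γ.subtype, e * f = f * e ∨ e * f = z * (f * e) := by
    rintro _ ⟨a, ha, rfl⟩ _ ⟨b, hb, rfl⟩
    exact (h3 a ha b hb).imp (congrArg Subtype.val) (congrArg Subtype.val)
  have cn : ∀ g ∈ Γ, (∀ e ∈ E.map Γ.subtype, g * e = e * g) → g = 1 ∨ g = z := fun g hg h =>
    (h4 ⟨g, hg⟩ fun e he => Subtype.ext (h e ⟨e, he, rfl⟩)).imp (congrArg Subtype.val) (congrArg Subtype.val)
  refine ⟨E.map Γ.subtype, map_subtype_le _, ?_, ⟨_, h1, rfl⟩, ?_, cm, fun e he => ?_, cn⟩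
  · rintro g hg _ ⟨a, ha, rfl⟩
    exact ⟨_, hE.conj_mem a ha ⟨g, hg⟩, rfl⟩
  · obtain ⟨g, hg, g1, g2⟩ := hne
    by_contra h
    refine (cn g hg fun e he => ?_).elim g1 g2
    by_cases e1 : e = 1
    · simp [e1]
    · rw [show e = z from by_contra fun e2 => h ⟨e, he, e1, e2⟩, hc g hg]
  · have eΓ := map_subtype_le _ he
    refine cn _ (Γ.mul_mem eΓ eΓ) fun f hf => ?_
    rcases cm e he f hf with h | h
    · rw [mul_assoc, h, ← mul_assoc, h, mul_assoc]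
    · rw [mul_assoc, h, ← mul_assoc, hc e eΓ, mul_assoc, ← mul_assoc e, h, mul_assoc z, ← mul_assoc z, h2, one_mul,
        mul_assoc]

end Cfsg.Agent.AH
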