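import Cfsg.Agent.AH.Defs

set_option autoImplicit false

namespace Cfsg.Agent.AH

open Subgroup

universe u

/-- all sums of powers of `r` with exponents satisfying `p` are at most `x` -/
def NumBd (r : ℚ) (p : ℕ → Prop) (x : ℚ) : Prop := ∀ A : Finset ℕ, (∀ a ∈ A, p a) → ∑ a ∈ A, r ^ a ≤ x

theorem num_geo {r x : ℚ} (h0 : 0 ≤ r) (h1 : r < 1) (l : ℕ) (hx : r ^ l / (1 - r) = x) : NumBd r (l ≤ ·) x :=
  fun A hA => (Finset.sum_le_sum_of_subset_of_nonneg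
    (fun a ha => Finset.mem_Ico.2 ⟨hA a ha, Nat.lt_succ_of_le (Finset.le_sup (f := id) ha)⟩)
      fun _ _ _ => pow_nonneg h0 _).trans (hx ▸ geom_sum_Ico_le_of_lt_one h0 h1)

theorem num_fin {r x : ℚ} (h0 : 0 ≤ r) (l m : ℕ) (hx : ∑ a ∈ Finset.Ico l m, r ^ a = x) :
    NumBd r (fun a => l ≤ a ∧ a < m) x :=
  fun _ hA => hx ▸ Finset.sum_le_sum_of_subset_of_nonneg (fun a ha => Finset.mem_Ico.2 (hA a ha))
    fun _ _ _ => pow_nonneg h0 _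

theorem num_dec {n : ℕ} (h0 : 0 < n) (h : Sm n) : ∃ a b c, n = 2 ^ a * 3 ^ b * 5 ^ c := by
  induction n using induction_on_primes with
  | zero => exact absurd h0 (lt_irrefl 0)
  | one => exact ⟨0, 0, 0, rfl⟩
  | prime_mul p n hp ih =>
    obtain ⟨a, b, c, rfl⟩ := ih (Nat.pos_of_mul_pos_left h0) fun q hq d => h q hq (d.mul_left p)
    have h5 := h p hp (dvd_mul_right _ _)
    have h2 := hp.two_le
    interval_cases p
    · exact ⟨a + 1, b, c, by ring⟩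
    · exact ⟨a, b + 1, c, by ring⟩
    · exact absurd hp (by decide)
    · exact ⟨a, b, c + 1, by ring⟩

theorem num_box {s : Finset ℕ} {p q r : ℕ → Prop} {x y z : ℚ} (hx : NumBd (1 / 2) p x) (hy : NumBd (1 / 3) q y)
    (hz : NumBd (1 / 5) r z) (hs : ∀ n ∈ s, ∃ a b c, p a ∧ q b ∧ r c ∧ n = 2 ^ a * 3 ^ b * 5 ^ c) :
    ∑ n ∈ s, (1 / n : ℚ) ≤ x * y * z := by
  choose! a b c ha hb hc e using hs
  have sub : s ⊆ ((s.image a ×ˢ s.image b) ×ˢ s.image c).image fun t => 2 ^ t.1.1 * 3 ^ t.1.2 * 5 ^ t.2 :=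
    fun n hn => Finset.mem_image.2 ⟨((a n, b n), c n), Finset.mem_product.2 ⟨Finset.mem_product.2
      ⟨Finset.mem_image_of_mem a hn, Finset.mem_image_of_mem b hn⟩, Finset.mem_image_of_mem c hn⟩, (e n hn).symm⟩
  refine ((Finset.sum_le_sum_of_subset_of_nonneg sub fun _ _ _ => by positivity).trans
    (Finset.sum_image_le_of_nonneg fun _ _ => by positivity)).trans ?_
  have k1 := hx (s.image a) (Finset.forall_mem_image.2 ha)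
  have k2 := hy (s.image b) (Finset.forall_mem_image.2 hb)
  have k3 := hz (s.image c) (Finset.forall_mem_image.2 hc)
  have x0 := hx ∅ (by simp)
  have y0 := hy ∅ (by simp)
  rw [Finset.sum_empty] at x0 y0
  refine le_trans (le_of_eq ?_) (mul_le_mul (mul_le_mul k1 k2 (by positivity) x0) k3 (by positivity) (by positivity))
  rw [Finset.sum_mul_sum, ← Finset.sum_product', Finset.sum_mul_sum, ← Finset.sum_product']
  refine Finset.sum_congr rfl fun t _ => ?_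
  push_cast
  simp only [one_div, inv_pow, mul_inv]

theorem num_tool {s : Finset ℕ} (h : ∀ n ∈ s, 0 < n ∧ Sm n) (T : Finset ℕ) {p q r : ℕ → Prop} {x y z : ℚ}
    (hx : NumBd (1 / 2) p x) (hy : NumBd (1 / 3) q y) (hz : NumBd (1 / 5) r z)
    (hs : ∀ a b c, 2 ^ a * 3 ^ b * 5 ^ c ∈ s → p a ∧ q b ∧ r c) (hd : ∀ n ∈ s, n ∉ T)
    (hT : ∀ n ∈ T, ∃ a < 4, ∃ b < 3, ∃ c < 3, p a ∧ q b ∧ r c ∧ n = 2 ^ a * 3 ^ b * 5 ^ c) :
    ∑ n ∈ s, (1 / n : ℚ) ≤ x * y * z - ∑ n ∈ T, (1 / n : ℚ) := by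
  rw [le_sub_iff_add_le, ← Finset.sum_union (Finset.disjoint_left.2 hd)]
  refine num_box hx hy hz fun n hn => ?_
  rcases Finset.mem_union.1 hn with hn | hn
  · obtain ⟨a, b, c, rfl⟩ := num_dec (h n hn).1 (h n hn).2
    exact ⟨a, b, c, (hs a b c hn).1, (hs a b c hn).2.1, (hs a b c hn).2.2, rfl⟩
  · obtain ⟨a, -, b, -, c, -, k⟩ := hT n hn
    exact ⟨a, b, c, k⟩

theorem num_2 : NumBd (1 / 2) (0 ≤ ·) 2 := num_geo (by norm_num) (by norm_num) 0 (by norm_num)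
theorem num_3 : NumBd (1 / 3) (0 ≤ ·) (3 / 2) := num_geo (by norm_num) (by norm_num) 0 (by norm_num)
theorem num_5 : NumBd (1 / 5) (0 ≤ ·) (5 / 4) := num_geo (by norm_num) (by norm_num) 0 (by norm_num)
theorem num_2a : NumBd (1 / 2) (2 ≤ ·) (1 / 2) := num_geo (by norm_num) (by norm_num) 2 (by norm_num)
theorem num_2b : NumBd (1 / 2) (fun a => 0 ≤ a ∧ a < 4) (15 / 8) :=
  num_fin (by norm_num) 0 4 (by norm_num [Finset.sum_Ico_succ_top])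
theorem num_2c : NumBd (1 / 2) (fun a => 2 ≤ a ∧ a < 4) (3 / 8) :=
  num_fin (by norm_num) 2 4 (by norm_num [Finset.sum_Ico_succ_top])
theorem num_0 {r : ℚ} (h : 0 ≤ r) : NumBd r (fun a => 0 ≤ a ∧ a < 1) 1 := num_fin h 0 1 (by simp)

theorem num_lt2 {a b c k : ℕ} (h : ¬ 2 ^ k ∣ 2 ^ a * 3 ^ b * 5 ^ c) : a < k :=
  lt_of_not_ge fun l => h (((pow_dvd_pow 2 l).mul_right _).mul_right _)
theorem num_lt3 {a b c : ℕ} (h : ¬ 3 ∣ 2 ^ a * 3 ^ b * 5 ^ c) : b < 1 :=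
  lt_of_not_ge fun l => h (((dvd_pow_self 3 (by omega)).mul_left _).mul_right _)
theorem num_lt5 {a b c : ℕ} (h : ¬ 5 ∣ 2 ^ a * 3 ^ b * 5 ^ c) : c < 1 :=
  lt_of_not_ge fun l => h ((dvd_pow_self 5 (by omega)).mul_left _)
theorem num_ge2 {a b c : ℕ} (h : 4 ∣ 2 ^ a * 3 ^ b * 5 ^ c) : 2 ≤ a :=
  (Nat.pow_dvd_pow_iff_le_right one_lt_two).1
    ((Nat.Coprime.pow_right b (by norm_num : Nat.Coprime (2 ^ 2) 3)).dvd_of_dvd_mul_right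
      ((Nat.Coprime.pow_right c (by norm_num : Nat.Coprime (2 ^ 2) 5)).dvd_of_dvd_mul_right h))

variable {s : Finset ℕ} (h : ∀ n ∈ s, 0 < n ∧ Sm n)
include h

theorem n1 (h1 : ∀ n ∈ s, n ≠ 1 ∧ n ≠ 2 ∧ n ≠ 3 ∧ n ≠ 4 ∧ n ≠ 6 ∧ (5 ∣ n → 50 ≤ n)) :
    ∑ n ∈ s, (1 / n : ℚ) < 1 :=
  (num_tool h {1, 2, 3, 4, 6, 5, 10, 15, 20, 25, 30, 40, 45} num_2 num_3 num_5 (fun _ _ _ _ => by simp)
    (fun n hn => by have := h1 n hn; simp only [Finset.mem_insert, Finset.mem_singleton]; omega)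
    (by decide +kernel)).trans_lt (by norm_num)

theorem n2 (h1 : ∀ n ∈ s, n ≠ 1 ∧ n ≠ 2 ∧ n ≠ 3 ∧ n ≠ 6 ∧ ¬ 16 ∣ n ∧ (5 ∣ n → 50 ≤ n)) :
    ∑ n ∈ s, (1 / n : ℚ) < 1 :=
  (num_tool h {1, 2, 3, 6, 5, 10, 15, 20, 25, 30, 40, 45} num_2b num_3 num_5
    (fun _ _ _ k => ⟨⟨Nat.zero_le _, num_lt2 (k := 4) (h1 _ k).2.2.2.2.1⟩, by simp⟩)
    (fun n hn => by have := h1 n hn; simp only [Finset.mem_insert, Finset.mem_singleton]; omega)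
    (by decide +kernel)).trans_lt (by norm_num)

theorem n3 (h1 : ∀ n ∈ s, 4 ∣ n ∧ n ≠ 4) : ∑ n ∈ s, (1 / n : ℚ) < 3 / 4 :=
  (num_tool h {4} num_2a num_3 num_5 (fun _ _ _ k => ⟨num_ge2 (h1 _ k).1, by simp⟩)
    (fun n hn => by simpa using (h1 n hn).2) (by decide +kernel)).trans_lt (by norm_num)

theorem n4 (h1 : ∀ n ∈ s, 4 ∣ n ∧ ¬ 16 ∣ n) : ∑ n ∈ s, (1 / n : ℚ) < 3 / 4 :=
  (num_tool h ∅ num_2c num_3 num_5 (fun _ _ _ k => ⟨⟨num_ge2 (h1 _ k).1, num_lt2 (k := 4) (h1 _ k).2⟩, by simp⟩)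
    (by simp) (by simp)).trans_lt (by norm_num)

theorem n5 (h1 : ∀ n ∈ s, ¬ 5 ∣ n ∧ n ≠ 1 ∧ n ≠ 2 ∧ n ≠ 3 ∧ n ≠ 4) : ∑ n ∈ s, (1 / n : ℚ) < 1 :=
  (num_tool h {1, 2, 3, 4} num_2 num_3 (num_0 (by norm_num))
    (fun _ _ _ k => ⟨Nat.zero_le _, Nat.zero_le _, Nat.zero_le _, num_lt5 (h1 _ k).1⟩)
    (fun n hn => by have := h1 n hn; simp only [Finset.mem_insert, Finset.mem_singleton]; omega)
    (by decide +kernel)).trans_lt (by norm_num)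

theorem n6 (h1 : ∀ n ∈ s, ¬ 5 ∣ n ∧ ¬ 16 ∣ n ∧ n ≠ 1 ∧ n ≠ 2 ∧ n ≠ 3) :
    ∑ n ∈ s, (1 / n : ℚ) < 1 :=
  (num_tool h {1, 2, 3} num_2b num_3 (num_0 (by norm_num))
    (fun _ _ _ k => ⟨⟨Nat.zero_le _, num_lt2 (k := 4) (h1 _ k).2.1⟩, Nat.zero_le _, Nat.zero_le _, num_lt5 (h1 _ k).1⟩)
    (fun n hn => by have := h1 n hn; simp only [Finset.mem_insert, Finset.mem_singleton]; omega)
    (by decide +kernel)).trans_lt (by norm_num)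

theorem n7 (h1 : ∀ n ∈ s, ¬ 5 ∣ n ∧ ¬ 3 ∣ n ∧ n ≠ 1 ∧ n ≠ 2) : ∑ n ∈ s, (1 / n : ℚ) ≤ 1 / 2 :=
  (num_tool h {1, 2} num_2 (num_0 (by norm_num)) (num_0 (by norm_num))
    (fun _ _ _ k => ⟨Nat.zero_le _, ⟨Nat.zero_le _, num_lt3 (h1 _ k).2.1⟩, Nat.zero_le _, num_lt5 (h1 _ k).1⟩)
    (fun n hn => by have := h1 n hn; simp only [Finset.mem_insert, Finset.mem_singleton]; omega)
    (by decide +kernel)).trans (by norm_num)

theorem n8 (h1 : ∀ n ∈ s, ¬ 5 ∣ n ∧ ¬ 2 ∣ n ∧ n ≠ 1 ∧ n ≠ 3) : ∑ n ∈ s, (1 / n : ℚ) ≤ 1 / 6 :=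
  (num_tool h {1, 3} (num_0 (by norm_num)) num_3 (num_0 (by norm_num))
    (fun _ _ _ k => ⟨⟨Nat.zero_le _, num_lt2 (k := 1) (h1 _ k).2.1⟩, Nat.zero_le _, Nat.zero_le _, num_lt5 (h1 _ k).1⟩)
    (fun n hn => by have := h1 n hn; simp only [Finset.mem_insert, Finset.mem_singleton]; omega)
    (by decide +kernel)).trans (by norm_num)

end Cfsg.Agent.AH
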