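import Cfsg.Agent.AH.Gow
import Cfsg.Agent.AH.A5b
import Cfsg.Agent.AH.C6
import Cfsg.Agent.AH.Num
import Cfsg.Agent.AH.Cls

set_option autoImplicit false

namespace Cfsg.Agent.AH

open Subgroup

universe u

variable {G : Type u} [Group G] [Finite G]

theorem ahyp (h : Function.Injective fun C : ConjClasses G => Nat.card C.carrier) : AHyp G := by
  classical
  intro x y hxy
  have := Fintype.ofFinite G
  rw [← ConjClasses.mk_eq_mk_iff_isConj]
  apply h
  have key : ∀ z : G, Nat.card (ConjClasses.mk z).carrier = Nat.card G / cc z := fun z => by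
    rw [cc, nat_card_centralizer_nat_card_stabilizer, Nat.card_eq_fintype_card, Nat.card_eq_fintype_card,
      Nat.card_eq_fintype_card, ConjClasses.card_carrier]
  simp only [key, hxy]

theorem AHyp.rat (h : AHyp G) : RatG G := fun _ _ hk => h _ _ (cc_pow hk).symm

theorem AHyp.eq_one (h : AHyp G) {x : G} (hx : cc x = Nat.card G) : x = 1 :=
  isConj_one_left.1 (h _ _ (hx.trans cc_one.symm))

theorem pow_cc (x : G) : x ^ cc x = 1 := orderOf_dvd_iff_pow_eq_one.1 (dvd_cc (Commute.refl x))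

theorem cc_ne_one [Nontrivial G] (x : G) : cc x ≠ 1 := fun h => by
  have h1 := pow_cc x
  rw [h, pow_one] at h1
  rw [h1, cc_one] at h
  exact Finite.one_lt_card.ne' h

theorem sum_split (s : Finset ℕ) (a c : ℕ) :
    ∑ n ∈ s, (1 / n : ℚ) ≤ 1 / a + 1 / c + ∑ n ∈ (s.erase a).erase c, (1 / n : ℚ) := by
  have h : ∀ (t : Finset ℕ) (a : ℕ), ∑ n ∈ t, (1 / n : ℚ) ≤ 1 / a + ∑ n ∈ t.erase a, (1 / n : ℚ) := by
    intro t a
    by_cases ha : a ∈ t
    · rw [Finset.add_sum_erase t (fun n => (1 / n : ℚ)) ha]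
    · rw [Finset.erase_eq_of_notMem ha]
      exact le_add_of_nonneg_left (by positivity)
  have h1 := h s a
  have h2 := h (s.erase a) c
  linarith

theorem fin5 [Nontrivial G] (hs : Group.IsSolvable G) (h : AHyp G) (h5 : 5 ∣ Nat.card G) : False := by
  have hR := h.rat
  have hm := gow hs hR
  have h0 : ∀ x : G, 0 < cc x ∧ Sm (cc x) := fun x => ⟨cc_pos x, fun q hq hd => hm q hq (hd.trans (cc_dvd x))⟩
  have hG : (0 : ℚ) < Nat.card G := by exact_mod_cast Nat.card_pos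
  have h6 : ∀ x : G, cc x ≠ 2 ∧ cc x ≠ 3 ∧ cc x ≠ 6 := fun x => by
    have : cc x ∣ 6 → 6 < cc x := fun hd => c6 hs hR h5
      (orderOf_dvd_iff_pow_eq_one.1 ((dvd_cc (Commute.refl x)).trans hd))
    refine ⟨fun e => ?_, fun e => ?_, fun e => ?_⟩ <;> (rw [e] at this; omega)
  by_cases hx : ∃ x : G, 5 ∣ cc x ∧ cc x < 50
  · obtain ⟨x, h1, h2⟩ := hx
    obtain ⟨N, hN, h4⟩ := a5 hs hR h1 h2
    obtain ⟨s, hs1, hs2⟩ := cls h {g | 4 ∣ orderOf g} fun y hy g => by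
      have : orderOf (g * y * g⁻¹) = orderOf y := (MulAut.conj g).orderOf_eq y
      simpa [this] using hy
    have h7 : ∀ n ∈ s, 0 < n ∧ Sm n := fun n hn => by
      obtain ⟨y, -, rfl⟩ := (hs1 n).1 hn; exact h0 y
    have h8 : ∀ n ∈ s, 4 ∣ n := fun n hn => by
      obtain ⟨y, hy, rfl⟩ := (hs1 n).1 hn; exact hy.trans (dvd_cc (Commute.refl y))
    have h9 : ∑ n ∈ s, (1 / n : ℚ) < 3 / 4 := by
      by_cases h4 : 4 ∈ s
      · obtain ⟨y, -, hy⟩ := (hs1 4).1 h4
        refine n4 h7 fun n hn => ⟨h8 n hn, fun hd => s8 hR hy ?_⟩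
        obtain ⟨y, -, rfl⟩ := (hs1 n).1 hn
        exact hd.trans (cc_dvd y)
      · exact n3 h7 fun n hn => ⟨h8 n hn, fun e => h4 (e ▸ hn)⟩
    have h10 : ((N : Set G)ᶜ).ncard ≤ {g : G | 4 ∣ orderOf g}.ncard :=
      Set.ncard_le_ncard (fun g hg => h4 g hg) (Set.toFinite _)
    have h11 := Set.ncard_add_ncard_compl (N : Set G) (Set.toFinite _) (Set.toFinite _)
    have h12 := N.card_mul_index
    rw [hN] at h12
    have h13 : (N : Set G).ncard = Nat.card N := (Nat.card_coe_set_eq _).symm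
    have h14 : 3 * Nat.card G ≤ 4 * {g : G | 4 ∣ orderOf g}.ncard := by omega
    have h15 : (3 : ℚ) * Nat.card G ≤ 4 * ({g : G | 4 ∣ orderOf g}.ncard : ℕ) := by exact_mod_cast h14
    rw [hs2] at h15
    nlinarith
  · push Not at hx
    obtain ⟨s, hs1, hs2⟩ := cls h Set.univ fun _ _ _ => trivial
    have h7 : ∀ n ∈ s, 0 < n ∧ Sm n := fun n hn => by
      obtain ⟨y, -, rfl⟩ := (hs1 n).1 hn; exact h0 y
    have h9 : ∑ n ∈ s, (1 / n : ℚ) < 1 := by
      by_cases h4 : 4 ∈ s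
      · obtain ⟨y, -, hy⟩ := (hs1 4).1 h4
        refine n2 h7 fun n hn => ?_
        obtain ⟨y, -, rfl⟩ := (hs1 n).1 hn
        exact ⟨cc_ne_one y, (h6 y).1, (h6 y).2.1, (h6 y).2.2, fun hd => s8 hR hy (hd.trans (cc_dvd y)), hx y⟩
      · refine n1 h7 fun n hn => ?_
        have : n ≠ 4 := fun e => h4 (e ▸ hn)
        obtain ⟨y, -, rfl⟩ := (hs1 n).1 hn
        exact ⟨cc_ne_one y, (h6 y).1, (h6 y).2.1, this, (h6 y).2.2, hx y⟩
    rw [Set.ncard_univ] at hs2
    nlinarith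

theorem not_prime [Nontrivial G] (h : AHyp G) {x : G} {q : ℕ} (hq : q.Prime) (hx : cc x = q) :
    q < Nat.card G ∧ q ∣ Nat.card G := by
  refine ⟨lt_of_le_of_ne (Nat.le_of_dvd Nat.card_pos (hx ▸ cc_dvd x)) fun e => ?_, hx ▸ cc_dvd x⟩
  have := Fact.mk hq
  obtain ⟨y, hy⟩ := exists_prime_orderOf_dvd_card' (G := G) q (e ▸ dvd_rfl)
  have h1 : cc y = Nat.card G :=
    Nat.dvd_antisymm (cc_dvd y) (e ▸ hy ▸ dvd_cc (Commute.refl y))
  rw [h.eq_one h1, orderOf_one] at hy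
  exact hq.one_lt.ne hy

theorem fin6 [Nontrivial G] (hs : Group.IsSolvable G) (h : AHyp G) : Nat.card G = 6 := by
  have h5 := fin5 hs h
  have hR := h.rat
  have hm := gow hs hR
  have hG : (0 : ℚ) < Nat.card G := by exact_mod_cast Nat.card_pos
  obtain ⟨s, hs1, hs2⟩ := cls h Set.univ fun _ _ _ => trivial
  rw [Set.ncard_univ] at hs2
  have h1 : ∑ n ∈ s, (1 / n : ℚ) = 1 := by
    have := mul_left_cancel₀ hG.ne' ((mul_one _).trans hs2)
    exact this.symm
  have h7 : ∀ n ∈ s, 0 < n ∧ Sm n := fun n hn => by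
    obtain ⟨y, -, rfl⟩ := (hs1 n).1 hn
    exact ⟨cc_pos y, fun q hq hd => hm q hq (hd.trans (cc_dvd y))⟩
  have h8 : ∀ n ∈ s, ¬ 5 ∣ n ∧ n ≠ 1 ∧ n ∣ Nat.card G := fun n hn => by
    obtain ⟨y, -, rfl⟩ := (hs1 n).1 hn
    exact ⟨fun hd => h5 (hd.trans (cc_dvd y)), cc_ne_one y, cc_dvd y⟩
  have h9 : ∀ q ∈ s, q.Prime → ∀ n ∈ (s.erase q).erase (Nat.card G), n ∈ s ∧ n ≠ q ∧ ¬ q ∣ n := by
    intro q hq hp n hn
    obtain ⟨x, -, hx⟩ := (hs1 q).1 hq
    simp only [Finset.mem_erase] at hn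
    refine ⟨hn.2.2, hn.2.1, fun hd => ?_⟩
    obtain ⟨y, -, rfl⟩ := (hs1 n).1 hn.2.2
    rcases (syl1 hp hx).2 y hd with e | e
    · exact hn.1 (e ▸ cc_one)
    · exact hn.2.1 e
  by_cases h3 : 3 ∈ s
  · obtain ⟨x, -, hx⟩ := (hs1 3).1 h3
    obtain ⟨h10, h11⟩ := not_prime h Nat.prime_three hx
    by_cases h2 : 2 ∈ s
    · obtain ⟨y, -, hy⟩ := (hs1 2).1 h2
      have h12 := (not_prime h Nat.prime_two hy).2
      have h13 := (syl1 Nat.prime_three hx).1
      have h14 := (syl1 Nat.prime_two hy).1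
      obtain ⟨k, hk⟩ : 6 ∣ Nat.card G := by omega
      by_contra h6
      obtain ⟨q, hq, hd⟩ := Nat.exists_prime_and_dvd (n := k) (by rintro rfl; omega)
      have h15 := hm q hq (hk ▸ hd.mul_left 6)
      have h16 := hq.two_le
      obtain ⟨l, rfl⟩ := hd
      interval_cases q
      · exact h14 ⟨3 * l, by omega⟩
      · exact h13 ⟨2 * l, by omega⟩
      · exact absurd hq (by norm_num)
      · exact h5 ⟨6 * l, by omega⟩
    · have h12 := n7 (s := (s.erase 3).erase (Nat.card G)) (fun n hn => h7 n (h9 3 h3 Nat.prime_three n hn).1)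
        fun n hn => by
          obtain ⟨a, -, c⟩ := h9 3 h3 Nat.prime_three n hn
          exact ⟨(h8 n a).1, c, (h8 n a).2.1, fun e => h2 (e ▸ a)⟩
      have h13 := sum_split s 3 (Nat.card G)
      have h14 : (1 / 6 : ℚ) ≤ 1 / Nat.card G := by push_cast at h13; linarith
      have h15 : Nat.card G ≤ 6 := by
        rw [div_le_div_iff₀ (by norm_num) hG] at h14
        exact_mod_cast (by linarith : (Nat.card G : ℚ) ≤ 6)
      omega
  · exfalso
    by_cases h2 : 2 ∈ s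
    · obtain ⟨y, -, hy⟩ := (hs1 2).1 h2
      obtain ⟨h10, h11⟩ := not_prime h Nat.prime_two hy
      have h12 := n8 (s := (s.erase 2).erase (Nat.card G)) (fun n hn => h7 n (h9 2 h2 Nat.prime_two n hn).1)
        fun n hn => by
          obtain ⟨a, -, c⟩ := h9 2 h2 Nat.prime_two n hn
          exact ⟨(h8 n a).1, c, (h8 n a).2.1, fun e => h3 (e ▸ a)⟩
      have h13 := sum_split s 2 (Nat.card G)
      have h14 : (1 / 3 : ℚ) ≤ 1 / Nat.card G := by push_cast at h13; linarith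
      have h15 : Nat.card G ≤ 3 := by
        rw [div_le_div_iff₀ (by norm_num) hG] at h14
        exact_mod_cast (by linarith : (Nat.card G : ℚ) ≤ 3)
      omega
    · refine absurd h1 (ne_of_lt ?_)
      by_cases h4 : 4 ∈ s
      · obtain ⟨y, -, hy⟩ := (hs1 4).1 h4
        exact n6 h7 fun n hn => ⟨(h8 n hn).1, fun hd => s8 hR hy (hd.trans (h8 n hn).2.2), (h8 n hn).2.1,
          fun e => h2 (e ▸ hn), fun e => h3 (e ▸ hn)⟩
      · exact n5 h7 fun n hn => ⟨(h8 n hn).1, (h8 n hn).2.1, fun e => h2 (e ▸ hn), fun e => h3 (e ▸ hn),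
          fun e => h4 (e ▸ hn)⟩

theorem main [Nontrivial G] (hs : Group.IsSolvable G)
    (h : Function.Injective fun C : ConjClasses G => Nat.card C.carrier) :
    Nonempty (G ≃* Equiv.Perm (Fin 3)) :=
  six (fin6 hs (ahyp h)) fun _ hx => (ahyp h).eq_one (hx.trans (fin6 hs (ahyp h)).symm)

end Cfsg.Agent.AH
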