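import Cfsg.Agent.AH.BasL

/-! Project AH: the Clifford computation for five anticommuting involutions. -/

set_option autoImplicit false

namespace Cfsg.Agent.AH

open Subgroup

universe u

variable {F V : Type*} [Field F] [AddCommGroup V] [Module F V] {b : V →ₗ[F] V →ₗ[F] F}
  {Γ : Subgroup (V ≃ₗ[F] V)}

/-- a linear combination of the five involutions -/
def fiveA_Y (t : Fin 5 → V ≃ₗ[F] V) (a : Fin 5 → F) : V →ₗ[F] V := ∑ k, a k • (t k : V →ₗ[F] V)

theorem fiveA_apply (t : Fin 5 → V ≃ₗ[F] V) (a : Fin 5 → F) (v : V) :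
    fiveA_Y t a v = ∑ k, a k • t k v := by
  simp [fiveA_Y, LinearMap.sum_apply]

theorem fiveA_T {t : Fin 5 → V ≃ₗ[F] V} (h1 : ∀ k, t k * t k = 1)
    (h2 : ∀ k l, k ≠ l → t k * t l = ng * (t l * t k)) (a : Fin 5 → F) (c : Fin 5) (v : V) :
    fiveA_Y t a (t c v) = (2 * a c) • v - t c (fiveA_Y t a v) := by
  have key : ∀ k, a k • t k (t c v) = (if k = c then (2 * a c) • v else 0) - t c (a k • t k v) := by
    intro k
    split_ifs with hk
    · subst hk
      have : t k (t k v) = v := LinearEquiv.congr_fun (h1 k) v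
      rw [map_smul, this]
      module
    · have : t k (t c v) = - t c (t k v) := LinearEquiv.congr_fun (h2 k c hk) v
      rw [map_smul, this]
      module
  rw [fiveA_apply, fiveA_apply, map_sum, Finset.sum_congr rfl fun k _ => key k,
    Finset.sum_sub_distrib, Finset.sum_ite_eq' Finset.univ c, if_pos (Finset.mem_univ c)]

theorem fiveA_YY {t : Fin 5 → V ≃ₗ[F] V} (h1 : ∀ k, t k * t k = 1)
    (h2 : ∀ k l, k ≠ l → t k * t l = ng * (t l * t k)) (a a' : Fin 5 → F)
    (h : ∑ k, a' k * a k = 0) (v : V) :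
    fiveA_Y t a (fiveA_Y t a' v) = - fiveA_Y t a' (fiveA_Y t a v) := by
  have key : ∀ k, fiveA_Y t a (a' k • t k v) =
      (2 * (a' k * a k)) • v - a' k • t k (fiveA_Y t a v) := by
    intro k
    rw [map_smul, fiveA_T h1 h2]
    module
  rw [fiveA_apply t a' v, map_sum, Finset.sum_congr rfl fun k _ => key k, Finset.sum_sub_distrib,
    ← Finset.sum_smul, ← Finset.mul_sum, h, mul_zero, zero_smul, zero_sub, ← fiveA_apply]

theorem fiveA_adj (h : Sp b Γ) {x : V ≃ₗ[F] V} (hx : x ∈ Γ) (h1 : x * x = 1) (v w : V) :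
    b (x v) w = b v (x w) := by
  have : x (x v) = v := LinearEquiv.congr_fun h1 v
  rw [← h.inv x hx, this]

theorem fiveA_adjY (h : Sp b Γ) {t : Fin 5 → V ≃ₗ[F] V} (ht : ∀ k, t k ∈ Γ)
    (h1 : ∀ k, t k * t k = 1) (a : Fin 5 → F) (v w : V) :
    b (fiveA_Y t a v) w = b v (fiveA_Y t a w) := by
  rw [fiveA_apply, fiveA_apply, map_sum, map_sum, LinearMap.sum_apply]
  refine Finset.sum_congr rfl fun k _ => ?_
  rw [map_smul, map_smul, LinearMap.smul_apply, fiveA_adj h (ht k) (h1 k)]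

theorem fiveA_half (h2 : (2 : F) ≠ 0) {v : V} (h : v = -v) : v = 0 := by
  have : (2 : F) • v = 0 := by rw [two_smul]; exact add_eq_zero_iff_eq_neg.2 h
  exact (smul_eq_zero.1 this).resolve_left h2

theorem five_w [Nontrivial V] (h30 : (30 : F) ≠ 0) (h : Sp b Γ) {ω : F} (hω : ω ^ 2 + ω + 1 = 0)
    (t : Fin 5 → V ≃ₗ[F] V) (ht : ∀ k, t k ∈ Γ) (h1 : ∀ k, t k * t k = 1)
    (h2 : ∀ k l, k ≠ l → t k * t l = ng * (t l * t k)) :
    ∃ w, ∀ c d : Fin 5, c ≠ d → ¬ (c.val ≤ 1 ∧ d.val ≤ 1) → b w (t c (t d w)) ≠ 0 := by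
  have n2 : (2 : F) ≠ 0 := fun e => h30 (by linear_combination 15 * e)
  have n3 : (3 : F) ≠ 0 := fun e => h30 (by linear_combination 10 * e)
  have n5 : (5 : F) ≠ 0 := fun e => h30 (by linear_combination 6 * e)
  have n4 : (4 : F) ≠ 0 := fun e => mul_ne_zero n2 n2 (by linear_combination e)
  have w0 : ω ≠ 0 := by rintro rfl; simp at hω
  have w1 : ω - 1 ≠ 0 := fun e => n3 (by linear_combination hω - (ω + 2) * e)
  have w2 : ω + 1 ≠ 0 := fun e => one_ne_zero (α := F) (by linear_combination hω - ω * e)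
  obtain ⟨s, hs⟩ : ∃ s : F, s = ω - ω ^ 2 := ⟨_, rfl⟩
  have s2 : s ^ 2 = -3 := by rw [hs]; linear_combination (ω ^ 2 - 3 * ω + 3) * hω
  have s0 : s ≠ 0 := by
    rintro rfl
    exact n3 (by linear_combination s2)
  obtain ⟨a, ha⟩ : ∃ a : Fin 5 → F, a = ![0, 0, 1, ω, ω ^ 2] := ⟨_, rfl⟩
  obtain ⟨a', ha'⟩ : ∃ a : Fin 5 → F, a = ![3 * s, 4 * s, 5, 5, 5] := ⟨_, rfl⟩
  have e1 : ∑ k, a k * a k = 0 := by
    rw [ha, Fin.sum_univ_five]
    simp only [Matrix.cons_val]
    linear_combination (ω ^ 2 - ω + 1) * hω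
  have e2 : ∑ k, a' k * a' k = 0 := by
    rw [ha', Fin.sum_univ_five]
    simp only [Matrix.cons_val]
    linear_combination 25 * s2
  have e3 : ∑ k, a k * a' k = 0 := by
    rw [ha, ha', Fin.sum_univ_five]
    simp only [Matrix.cons_val]
    linear_combination 5 * hω
  have hp : ∀ c d : Fin 5, c ≠ d → ¬ (c.val ≤ 1 ∧ d.val ≤ 1) → a c * a' d - a d * a' c ≠ 0 := by
    have k1 : (1 : F) * 5 - ω * 5 ≠ 0 := fun e => mul_ne_zero n5 w1 (by linear_combination -e)
    have k2 : (1 : F) * 5 - ω ^ 2 * 5 ≠ 0 := fun e =>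
      mul_ne_zero n5 (mul_ne_zero w1 w2) (by linear_combination -e)
    have k3 : ω * 5 - ω ^ 2 * 5 ≠ 0 := fun e =>
      mul_ne_zero n5 (mul_ne_zero w1 w0) (by linear_combination -e)
    have key : ∀ c d : Fin 5, c < d → ¬ (c.val ≤ 1 ∧ d.val ≤ 1) → a c * a' d - a d * a' c ≠ 0 := by
      intro c d hcd hn
      rw [ha, ha']
      fin_cases c <;> fin_cases d <;> simp at hcd hn <;>
        first
        | simpa using k1
        | simpa using k2
        | simpa using k3
        | simp [n3, n4, s0, w0]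
    intro c d hcd hn
    rcases lt_or_gt_of_ne hcd with h3 | h3
    · exact key c d h3 hn
    · intro e
      exact key d c h3 (fun h4 => hn ⟨h4.2, h4.1⟩) (by linear_combination -e)
  set y := fiveA_Y t a with hy
  set y' := fiveA_Y t a' with hy'
  have yT : ∀ c v, y (t c v) = (2 * a c) • v - t c (y v) := fiveA_T h1 h2 a
  have yT' : ∀ c v, y' (t c v) = (2 * a' c) • v - t c (y' v) := fiveA_T h1 h2 a'
  have yy : ∀ v, y (y v) = 0 := fun v => fiveA_half n2 (fiveA_YY h1 h2 a a e1 v)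
  have yy' : ∀ v, y' (y' v) = 0 := fun v => fiveA_half n2 (fiveA_YY h1 h2 a' a' e2 v)
  have y'y : ∀ v, y' (y v) = - y (y' v) := fiveA_YY h1 h2 a' a e3
  have ad : ∀ v w, b (y v) w = b v (y w) := fiveA_adjY h ht h1 a
  have ad' : ∀ v w, b (y' v) w = b v (y' w) := fiveA_adjY h ht h1 a'
  obtain ⟨u, hu⟩ : ∃ u, b u (y (y' u)) ≠ 0 := by
    by_contra hn
    push Not at hn
    have sy : ∀ v w, b w (y (y' v)) = b v (y (y' w)) := fun v w => by
      rw [← ad, ← ad', h.skew, y'y, map_neg, neg_neg]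
    have z : ∀ w, y (y' w) = 0 := fun w => h.nd _ fun v => by
      have := hn (v + w)
      simp only [map_add, LinearMap.add_apply, hn, sy v w] at this
      rw [h.skew]
      have h3 : 2 * b v (y (y' w)) = 0 := by linear_combination this
      rw [(mul_eq_zero.1 h3).resolve_left n2, neg_zero]
    have z1 : ∀ w, y w = 0 := fun w => by
      have h3 := z (t 0 w)
      rw [yT', map_sub, map_smul, yT, z, map_zero, sub_zero] at h3
      have a0 : a 0 = 0 := by rw [ha]; rfl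
      have a1 : a' 0 = 3 * s := by rw [ha']; rfl
      rw [a0, a1, mul_zero, zero_smul, sub_zero] at h3
      exact (smul_eq_zero.1 h3).resolve_left (mul_ne_zero n2 (mul_ne_zero n3 s0))
    obtain ⟨w, hw⟩ := exists_ne (0 : V)
    have h3 := yT 2 w
    have a2 : a 2 = 1 := by rw [ha]; rfl
    rw [z1, z1, map_zero, sub_zero, a2, mul_one] at h3
    exact hw ((smul_eq_zero.1 h3.symm).resolve_left n2)
  refine ⟨y (y' u), fun c d hcd hn => ?_⟩
  have key : y' (y (t c (t d (y (y' u))))) = (4 * (a c * a' d - a d * a' c)) • y (y' u) := by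
    simp only [yT, yT', map_sub, map_smul, yy, yy', y'y, map_zero, map_neg, sub_zero, neg_zero]
    module
  rw [ad, ad', key, map_smul, smul_eq_mul]
  exact mul_ne_zero (mul_ne_zero n4 (hp c d hcd hn)) hu

end Cfsg.Agent.AH
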