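import Cfsg.Agent.AH.FiveA

/-! Project AH: five anticommuting involutions, the action on the five classes. -/

set_option autoImplicit false

namespace Cfsg.Agent.AH

open Subgroup

universe u

/-- the three-cycle on `2, 3, 4` -/
def fiveB_tau : Equiv.Perm (Fin 5) := Equiv.swap 2 3 * Equiv.swap 2 4

theorem fiveB_dec : ∀ ρ : Equiv.Perm (Fin 5), ρ ^ 20 ≠ fiveB_tau → ρ ^ 20 ≠ fiveB_tau⁻¹ →
    ∃ c d : Fin 5, c ≠ d ∧ ¬ (c.val ≤ 1 ∧ d.val ≤ 1) ∧ (ρ ^ 20) c = c ∧ (ρ ^ 20) d = d := by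
  decide +kernel

theorem fiveB_dec2 : ∀ c : Fin 5, ∃ d : Fin 5, c ≠ d ∧ ¬ (c.val ≤ 1 ∧ d.val ≤ 1) := by decide

theorem fiveB_miss (R : Subgroup (Equiv.Perm (Fin 5))) (hs : Group.IsSolvable R) :
    ∃ π : Equiv.Perm (Fin 5), π * fiveB_tau * π⁻¹ ∉ R := by
  by_contra hn
  push Not at hn
  have h3 : fiveB_tau.IsThreeCycle :=
    Equiv.Perm.isThreeCycle_swap_mul_swap_same (by decide) (by decide) (by decide)
  have hle : alternatingGroup (Fin 5) ≤ R := by
    rw [← Equiv.Perm.closure_three_cycles_eq_alternating, closure_le]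
    intro τ hτ
    obtain ⟨π, rfl⟩ := isConj_iff.1 (Equiv.Perm.isConj_iff_cycleType_eq.2
      (h3.cycleType.trans (Equiv.Perm.IsThreeCycle.cycleType hτ).symm))
    exact hn π
  have h4 : Group.IsSolvable (alternatingGroup (Fin 5)) :=
    Group.isSolvable_of_isSolvable_injective (inclusion_injective hle)
  have h5 := IsSimpleGroup.comm_iff_isSolvable.2 h4
    ⟨Equiv.swap 0 1 * Equiv.swap 0 2, by rw [Equiv.Perm.mem_alternatingGroup]; decide⟩
    ⟨Equiv.swap 0 1 * Equiv.swap 0 3, by rw [Equiv.Perm.mem_alternatingGroup]; decide⟩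
  exact absurd (congrArg Subtype.val h5) (by decide)

section
variable {A : Type*} [Group A] {z : A}

/-- equality up to the sign `z` -/
def fiveB_P (z a c : A) : Prop := a = c ∨ a = z * c

theorem fiveB_symm (hz : z * z = 1) {a c : A} (h : fiveB_P z a c) : fiveB_P z c a := by
  rcases h with rfl | rfl
  · exact Or.inl rfl
  · exact Or.inr (by rw [← mul_assoc, hz, one_mul])

theorem fiveB_trans (hz : z * z = 1) {a c d : A} (h : fiveB_P z a c) (h' : fiveB_P z c d) :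
    fiveB_P z a d := by
  rcases h with rfl | rfl
  · exact h'
  · rcases h' with rfl | rfl
    · exact Or.inr rfl
    · exact Or.inl (by rw [← mul_assoc, hz, one_mul])

theorem fiveB_conj (hc : ∀ x, x * z = z * x) (x : A) {a c : A} (h : fiveB_P z a c) :
    fiveB_P z (x * a * x⁻¹) (x * c * x⁻¹) := by
  rcases h with rfl | rfl
  · exact Or.inl rfl
  · exact Or.inr (by rw [← mul_assoc, hc x]; group)

theorem fiveB_sq (hz : z * z = 1) (hc : ∀ x, x * z = z * x) {x a : A}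
    (h : fiveB_P z (x * a * x⁻¹) a) : x ^ 2 * a = a * x ^ 2 := by
  have key : x * (x * a * x⁻¹) * x⁻¹ = a := by
    rcases h with h | h
    · rw [h, h]
    · calc x * (x * a * x⁻¹) * x⁻¹ = x * z * a * x⁻¹ := by rw [h, mul_assoc x z a]
        _ = z * (x * a * x⁻¹) := by rw [hc x]; group
        _ = a := by rw [h, ← mul_assoc, hz, one_mul]
  calc x ^ 2 * a = x * (x * a * x⁻¹) * x⁻¹ * x ^ 2 := by rw [pow_two]; group
    _ = a * x ^ 2 := by rw [key]

theorem fiveB_hom (hz : z * z = 1) (hc : ∀ x, x * z = z * x) (z1 : z ≠ 1) {Γ C : Subgroup A}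
    (hn : ∀ g ∈ Γ, ∀ e ∈ C, g * e * g⁻¹ ∈ C) (t : Fin 5 → A) (ht : ∀ k, t k ∈ C)
    (h1 : ∀ k, t k * t k = 1) (h2 : ∀ k l, k ≠ l → t k * t l = z * (t l * t k))
    (hall : ∀ c ∈ C, c = 1 ∨ c = z ∨ c * c = z ∨ ∃ k, c = t k ∨ c = z * t k) :
    ∃ σ : Γ →* Equiv.Perm (Fin 5), ∀ (x : Γ) k, fiveB_P z ((x : A) * t k * (x : A)⁻¹) (t (σ x k)) := by
  have uq : ∀ k l, fiveB_P z (t k) (t l) → k = l := by
    intro k l h
    by_contra hkl
    have h3 := h2 k l hkl
    rcases h with h | h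
    · rw [h, h1, mul_one] at h3
      exact z1 h3.symm
    · rw [h, ← mul_assoc (t l), hc (t l), mul_assoc z, h1, mul_one, hz] at h3
      exact z1 h3
  have nc : ∀ k, ¬ ∀ x, x * t k = t k * x := by
    intro k h
    obtain ⟨l, hl, -⟩ := fiveB_dec2 k
    have h3 := h2 k l hl
    rw [h (t l)] at h3
    exact z1 (mul_right_cancel (h3.symm.trans (one_mul _).symm))
  have ex : ∀ (x : Γ) k, ∃ l, fiveB_P z ((x : A) * t k * (x : A)⁻¹) (t l) := by
    intro x k
    rcases hall _ (hn x x.2 _ (ht k)) with h | h | h | h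
    · refine (nc k fun y => ?_).elim
      rw [show t k = 1 by simpa using h, mul_one, one_mul]
    · refine (nc k fun y => ?_).elim
      have : t k = z := by
        calc t k = (x : A)⁻¹ * (x * t k * (x : A)⁻¹) * x := by group
          _ = z := by rw [h, hc]; group
      rw [this, hc]
    · rw [conj_mul, h1] at h
      exact (z1 (by simpa using h.symm)).elim
    · exact h
  choose f hf using ex
  let φ : Γ →* Function.End (Fin 5) :=
    { toFun := f
      map_one' := funext fun k => (uq k (f 1 k) (by simpa using hf 1 k)).symm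
      map_mul' := fun x y => funext fun k => uq (f (x * y) k) (f x (f y k)) (by
        refine fiveB_trans hz (fiveB_symm hz (hf (x * y) k)) (fiveB_trans hz ?_ (hf x (f y k)))
        have := fiveB_conj hc (x : A) (hf y k)
        rwa [show (x : A) * (y * t k * (y : A)⁻¹) * (x : A)⁻¹ =
          ((x * y : Γ) : A) * t k * ((x * y : Γ) : A)⁻¹ by rw [Subgroup.coe_mul]; group] at this) }
  exact ⟨φ.toHomPerm, hf⟩

end

variable {p : ℕ} [Fact p.Prime] {V : Type u} [AddCommGroup V] [Module (ZMod p) V] [Finite V]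
  {b : V →ₗ[ZMod p] V →ₗ[ZMod p] ZMod p} {Γ : Subgroup (V ≃ₗ[ZMod p] V)} {ζ : ZMod p}

theorem five [Nontrivial V] (hp : p = 7 ∨ p = 13) (h : Sp b Γ) (hs : Group.IsSolvable Γ)
    (hζ : IsPrimitiveRoot ζ (p - 1)) {C : Subgroup (V ≃ₗ[ZMod p] V)} (hC : C ≤ Γ)
    (hn : ∀ g ∈ Γ, ∀ e ∈ C, g * e * g⁻¹ ∈ C)
    (hE : ∀ w, (∀ c ∈ C, c w = w → c = 1) → ∃ x ∈ Γ, x w = ζ • w)
    (t : Fin 5 → V ≃ₗ[ZMod p] V) (ht : ∀ k, t k ∈ C) (h1 : ∀ k, t k * t k = 1)
    (h2 : ∀ k l, k ≠ l → t k * t l = ng * (t l * t k))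
    (hall : ∀ c ∈ C, c = 1 ∨ c = ng ∨ c * c = ng ∨ ∃ k, c = t k ∨ c = ng * t k) : False := by
  have h30 : (30 : ZMod p) ≠ 0 := by
    have : ((30 : ℕ) : ZMod p) ≠ 0 := by
      rw [Ne, ZMod.natCast_eq_zero_iff]
      rcases hp with rfl | rfl <;> norm_num
    exact_mod_cast this
  have n2 : (2 : ZMod p) ≠ 0 := fun e => h30 (by linear_combination 15 * e)
  obtain ⟨σ, hσ⟩ := fiveB_hom ng_mul_ng ng_comm (ng_ne_one n2) hn t ht h1 h2 hall
  obtain ⟨π, hπ⟩ := fiveB_miss σ.range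
    (Group.isSolvable_of_surjective σ.rangeRestrict_surjective)
  have hω : (ζ ^ 20) ^ 2 + ζ ^ 20 + 1 = 0 := by
    have e1 : ζ ^ 60 = 1 := (hζ.pow_eq_one_iff_dvd 60).2 (by rcases hp with rfl | rfl <;> norm_num)
    have e2 : ζ ^ 20 - 1 ≠ 0 := sub_ne_zero.2 fun e => absurd ((hζ.pow_eq_one_iff_dvd 20).1 e)
      (by rcases hp with rfl | rfl <;> norm_num)
    exact (mul_eq_zero.1 (show (ζ ^ 20 - 1) * ((ζ ^ 20) ^ 2 + ζ ^ 20 + 1) = 0 by
      linear_combination e1)).resolve_left e2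
  obtain ⟨w, hw⟩ := five_w h30 h hω (fun k => t (π k)) (fun k => hC (ht _)) (fun k => h1 _)
    fun k l hkl => h2 _ _ fun e => hkl (π.injective e)
  have w0 : w ≠ 0 := by
    rintro rfl
    exact hw 0 2 (by decide) (by decide) (by simp)
  have hk : ∀ k, ¬ (t k w = w ∨ t k w = -w) := by
    intro k hk
    obtain ⟨c, rfl⟩ := π.surjective k
    obtain ⟨d, hd, hd'⟩ := fiveB_dec2 c
    have e : b w (t (π d) w) = 0 := by
      have e1 := fiveA_adj h (hC (ht (π d))) (h1 _) w w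
      rw [h.skew] at e1
      have e2 : 2 * b w (t (π d) w) = 0 := by linear_combination -e1
      exact (mul_eq_zero.1 e2).resolve_left n2
    refine hw c d hd hd' ?_
    rw [← fiveA_adj h (hC (ht _)) (h1 _)]
    rcases hk with hk | hk
    · rw [hk, e]
    · rw [hk, map_neg, LinearMap.neg_apply, e, neg_zero]
  obtain ⟨x, hx, hxw⟩ := hE w fun c hc hcw => by
    rcases hall c hc with h3 | h3 | h3 | ⟨k, h3 | h3⟩
    · exact h3
    · rw [h3] at hcw
      exact (w0 (fiveA_half n2 hcw.symm)).elim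
    · have : c (c w) = -w := LinearEquiv.congr_fun h3 w
      rw [hcw, hcw] at this
      exact (w0 (fiveA_half n2 this)).elim
    · exact (hk k (Or.inl (h3 ▸ hcw))).elim
    · rw [h3] at hcw
      exact (hk k (Or.inr (neg_eq_iff_eq_neg.1 hcw))).elim
  have hpow : (π⁻¹ * σ ⟨x, hx⟩ * π) ^ 20 = π⁻¹ * σ (⟨x, hx⟩ ^ 20) * π := by
    have := conj_pow (a := π⁻¹) (b := σ ⟨x, hx⟩) (i := 20)
    rwa [inv_inv, ← map_pow] at this
  obtain ⟨c, d, hcd, hcd', hc, hd⟩ := fiveB_dec (π⁻¹ * σ ⟨x, hx⟩ * π) (fun e => hπ (by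
      rw [← e, hpow]
      exact ⟨⟨x, hx⟩ ^ 20, by group⟩)) fun e => hπ (by
      rw [← inv_inv fiveB_tau, ← e, hpow]
      exact ⟨(⟨x, hx⟩ ^ 20)⁻¹, by rw [map_inv]; group⟩)
  have fx : ∀ c, ((π⁻¹ * σ ⟨x, hx⟩ * π) ^ 20) c = c →
      (x ^ 20) ^ 2 * t (π c) = t (π c) * (x ^ 20) ^ 2 := by
    intro c hc
    rw [hpow] at hc
    have e : σ (⟨x, hx⟩ ^ 20) (π c) = π c := by
      have := congrArg π hc
      simpa using this
    have := hσ (⟨x, hx⟩ ^ 20) (π c)
    rw [e] at this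
    exact fiveB_sq ng_mul_ng ng_comm this
  refine hw c d hcd hcd' (h.q_zero (x := (x ^ 20) ^ 2) (r := t (π c) * t (π d))
    (Γ.pow_mem (Γ.pow_mem hx _) _) ?_ (pow_eig (pow_eig hxw 20) 2) fun e => ?_)
  · rw [← mul_assoc, fx c hc, mul_assoc, fx d hd, mul_assoc]
  · rw [← pow_mul, ← pow_mul] at e
    exact absurd ((hζ.pow_eq_one_iff_dvd _).1 e) (by rcases hp with rfl | rfl <;> norm_num)

end Cfsg.Agent.AH
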