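import Cfsg.Agent.AH.Defs

set_option autoImplicit false

namespace Cfsg.Agent.AH

open Subgroup

universe u

theorem form_K {K G V : Type*} [Field K] [Group G] [Finite G] [AddCommGroup V] [Module K V]
    [FiniteDimensional K V] [Nontrivial V] (ρ : Representation K G V) (hc : (Nat.card G : K) ≠ 0)
    (hr : ∀ x : G, IsConj x x⁻¹)
    (hE : ∀ f : V →ₗ[K] V, (∀ g v, f (ρ g v) = ρ g (f v)) → ∃ k : K, ∀ v, f v = k • v) :
    ∃ B : V →ₗ[K] V →ₗ[K] K, B ≠ 0 ∧ ∀ g v w, B (ρ g v) (ρ g w) = B v w := by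
  have := Fintype.ofFinite G
  have := invertibleOfNonzero hc
  have h1 : Module.finrank K (Representation.IntertwiningMap ρ ρ) = 1 := by
    refine (finrank_eq_one_iff_of_nonzero' (Representation.IntertwiningMap.id ρ) fun h => ?_).2 fun f => ?_
    · obtain ⟨v, hv⟩ := exists_ne (0 : V)
      exact hv (DFunLike.congr_fun h v)
    · obtain ⟨k, hk⟩ := hE f.toLinearMap fun g v => f.isIntertwining _ _ g v
      exact ⟨k, DFunLike.ext _ _ fun v => (hk v).symm⟩
  have h2 := Representation.card_inv_mul_sum_char_mul_char_eq_finrank ρ ρ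
  have h3 := Representation.card_inv_mul_sum_char_mul_char_eq_finrank ρ ρ.dual
  have h4 : ∀ g, ρ.dual.character g = ρ.character g := fun g => by
    obtain ⟨c, hc⟩ := isConj_iff.1 (hr g)
    rw [Representation.char_dual, ← hc, Representation.char_conj]
  simp only [h4] at h3
  rw [h2, h1] at h3
  have h5 : Nontrivial (Representation.IntertwiningMap ρ ρ.dual) := by
    by_contra h
    rw [not_nontrivial_iff_subsingleton] at h
    rw [Module.finrank_zero_of_subsingleton] at h3
    simp at h3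
  obtain ⟨f, hf⟩ := exists_ne (0 : Representation.IntertwiningMap ρ ρ.dual)
  refine ⟨f.toLinearMap, fun h => hf (Representation.IntertwiningMap.ext h), fun g v w => ?_⟩
  have h6 := f.isIntertwining _ _ g v
  change f (ρ g v) (ρ g w) = f v w
  rw [h6, Representation.dual_apply]
  change f v (ρ g⁻¹ (ρ g w)) = f v w
  rw [Representation.inv_self_apply]

theorem form_F {F K G V : Type*} [Field F] [Field K] [Algebra F K] [AddCommGroup V] [Module F V]
    [Module K V] [IsScalarTower F K V] (ρ : G → V → V) (B : V →ₗ[K] V →ₗ[K] K) (h0 : B ≠ 0)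
    (h : ∀ g v w, B (ρ g v) (ρ g w) = B v w) :
    ∃ b : V →ₗ[F] V →ₗ[F] F, b ≠ 0 ∧ ∀ g v w, b (ρ g v) (ρ g w) = b v w := by
  obtain ⟨v, hv⟩ := DFunLike.ne_iff.1 h0
  obtain ⟨w, hw⟩ := DFunLike.ne_iff.1 hv
  obtain ⟨l, hl⟩ := not_forall.1 (mt (Module.forall_dual_apply_eq_zero_iff F (B v w)).1 hw)
  refine ⟨LinearMap.mk₂ F (fun v w => l (B v w)) (fun _ _ _ => by simp) (fun c v w => ?_)
    (fun _ _ _ => by simp) (fun c v w => ?_), fun e => hl (DFunLike.congr_fun (DFunLike.congr_fun e v) w),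
    fun g v w => congrArg l (h g v w)⟩
  · rw [LinearMap.map_smul_of_tower, LinearMap.smul_apply, map_smul]
  · rw [LinearMap.map_smul_of_tower, map_smul]

variable {p : ℕ} [Fact p.Prime] {V : Type u} [AddCommGroup V] [Module (ZMod p) V] [Finite V]
  {b : V →ₗ[ZMod p] V →ₗ[ZMod p] ZMod p} {Γ : Subgroup (V ≃ₗ[ZMod p] V)} {ζ : ZMod p}

theorem form [Nontrivial V] (hI : Irr Γ) (hc : ¬ p ∣ Nat.card Γ) (hr : ∀ x : Γ, IsConj x x⁻¹) :
    ∃ b : V →ₗ[ZMod p] V →ₗ[ZMod p] ZMod p, (∀ v, (∀ w, b v w = 0) → v = 0) ∧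
      ∀ x ∈ Γ, ∀ v w, b (x v) (x w) = b v w := by
  let K := Subalgebra.centralizer (ZMod p) (Set.range fun x : Γ => (x.1 : Module.End (ZMod p) V))
  have hK : ∀ k : Module.End (ZMod p) V, k ∈ K ↔ ∀ x ∈ Γ, ∀ v, x (k v) = k (x v) := fun k => by
    simp only [K, Subalgebra.mem_centralizer_iff, Set.forall_mem_range, Subtype.forall]
    exact forall₂_congr fun x _ => LinearMap.ext_iff
  have : Finite (Module.End (ZMod p) V) := DFunLike.finite _
  have : NoZeroDivisors K := ⟨fun {k l} e => by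
    rcases hI (LinearMap.ker k.1) (fun x hx v hv => by
      rw [LinearMap.mem_ker, ← (hK _).1 k.2 x hx, hv, map_zero]) with h | h
    · refine .inr (Subtype.ext (LinearMap.ext fun v => LinearMap.ker_eq_bot.1 h ?_))
      exact (DFunLike.congr_fun (congrArg Subtype.val e) v).trans (map_zero _).symm
    · exact .inl (Subtype.ext (LinearMap.ker_eq_top.1 h))⟩
  have : IsDomain K := NoZeroDivisors.to_isDomain K
  let _ : Field K := (Finite.isDomain_to_isField K).toField
  have : FiniteDimensional K V := Module.Finite.of_finite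
  let ρ : Representation K Γ V :=
    { toFun := fun x => { toFun := x.1, map_add' := map_add x.1, map_smul' := fun k v => (hK _).1 k.2 x x.2 v }
      map_one' := rfl
      map_mul' := fun _ _ => rfl }
  have h1 : (Nat.card Γ : K) ≠ 0 := by
    rw [← map_natCast (algebraMap (ZMod p) K), _root_.map_ne_zero, Ne, ZMod.natCast_eq_zero_iff]
    exact hc
  obtain ⟨B, h0, hB⟩ := form_K ρ h1 hr fun f hf =>
    ⟨⟨f.restrictScalars (ZMod p), (hK _).2 fun x hx v => (hf ⟨x, hx⟩ v).symm⟩, fun _ => rfl⟩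
  obtain ⟨c, hc0, hc1⟩ := form_F (F := ZMod p) (fun x : Γ => x.1) B h0 hB
  refine ⟨c, fun v hv => ?_, fun x hx => hc1 ⟨x, hx⟩⟩
  rcases hI (LinearMap.ker c) (fun x hx v hv => LinearMap.ext fun w => by
    rw [← x.apply_symm_apply w, hc1 ⟨x, hx⟩, LinearMap.mem_ker.1 hv]; rfl) with h | h
  · exact LinearMap.ker_eq_bot'.1 h v (LinearMap.ext hv)
  · exact absurd (LinearMap.ker_eq_top.1 h) hc0

end Cfsg.Agent.AH
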