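import Cfsg.Agent.AH.BasL

set_option autoImplicit false
set_option linter.unusedSectionVars false
set_option linter.unusedVariables false

namespace Cfsg.Agent.AH

open Subgroup

universe u

variable {p : ℕ} [Fact p.Prime] {V : Type u} [AddCommGroup V] [Module (ZMod p) V] [Finite V]
  {b : V →ₗ[ZMod p] V →ₗ[ZMod p] ZMod p} {Γ : Subgroup (V ≃ₗ[ZMod p] V)} {ζ : ZMod p}

theorem na_fix_sup {L L' : Subgroup (V ≃ₗ[ZMod p] V)} {v : V} (h : v ∈ Fix L) (h' : v ∈ Fix L') :
    v ∈ Fix (L ⊔ L') :=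
  fun x hx => (sup_le (fun y hy => h y hy) (fun y hy => h' y hy) :
    L ⊔ L' ≤ MulAction.stabilizer (V ≃ₗ[ZMod p] V) v) hx

theorem na_free (hp : 7 ≤ p) (h : Sp b Γ) (hm : Sm (Nat.card Γ))
    (hprim : ∀ U : Submodule (ZMod p) V, U ≠ ⊥ → Nd b U → Blk b Γ U → U = ⊤)
    {A : Subgroup (V ≃ₗ[ZMod p] V)} (hA : A ≤ Γ) (hn : ∀ g ∈ Γ, ∀ a ∈ A, g * a * g⁻¹ ∈ A)
    (hc : ∀ a ∈ A, ∀ a' ∈ A, a * a' = a' * a) {a : V ≃ₗ[ZMod p] V} (ha : a ∈ A) (a1 : a ≠ 1) {v : V}
    (hv : a v = v) : v = 0 := by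
  classical
  by_contra v0
  have za : Fix (zpowers a) ≠ ⊥ := fun e => v0 ((Submodule.eq_bot_iff _).1 e v fun x hx =>
    (zpowers_le_of_mem (show a ∈ MulAction.stabilizer (V ≃ₗ[ZMod p] V) v from hv)) hx)
  obtain ⟨L, ⟨LA, L0⟩, hL⟩ := Set.exists_max_image {L : Subgroup (V ≃ₗ[ZMod p] V) | L ≤ A ∧ Fix L ≠ ⊥}
    (fun L => Nat.card L) (Set.toFinite _) ⟨_, zpowers_le_of_mem ha, za⟩
  have cL : (Nat.card L : ZMod p) ≠ 0 := hm.cast_ne hp (card_dvd_of_le (LA.trans hA))
  have top : Fix L = ⊤ := hprim _ L0 (h.fix_nd (LA.trans hA) cL) fun x hx => by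
    have L'A : L.map (MulAut.conj x).toMonoidHom ≤ A := by
      rintro _ ⟨l, hl, rfl⟩
      exact hn x hx l (LA hl)
    have fx : ∀ v ∈ Fix L, x v ∈ Fix (L.map (MulAut.conj x).toMonoidHom) := by
      rintro v hv _ ⟨l, hl, rfl⟩
      change x (l (x.symm (x v))) = x v
      rw [x.symm_apply_apply, hv l hl]
    have cd : Nat.card (L.map (MulAut.conj x).toMonoidHom) = Nat.card L :=
      card_map_of_injective (MulAut.conj x).injective
    generalize L.map (MulAut.conj x).toMonoidHom = L' at L'A fx cd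
    by_cases e : Fix (L ⊔ L') = ⊥
    · refine Or.inr fun v hv w hw => ?_
      have := Fintype.ofFinite L
      obtain ⟨k1, k2⟩ := h.avg (LA.trans hA) hw (x v)
      have k3 : ∑ l : L, l.1 (x v) ∈ Fix L' := Submodule.sum_mem _ fun l _ y hy => by
        rw [← LinearEquiv.mul_apply, hc y (L'A hy) l (LA l.2), LinearEquiv.mul_apply, fx v hv y hy]
      rw [(Submodule.eq_bot_iff _).1 e _ (na_fix_sup k1 k3), map_zero, eq_comm, mul_eq_zero] at k2
      rw [h.skew, k2.resolve_left cL, neg_zero]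
    · have e2 : L' = L ⊔ L' := eq_of_le_of_card_ge le_sup_right (cd ▸ hL _ ⟨sup_le LA L'A, e⟩)
      exact Or.inl fun v hv y hy => fx v hv y (e2 ▸ mem_sup_left hy)
  have bot : L = ⊥ := (Subgroup.eq_bot_iff_forall _).2 fun l hl => LinearEquiv.ext fun w =>
    (show w ∈ Fix L from top ▸ Submodule.mem_top) l hl
  have := hL _ ⟨zpowers_le_of_mem ha, za⟩
  rw [bot, card_bot, card_le_one_iff_eq_bot, zpowers_eq_bot] at this
  exact a1 this

theorem na_sum {c : V ≃ₗ[ZMod p] V} {l : ℕ} (hl : c ^ l = 1) (hf : ∀ v, c v = v → v = 0) (v : V) :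
    ∑ j ∈ Finset.range l, (c ^ j) v = 0 := by
  refine hf _ ?_
  have := Finset.sum_range_succ' (fun j => (c ^ j) v) l
  rw [Finset.sum_range_succ, hl, pow_zero, add_left_inj] at this
  rw [map_sum, this]
  exact Finset.sum_congr rfl fun j _ => by rw [pow_succ', LinearEquiv.mul_apply]

theorem na_conj_pow {G : Type*} [Group G] {x a : G} {k : ℕ} (h : x * a * x⁻¹ = a ^ k) (n : ℕ) :
    x ^ n * a * (x ^ n)⁻¹ = a ^ k ^ n := by
  induction n with
  | zero => simp
  | succ n ih =>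
    rw [pow_succ' x, show x * x ^ n * a * (x * x ^ n)⁻¹ = x * (x ^ n * a * (x ^ n)⁻¹) * x⁻¹ by group, ih,
      ← conj_pow, h, ← pow_mul, pow_succ']

theorem na (hp : 7 ≤ p) (h : Sp b Γ) (hm : Sm (Nat.card Γ)) (hζ : IsPrimitiveRoot ζ (p - 1))
    (hE : EP Γ ζ) (hprim : ∀ U : Submodule (ZMod p) V, U ≠ ⊥ → Nd b U → Blk b Γ U → U = ⊤)
    {A : Subgroup (V ≃ₗ[ZMod p] V)} (hA : A ≤ Γ) (hn : ∀ g ∈ Γ, ∀ a ∈ A, g * a * g⁻¹ ∈ A)
    (hc : ∀ a ∈ A, ∀ a' ∈ A, a * a' = a' * a) : ∀ a ∈ A, a = 1 ∨ a = ng := by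
  have fr : ∀ a ∈ A, a ≠ 1 → ∀ v, a v = v → v = 0 := fun a ha a1 v hv => na_free hp h hm hprim hA hn hc ha a1 hv
  obtain ⟨-, z8, z4, -⟩ := prim_pow hp hζ
  have two : ∀ a ∈ A, a * a = 1 → a = 1 ∨ a = ng := fun a ha a2 =>
    or_iff_not_imp_left.2 fun a1 => eq_ng a2 (fr a ha a1)
  have odd : ∀ l, l = 3 ∨ l = 5 → ∀ a ∈ A, orderOf a ≠ l := fun l hl a ha ol => by
    have lp : l.Prime := by rcases hl with rfl | rfl <;> norm_num
    have al : a ^ l = 1 := ol ▸ pow_orderOf_eq_one a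
    have a1 : a ≠ 1 := fun e => lp.ne_one (by rw [← ol, e, orderOf_one])
    have cl : (l : ZMod p) ≠ 0 := hm.cast_ne hp (ol ▸ orderOf_dvd_natCard _ (hA ha))
    have key : ∀ x ∈ Γ, x ^ 4 * a = a * x ^ 4 := fun x hx => by
      have mem : x * a * x⁻¹ ∈ zpowers a := by
        by_contra nm
        refine a1 (LinearEquiv.ext fun v => ?_)
        suffices k : ∀ v : V, v = 0 by rw [k v, map_zero, map_zero]
        intro v
        have ha' := hn x hx a ha
        have al' : (x * a * x⁻¹) ^ l = 1 := by rw [conj_pow, al]; group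
        generalize x * a * x⁻¹ = a' at nm ha' al'
        have cm : ∀ i, Commute a' (a ^ i) := fun i => hc _ ha' _ (pow_mem ha i)
        have s1 : ∑ i ∈ Finset.range l, ∑ j ∈ Finset.range l, ((a' * a ^ i) ^ j) v = 0 :=
          Finset.sum_eq_zero fun i _ => na_sum (by rw [(cm i).mul_pow, al', ← pow_mul, mul_comm i, pow_mul, al]; simp)
            (fr _ (mul_mem ha' (pow_mem ha i)) fun e => nm (by
              rw [mul_eq_one_iff_eq_inv.1 e]; exact inv_mem (pow_mem (mem_zpowers a) i))) v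
        rw [Finset.sum_comm, Finset.sum_eq_single_of_mem 0 (Finset.mem_range.2 lp.pos) fun j hj j0 => ?_] at s1
        · simp only [pow_zero, LinearEquiv.coe_one, id_eq, Finset.sum_const, Finset.card_range] at s1
          rw [← Nat.cast_smul_eq_nsmul (ZMod p)] at s1
          exact (smul_eq_zero.1 s1).resolve_left cl
        · have := congrArg (a' ^ j) (na_sum (c := a ^ j) (l := l) (by rw [← pow_mul, mul_comm, pow_mul, al, one_pow])
            (fr _ (pow_mem ha j) (pow_ne_one_of_lt_orderOf j0 (ol ▸ Finset.mem_range.1 hj))) v)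
          rw [map_sum, map_zero] at this
          rw [← this]
          exact Finset.sum_congr rfl fun i _ => by
            rw [(cm i).mul_pow, ← pow_mul, mul_comm i, pow_mul, LinearEquiv.mul_apply]
      obtain ⟨k, hk⟩ := mem_powers_iff_mem_zpowers.2 mem
      have hk' : x * a * x⁻¹ = a ^ (k % l) := by rw [← ol, pow_mod_orderOf]; exact hk.symm
      have k0 : k % l ≠ 0 := fun e => a1 (by rwa [e, pow_zero, conj_eq_one_iff] at hk')
      have kl := Nat.mod_lt k lp.pos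
      have := na_conj_pow hk' 4
      generalize k % l = i at k0 kl this
      rw [← pow_mod_orderOf a (i ^ 4), ol, show i ^ 4 % l = 1 by
        rcases hl with rfl | rfl <;> interval_cases i <;> simp_all, pow_one] at this
      exact mul_inv_eq_iff_eq_mul.1 this
    have a2 := h.QL (hA ha) fun v => by
      obtain ⟨x, hx, hv⟩ := hE v
      exact h.q_zero (pow_mem hx 4) (key x hx) (pow_eig hv 4) (by rwa [← pow_mul])
    have := Nat.le_of_dvd two_pos (orderOf_dvd_of_pow_eq_one (by rwa [sq] : a ^ 2 = 1))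
    omega
  have four : ∀ r ∈ A, orderOf r ≠ 4 := fun r hr ol => by
    have r2 : r * r ≠ 1 := fun e => by
      have := Nat.le_of_dvd two_pos (orderOf_dvd_of_pow_eq_one (by rwa [sq] : r ^ 2 = 1))
      omega
    have r4 : r * r * (r * r) = 1 := by
      rw [← pow_orderOf_eq_one r, ol]; simp [pow_succ, mul_assoc]
    have rr := (two _ (mul_mem hr hr) r4).resolve_left r2
    refine r2 (h.QL (hA hr) fun v => ?_)
    obtain ⟨x, hx, hv⟩ := hE v
    refine h.q_zero (pow_mem hx 2) ?_ (pow_eig hv 2) (by rwa [← pow_mul])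
    have hr' := hn x hx r hr
    have c : Commute (x * r * x⁻¹) r⁻¹ := hc _ hr' _ (inv_mem hr)
    rcases two _ (mul_mem hr' (inv_mem hr)) (by
      rw [← sq, c.mul_pow, sq, sq, conj_mul, ← mul_inv_rev, rr, ng_comm, mul_inv_cancel_right, mul_inv_cancel])
      with k | k
    · exact (show Commute x r from mul_inv_eq_iff_eq_mul.1 (mul_inv_eq_one.1 k)).pow_left 2
    · have k' : x * r = ng * r * x := mul_inv_eq_iff_eq_mul.1 (mul_inv_eq_iff_eq_mul.1 k)
      rw [sq, mul_assoc, k', ← mul_assoc, ← mul_assoc, ng_comm, mul_assoc ng, k', ← mul_assoc, ← mul_assoc, ng_mul_ng,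
        one_mul, mul_assoc]
  intro a ha
  have nd : ∀ l, l ∣ orderOf a → ∃ c ∈ A, orderOf c = l := fun l hl =>
    ⟨_, pow_mem ha _, orderOf_pow_orderOf_div (orderOf_pos a).ne' hl⟩
  have e := Nat.eq_prime_pow_of_unique_prime_dvd (p := 2) (orderOf_pos a).ne' fun {d} hd k => by
    have h5 := hm d hd (k.trans (orderOf_dvd_natCard _ (hA ha)))
    obtain ⟨c, hc, e⟩ := nd d k
    have h3 := fun k => odd d k c hc e
    have := hd.two_le
    interval_cases d
    · rfl
    · exact absurd (Or.inl rfl) h3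
    · exact absurd hd (by norm_num)
    · exact absurd (Or.inr rfl) h3
  generalize (orderOf a).primeFactorsList.length = k at e
  refine two a ha ?_
  rw [← sq, ← orderOf_dvd_iff_pow_eq_one, e]
  by_contra k2
  obtain ⟨c, hc, e4⟩ := nd 4 (e ▸ pow_dvd_pow 2 (show 2 ≤ k by
    by_contra k1
    exact k2 (by simpa using pow_dvd_pow 2 (show k ≤ 1 by omega))))
  exact four c hc e4

end Cfsg.Agent.AH
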