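import Cfsg.Agent.AH.BasL

set_option autoImplicit false

namespace Cfsg.Agent.AH

open Subgroup

universe u

theorem pair_pow_mem {G : Type*} [Group G] [Finite G] (h11 : Nat.Coprime 11 (Nat.card G))
    {H : Subgroup G} {y : G} (hy : y ^ 11 ∈ H) : y ∈ H := by
  have hc : Nat.Coprime 11 (orderOf y) := h11.coprime_dvd_right (orderOf_dvd_natCard y)
  obtain ⟨m, hm⟩ := exists_pow_eq_self_of_coprime (x := y) hc
  rw [← hm]
  exact H.pow_mem hy m

theorem ind {G : Type*} [Group G] [Finite G] (hR : RatG G) (h11 : Nat.Coprime 11 (Nat.card G))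
    (H : Subgroup G) (e : G → ℤ) (h0 : ∀ x, x ∉ H → e x = 0)
    (h1 : ∀ k ∈ H, ∀ m, e (k * m * k⁻¹) = e m) (h2 : ∀ m ∈ H, e (m ^ 11) = - e m) (h3 : ∃ m, e m ≠ 0)
    (h4 : ∀ g, g ∉ H → ∃ τ : G, (∀ m, e (g⁻¹ * (m * τ) * g) = e (g⁻¹ * m * g)) ∧
      ∃ n, 0 < n ∧ ∀ m, ∑ i ∈ Finset.range n, e (m * τ ^ i) = 0) : False := by
  classical
  have := Fintype.ofFinite G
  have h2' : ∀ y, e (y ^ 11) = - e y := by
    intro y
    by_cases hy : y ∈ H
    · exact h2 y hy
    · rw [h0 y hy, h0 _ fun h => hy (pair_pow_mem h11 h), neg_zero]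
  have hf : ∀ x, ∑ g, e (g⁻¹ * x * g) = 0 := by
    intro x
    obtain ⟨k, hk⟩ := isConj_iff.1 (hR x 11 (h11.coprime_dvd_right (orderOf_dvd_natCard x)))
    have a1 : ∑ g, e (g⁻¹ * x ^ 11 * g) = ∑ g, e (g⁻¹ * x * g) := by
      rw [← hk]
      refine Fintype.sum_equiv (Equiv.mulLeft k⁻¹) _ _ fun g => ?_
      congr 1
      simp only [Equiv.coe_mulLeft]
      group
    have a2 : ∑ g, e (g⁻¹ * x ^ 11 * g) = - ∑ g, e (g⁻¹ * x * g) := by
      rw [← Finset.sum_neg_distrib]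
      refine Finset.sum_congr rfl fun g _ => ?_
      rw [← h2']
      congr 1
      have := (conj_pow (a := g⁻¹) (b := x) (i := 11))
      rw [inv_inv] at this
      exact this.symm
    omega
  have hS : ∑ g, ∑ x, e x * e (g⁻¹ * x * g) = 0 := by
    rw [Finset.sum_comm]
    refine Finset.sum_eq_zero fun x _ => ?_
    rw [← Finset.mul_sum, hf, mul_zero]
  have hin : ∀ g ∈ H, 0 < ∑ x, e x * e (g⁻¹ * x * g) := by
    intro g hg
    have : ∀ x, e (g⁻¹ * x * g) = e x := fun x => by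
      have := h1 g⁻¹ (H.inv_mem hg) x
      rwa [inv_inv] at this
    simp only [this]
    obtain ⟨m, hm⟩ := h3
    exact Finset.sum_pos' (fun x _ => mul_self_nonneg _) ⟨m, Finset.mem_univ _, mul_self_pos.2 hm⟩
  have hout : ∀ g, g ∉ H → ∑ x, e x * e (g⁻¹ * x * g) = 0 := by
    intro g hg
    obtain ⟨τ, hτ, n, hn, hs⟩ := h4 g hg
    have hτ' : ∀ (i : ℕ) m, e (g⁻¹ * (m * τ ^ i) * g) = e (g⁻¹ * m * g) := by
      intro i
      induction i with
      | zero => intro m; rw [pow_zero, mul_one]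
      | succ i ih => intro m; rw [pow_succ, ← mul_assoc m, hτ, ih]
    have hi : ∀ i : ℕ, ∑ x, e x * e (g⁻¹ * x * g) = ∑ x, e (x * τ ^ i) * e (g⁻¹ * x * g) := by
      intro i
      refine (Fintype.sum_equiv (Equiv.mulRight (τ ^ i)) _ _ fun x => ?_).symm
      simp only [Equiv.coe_mulRight]
      rw [hτ']
    have : ∑ _i ∈ Finset.range n, ∑ x, e x * e (g⁻¹ * x * g) = 0 := by
      rw [Finset.sum_congr rfl fun i _ => hi i, Finset.sum_comm]
      refine Finset.sum_eq_zero fun x _ => ?_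
      rw [← Finset.sum_mul, hs, zero_mul]
    rw [Finset.sum_const, Finset.card_range, nsmul_eq_mul] at this
    rcases mul_eq_zero.1 this with h | h
    · exact absurd (by exact_mod_cast h) hn.ne'
    · exact h
  have : 0 < ∑ g, ∑ x, e x * e (g⁻¹ * x * g) := by
    refine Finset.sum_pos' (fun g _ => ?_) ⟨1, Finset.mem_univ _, hin 1 H.one_mem⟩
    by_cases hg : g ∈ H
    · exact (hin g hg).le
    · exact (hout g hg).ge
  omega

section
variable {F V : Type*} [Field F] [AddCommGroup V] [Module F V] {b : V →ₗ[F] V →ₗ[F] F}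
  {Γ : Subgroup (V ≃ₗ[F] V)}

theorem pair_skew (h : Sp b Γ) (v w : V) : b v w = - b w v := by
  have := h.alt (v + w)
  simp only [map_add, LinearMap.add_apply, h.alt, zero_add, add_zero] at this
  linear_combination this

theorem pair_inv_apply (g : V ≃ₗ[F] V) (v : V) : g (g⁻¹ v) = v := g.apply_symm_apply v

theorem pair_apply_inv (g : V ≃ₗ[F] V) (v : V) : g⁻¹ (g v) = v := g.symm_apply_apply v

theorem pair [Finite V] (h : Sp b Γ) {U : Submodule F V} (hN : Nd b U) (hB : Blk b Γ U) {θ : F}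
    (hθ : θ ≠ 0) (hE : EP Γ θ) {g : V ≃ₗ[F] V} (hg : g ∈ Γ) (hU : g ∉ Stab Γ U) {u u' : V}
    (hu : u ∈ U) (hu' : u' ∈ U) (h0 : u ≠ 0) (h0' : u' ≠ 0) :
    ∃ x ∈ Stab Γ U, g⁻¹ * x * g ∈ Stab Γ U ∧ x u = θ ^ 2 • u ∧ (g⁻¹ * x * g) u' = θ ^ 2 • u' := by
  have hB' : ∀ x ∈ Γ, x ∈ Stab Γ U ∨ ∀ v ∈ U, ∀ w ∈ U, b (x v) w = 0 := fun x hx =>
    (hB x hx).imp_left fun hh => mem_Stab.2 ⟨hx, hh⟩
  have hperp : ∀ v ∈ U, ∀ w ∈ U, b (g v) w = 0 := (hB' g hg).resolve_left hU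
  have hdis : ∀ v ∈ U, g v ∈ U → g v = 0 := fun v hv hgv => hN _ hgv (hperp v hv)
  obtain ⟨x, hx, hxe⟩ := hE (u + g u')
  rw [map_add, smul_add] at hxe
  obtain ⟨w, hw, hw0⟩ : ∃ w ∈ U, b u w ≠ 0 := by
    by_contra hc
    push Not at hc
    exact h0 (hN u hu hc)
  obtain ⟨w', hw', hw0'⟩ : ∃ w ∈ U, b u' w ≠ 0 := by
    by_contra hc
    push Not at hc
    exact h0' (hN u' hu' hc)
  have hA : x ∈ Stab Γ U ∨ x * g ∈ Stab Γ U := by
    by_contra hc
    rw [not_or] at hc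
    have a1 := (hB' x hx).resolve_left hc.1 u hu w hw
    have a2 : b (x (g u')) w = 0 := (hB' (x * g) (Γ.mul_mem hx hg)).resolve_left hc.2 u' hu' w hw
    have a3 := congrArg (fun v => b v w) hxe
    simp only [map_add, map_smul, LinearMap.add_apply, LinearMap.smul_apply, a1, a2,
      hperp u' hu' w hw, smul_eq_mul, mul_zero, add_zero] at a3
    exact mul_ne_zero hθ hw0 a3.symm
  have hC : g⁻¹ * x ∈ Stab Γ U ∨ g⁻¹ * x * g ∈ Stab Γ U := by
    by_contra hc
    rw [not_or] at hc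
    have a1 : b (g⁻¹ (x u)) w' = 0 :=
      (hB' (g⁻¹ * x) (Γ.mul_mem (Γ.inv_mem hg) hx)).resolve_left hc.1 u hu w' hw'
    have a2 : b (g⁻¹ (x (g u'))) w' = 0 :=
      (hB' (g⁻¹ * x * g) (Γ.mul_mem (Γ.mul_mem (Γ.inv_mem hg) hx) hg)).resolve_left hc.2 u' hu' w' hw'
    rw [← h.inv g hg, pair_inv_apply] at a1 a2
    have a4 : b u (g w') = 0 := by rw [pair_skew h, hperp w' hw' u hu, neg_zero]
    have a3 := congrArg (fun v => b v (g w')) hxe
    simp only [map_add, map_smul, LinearMap.add_apply, LinearMap.smul_apply, a1, a2, a4,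
      h.inv g hg, smul_eq_mul, mul_zero, add_zero, zero_add] at a3
    exact mul_ne_zero hθ hw0' a3.symm
  rcases hA with hA | hA <;> rcases hC with hC | hC
  · refine absurd ?_ hU
    have := (Stab Γ U).mul_mem hA ((Stab Γ U).inv_mem hC)
    rwa [show x * (g⁻¹ * x)⁻¹ = g by group] at this
  · have hv : θ • u' - (g⁻¹ * x * g) u' ∈ U := U.sub_mem (U.smul_mem θ hu') ((hC.2 u').2 hu')
    have e1 : g (θ • u' - (g⁻¹ * x * g) u') = x u - θ • u := by
      rw [map_sub, map_smul]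
      change θ • g u' - g (g⁻¹ (x (g u'))) = _
      rw [pair_inv_apply]
      linear_combination (norm := module) -hxe
    have e2 := hdis _ hv (e1 ▸ U.sub_mem ((hA.2 u).2 hu) (U.smul_mem θ hu))
    have e3 : x u = θ • u := sub_eq_zero.1 (e1 ▸ e2)
    have e4 : (g⁻¹ * x * g) u' = θ • u' := (sub_eq_zero.1 (g.map_eq_zero_iff.1 e2)).symm
    have e5 : g⁻¹ * (x * x) * g = (g⁻¹ * x * g) * (g⁻¹ * x * g) := by group
    refine ⟨x * x, (Stab Γ U).mul_mem hA hA, e5 ▸ (Stab Γ U).mul_mem hC hC, ?_, ?_⟩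
    · change x (x u) = _
      rw [e3, map_smul, e3, smul_smul, pow_two]
    · rw [e5]
      change (g⁻¹ * x * g) ((g⁻¹ * x * g) u') = _
      rw [e4, map_smul, e4, smul_smul, pow_two]
  · have hv : θ • u' - (g⁻¹ * x) u ∈ U := U.sub_mem (U.smul_mem θ hu') ((hC.2 u).2 hu)
    have e1 : g (θ • u' - (g⁻¹ * x) u) = x (g u') - θ • u := by
      rw [map_sub, map_smul]
      change θ • g u' - g (g⁻¹ (x u)) = _
      rw [pair_inv_apply]
      linear_combination (norm := module) -hxe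
    have e2 := hdis _ hv (e1 ▸ U.sub_mem ((hA.2 u').2 hu') (U.smul_mem θ hu))
    have e3 : x (g u') = θ • u := sub_eq_zero.1 (e1 ▸ e2)
    have e4 : g⁻¹ (x u) = θ • u' := (sub_eq_zero.1 (g.map_eq_zero_iff.1 e2)).symm
    have e4' : x u = θ • g u' := by rw [← map_smul, ← e4, pair_inv_apply]
    have e5 : x * x = (x * g) * (g⁻¹ * x) := by group
    have e6 : g⁻¹ * (x * x) * g = (g⁻¹ * x) * (x * g) := by group
    refine ⟨x * x, by rw [e5]; exact (Stab Γ U).mul_mem hA hC,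
      by rw [e6]; exact (Stab Γ U).mul_mem hC hA, ?_, ?_⟩
    · change x (x u) = _
      rw [e4', map_smul, e3, smul_smul, pow_two]
    · change g⁻¹ (x (x (g u'))) = _
      rw [e3, map_smul, map_smul, e4, smul_smul, pow_two]
  · refine absurd ?_ hU
    have := (Stab Γ U).mul_mem hA ((Stab Γ U).inv_mem hC)
    rwa [show x * g * (g⁻¹ * x * g)⁻¹ = g by group] at this

theorem ep_stab [Finite V] {U : Submodule F V} (hN : Nd b U) (hB : Blk b Γ U) {θ : F}
    (hθ : θ ≠ 0) (hE : EP Γ θ) {u : V} (hu : u ∈ U) : ∃ x ∈ Stab Γ U, x u = θ • u := by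
  by_cases h0 : u = 0
  · exact ⟨1, (Stab Γ U).one_mem, by rw [h0, map_zero, smul_zero]⟩
  obtain ⟨x, hx, hxe⟩ := hE u
  refine ⟨x, mem_Stab.2 ⟨hx, (hB x hx).resolve_right fun hc => h0 (hN u hu fun w hw => ?_)⟩, hxe⟩
  have := hc u hu w hw
  rw [hxe, map_smul, LinearMap.smul_apply, smul_eq_mul] at this
  exact (mul_eq_zero.1 this).resolve_left hθ

end

theorem to_sl {V : Type*} [AddCommGroup V] [Module (ZMod 7) V] {b : V →ₗ[ZMod 7] V →ₗ[ZMod 7] ZMod 7}
    {Γ : Subgroup (V ≃ₗ[ZMod 7] V)} (h : Sp b Γ) {U : Submodule (ZMod 7) V}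
    (h2 : Module.finrank (ZMod 7) U = 2) (hN : Nd b U) :
    ∃ (c : (Fin 2 → ZMod 7) →ₗ[ZMod 7] V) (ρ : Stab Γ U →* M7), Function.Injective c ∧
      (∀ v, v ∈ U ↔ ∃ u, c u = v) ∧ ∀ (x : Stab Γ U) u, c ((ρ x).1.mulVec u) = x.1 (c u) := by
  classical
  have : Module.Finite (ZMod 7) U := Module.finite_of_finrank_pos (by omega)
  let B : Module.Basis (Fin 2) (ZMod 7) U := Module.finBasisOfFinrankEq (ZMod 7) U h2
  let c : (Fin 2 → ZMod 7) →ₗ[ZMod 7] V := U.subtype ∘ₗ B.equivFun.symm.toLinearMap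
  have hc : Function.Injective c := U.injective_subtype.comp B.equivFun.symm.injective
  have hcU : ∀ v, v ∈ U ↔ ∃ u, c u = v := by
    intro v
    refine ⟨fun hv => ⟨B.equivFun ⟨v, hv⟩, ?_⟩, ?_⟩
    · simp only [c, LinearMap.comp_apply, LinearEquiv.coe_coe, LinearEquiv.symm_apply_apply,
        Submodule.subtype_apply]
    · rintro ⟨u, rfl⟩
      exact (B.equivFun.symm u).2
  let R : Stab Γ U → (U →ₗ[ZMod 7] U) := fun x =>
    (x.1 : V →ₗ[ZMod 7] V).restrict (p := U) (q := U) fun v hv => (x.2.2 v).2 hv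
  let A : Stab Γ U → Matrix (Fin 2) (Fin 2) (ZMod 7) := fun x => LinearMap.toMatrix B B (R x)
  have hA : ∀ (x : Stab Γ U) u, c ((A x).mulVec u) = x.1 (c u) := by
    intro x u
    have := LinearMap.toMatrix_mulVec_repr B B (R x) (B.equivFun.symm u)
    have e1 : (B.repr (B.equivFun.symm u) : Fin 2 → ZMod 7) = u := B.equivFun.apply_symm_apply u
    rw [e1] at this
    change ((B.equivFun.symm ((LinearMap.toMatrix B B (R x)).mulVec u) : U) : V) = _
    rw [this]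
    have e2 : B.equivFun.symm (B.repr (R x (B.equivFun.symm u))) = R x (B.equivFun.symm u) :=
      B.equivFun.symm_apply_apply _
    rw [e2]
    rfl
  have hform : ∀ u u' : Fin 2 → ZMod 7,
      b (c u) (c u') = (u 0 * u' 1 - u 1 * u' 0) * b (c ![1, 0]) (c ![0, 1]) := by
    intro u u'
    have e : ∀ u : Fin 2 → ZMod 7, u = u 0 • ![1, 0] + u 1 • ![0, 1] := by
      intro u
      ext i
      fin_cases i <;> simp
    have a1 : c u = u 0 • c ![1, 0] + u 1 • c ![0, 1] := by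
      rw [← map_smul, ← map_smul, ← map_add, ← e]
    have a2 : c u' = u' 0 • c ![1, 0] + u' 1 • c ![0, 1] := by
      rw [← map_smul, ← map_smul, ← map_add, ← e]
    rw [a1, a2]
    simp only [map_add, map_smul, LinearMap.add_apply, LinearMap.smul_apply, smul_eq_mul, h.alt]
    rw [pair_skew h (c ![0, 1]) (c ![1, 0])]
    ring
  have hne : b (c ![1, 0]) (c ![0, 1]) ≠ 0 := by
    intro h0
    have : c ![1, 0] = 0 := hN _ ((hcU _).2 ⟨_, rfl⟩) fun w hw => by
      obtain ⟨u, rfl⟩ := (hcU w).1 hw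
      rw [hform, h0, mul_zero]
    have := congrFun (hc (this.trans (map_zero c).symm)) 0
    revert this
    decide
  have hdet : ∀ x, (A x).det = 1 := by
    intro x
    have := h.inv x.1 x.2.1 (c ![1, 0]) (c ![0, 1])
    rw [← hA, ← hA, hform] at this
    have e := mul_right_cancel₀ hne (this.trans (one_mul _).symm)
    rw [Matrix.det_fin_two, ← e]
    simp [Matrix.mulVec, dotProduct, Fin.sum_univ_two, mul_comm]
  have hext : ∀ M M' : Matrix (Fin 2) (Fin 2) (ZMod 7),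
      (∀ u, c (M.mulVec u) = c (M'.mulVec u)) → M = M' := fun M M' hh =>
    Matrix.toLin'.injective (LinearMap.ext fun u => hc (hh u))
  refine ⟨c, MonoidHom.mk' (fun x => ⟨A x, hdet x⟩) fun x y => Subtype.ext (hext _ _ fun u => ?_),
    hc, hcU, hA⟩
  change c ((A (x * y)).mulVec u) = c ((A x * A y).mulVec u)
  rw [← Matrix.mulVec_mulVec, hA, hA, hA]
  rfl

end Cfsg.Agent.AH
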