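import Cfsg.Agent.AH.BasL
import Cfsg.Agent.H9.QuatHom

set_option autoImplicit false

namespace Cfsg.Agent.AH

open Subgroup QuaternionGroup

universe u

/-- the endomorphism of the quaternion group with given images of the generators -/
def q8Act (t : QuaternionGroup 2 × QuaternionGroup 2) : QuaternionGroup 2 → QuaternionGroup 2
  | .a k => t.1 ^ k.val
  | .xa k => t.2 * t.1 ^ k.val

/-- the automorphisms of order three -/
def q8T : Finset (QuaternionGroup 2 × QuaternionGroup 2) := Finset.univ.filter fun t =>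
  t.1 * t.1 = a 2 ∧ t.2 * t.2 = a 2 ∧ t.1 * t.2 = a 2 * (t.2 * t.1) ∧ t.1 ≠ a 1 ∧
    q8Act t (q8Act t t.1) = a 1 ∧ q8Act t (q8Act t t.2) = xa 0

theorem q8T_card : q8T.card = 8 := by decide +kernel

theorem q8_dich : ∀ t : QuaternionGroup 2 × QuaternionGroup 2, t.1 * t.1 = a 2 → t.2 * t.2 = a 2 →
    t.1 * t.2 = a 2 * (t.2 * t.1) →
      t ∈ q8T ∨ (q8Act t (q8Act t (q8Act t t.1)) = a 1 ∧ q8Act t (q8Act t (q8Act t t.2)) = xa 0) := by
  decide +kernel

theorem q8_grp {A : Type*} [Group A] {z i j : A} {Γ E : Subgroup A} (zz : z * z = 1) (z1 : z ≠ 1)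
    (zc : ∀ x, x * z = z * x) (hX : XE z Γ E) (hi : i ∈ E) (hj : j ∈ E) (hii : i * i = z) (hjj : j * j = z)
    (hij : i * j = z * (j * i)) (hall : ∀ e ∈ E, Q8m z i j e) :
    ∃ φ : QuaternionGroup 2 → A, (∀ x ∈ Γ, x ^ 8 = 1 ∨
      ((x ^ 3 = 1 ∨ x ^ 3 = z) ∧ ∃ t ∈ q8T, x * i * x⁻¹ = φ t.1 ∧ x * j * x⁻¹ = φ t.2)) ∧
      ∀ x ∈ Γ, ∀ y ∈ Γ, x ^ 3 = z → y ^ 3 = z → x * i * x⁻¹ = y * i * y⁻¹ → x * j * x⁻¹ = y * j * y⁻¹ → x = y := by
  have i2 : i ^ 2 = z := by rw [sq, hii]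
  let φ := H9.quaternionHom (n := 2) i j (by rw [pow_mul, i2, sq, zz]) (hjj.trans i2.symm) (by
    rw [mul_inv_eq_iff_eq_mul, eq_inv_mul_iff_mul_eq, ← mul_assoc, hij, mul_assoc, mul_assoc, hii, zc j, ← mul_assoc,
      zz, one_mul])
  have e1 : φ (a 1) = i := pow_one i
  have e2 : φ (xa 0) = j := (congrArg (j * ·) (pow_zero i)).trans (mul_one j)
  have e3 : φ (a 2) = z := i2
  have inj : Function.Injective φ := (injective_iff_map_eq_one φ).2 fun q hq => by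
    rcases (by decide : ∀ q : QuaternionGroup 2, q = 1 ∨ q = a 2 ∨ q * q = a 2) q with k | k | k
    · exact k
    · exact absurd (by rw [← e3, ← k, hq]) z1
    · exact absurd (by rw [← e3, ← k, map_mul, hq, mul_one]) z1
  have sur : ∀ e ∈ E, ∃ q, e = φ q := fun e he => by
    have m1 : i ∈ φ.range := ⟨_, e1⟩
    have m2 : j ∈ φ.range := ⟨_, e2⟩
    have m3 : z ∈ φ.range := ⟨_, e3⟩
    suffices e ∈ φ.range from this.imp fun _ => Eq.symm
    rcases hall e he with k | k | k | k | k | k | k | k <;> rw [k]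
    exacts [one_mem _, m3, m1, mul_mem m3 m1, m2, mul_mem m3 m2, mul_mem m1 m2, mul_mem m3 (mul_mem m1 m2)]
  have cen : ∀ x ∈ Γ, x * i = i * x → x * j = j * x → x = 1 ∨ x = z := fun x hx h1 h2 => hX.cen x hx fun e he => by
    have c1 : Commute x i := h1
    have c2 : Commute x j := h2
    have c3 : Commute x z := zc x
    rcases hall e he with k | k | k | k | k | k | k | k <;> rw [k]
    exacts [Commute.one_right x, c3, c1, c3.mul_right c1, c2, c3.mul_right c2, c1.mul_right c2,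
      c3.mul_right (c1.mul_right c2)]
  refine ⟨φ, fun x hx => ?_, fun x hx y hy h1 h2 h3 h4 => ?_⟩
  · obtain ⟨P, hP⟩ := sur _ (hX.nm x hx i hi)
    obtain ⟨R, hR⟩ := sur _ (hX.nm x hx j hj)
    have act : ∀ q, φ (q8Act (P, R) q) = x * φ q * x⁻¹ := by
      rintro (k | k)
      · exact (map_pow φ P k.val).trans (by rw [← hP, conj_pow]; rfl)
      · refine (map_mul φ R _).trans ?_
        rw [map_pow, ← hP, ← hR, conj_pow, conj_mul]; rfl
    have c3 : ∀ u, x * (x * (x * u * x⁻¹) * x⁻¹) * x⁻¹ = u → x ^ 3 * u = u * x ^ 3 := fun u h => by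
      conv_rhs => rw [← h]
      simp [pow_succ, mul_assoc]
    have c4 : ∀ u, x * (x * (x * (x * u * x⁻¹) * x⁻¹) * x⁻¹) * x⁻¹ = u → x ^ 4 * u = u * x ^ 4 := fun u h => by
      conv_rhs => rw [← h]
      simp [pow_succ, mul_assoc]
    have xz : x * z * x⁻¹ = z := by rw [zc, mul_inv_cancel_right]
    rcases q8_dich (P, R) (inj (by rw [map_mul, ← hP, conj_mul, hii, xz, e3]))
      (inj (by rw [map_mul, ← hR, conj_mul, hjj, xz, e3]))
      (inj (by rw [map_mul, map_mul, map_mul, ← hP, ← hR, conj_mul, conj_mul, e3, ← xz, conj_mul, hij])) with k | k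
    · refine Or.inr ⟨?_, _, k, hP, hR⟩
      obtain ⟨-, -, -, -, k1, k2⟩ := (Finset.mem_filter.1 k).2
      have k3 := congrArg φ k1
      have k4 := congrArg φ k2
      rw [act, act, ← hP, e1] at k3
      rw [act, act, ← hR, e2] at k4
      exact cen _ (pow_mem hx 3) (c3 _ k3) (c3 _ k4)
    · have k3 := congrArg φ k.1
      have k4 := congrArg φ k.2
      rw [act, act, act, ← hP, e1] at k3
      rw [act, act, act, ← hR, e2] at k4
      rcases cen _ (pow_mem hx 4) (c4 _ k3) (c4 _ k4) with k5 | k5 <;>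
        exact Or.inl (by rw [show 8 = 4 + 4 from rfl, pow_add, k5]; simp only [zz, mul_one])
  · have c : ∀ u, x * u * x⁻¹ = y * u * y⁻¹ → y⁻¹ * x * u = u * (y⁻¹ * x) := fun u h => by
      rw [show y⁻¹ * x * u = y⁻¹ * (x * u * x⁻¹) * x by group, h]; group
    rcases cen _ (mul_mem (inv_mem hy) hx) (c i h3) (c j h4) with k | k
    · exact (inv_mul_eq_one.1 k).symm
    · rw [inv_mul_eq_iff_eq_mul.1 k, (show Commute y z from zc y).mul_pow, h2, pow_three, zz, mul_one, zz] at h1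
      exact absurd h1.symm z1

theorem q8_arith {n : ℕ} (h0 : 0 < n) (h : 7 ^ n - 1 ≤ 8 * (7 ^ (n / 2) - 1)) : n = 2 := by
  have h1 : 1 ≤ 7 ^ (n / 2) := Nat.one_le_pow _ _ (by decide)
  have h2 : 7 ^ n + 7 ≤ 8 * 7 ^ (n / 2) := by have : 1 ≤ 7 ^ n := Nat.one_le_pow _ _ (by decide); omega
  rcases Nat.even_or_odd' n with ⟨m, rfl | rfl⟩
  · rw [show 2 * m / 2 = m by omega, mul_comm 2 m, pow_mul] at h2
    by_contra h3
    have : 7 ^ 2 ≤ 7 ^ m := Nat.pow_le_pow_right (by decide) (by omega)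
    nlinarith
  · rw [show (2 * m + 1) / 2 = m by omega, pow_succ, mul_comm 2 m, pow_mul] at h2
    nlinarith [sq_nonneg ((7 : ℤ) ^ m - 1)]

variable {p : ℕ} [Fact p.Prime] {V : Type u} [AddCommGroup V] [Module (ZMod p) V] [Finite V]
  {b : V →ₗ[ZMod p] V →ₗ[ZMod p] ZMod p} {Γ : Subgroup (V ≃ₗ[ZMod p] V)} {ζ : ZMod p}

theorem q8_iso (h : Sp b Γ) {W : Submodule (ZMod p) V} (hW : ∀ v ∈ W, ∀ w ∈ W, b v w = 0) :
    Module.finrank (ZMod p) W ≤ Module.finrank (ZMod p) V / 2 := by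
  have h1 := LinearMap.BilinForm.finrank_add_finrank_orthogonal' (B := b) W
  have h2 : W ⊓ LinearMap.ker b = ⊥ := eq_bot_iff.2 fun v hv => h.nd v fun w => by rw [show b v = 0 from hv.2]; rfl
  have h3 := Submodule.finrank_mono (show W ≤ LinearMap.BilinForm.orthogonal b W from fun v hv w hw => hW w hw v hv)
  rw [h2, finrank_bot] at h1
  omega

theorem q8 [Nontrivial V] (hp : 7 ≤ p) (h : Sp b Γ) (hζ : IsPrimitiveRoot ζ (p - 1)) (hE : EP Γ ζ)
    {E : Subgroup (V ≃ₗ[ZMod p] V)} (hX : XE ng Γ E) {i j : V ≃ₗ[ZMod p] V} (hi : i ∈ E) (hj : j ∈ E)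
    (hii : i * i = ng) (hjj : j * j = ng) (hij : i * j = ng * (j * i)) (hall : ∀ e ∈ E, Q8m ng i j e) :
    p = 7 ∧ Module.finrank (ZMod p) V = 2 := by
  classical
  obtain ⟨-, z8, -, z2, -, -, z6, -⟩ := prim_pow hp hζ
  have h2 : (2 : ZMod p) ≠ 0 := fun e =>
    absurd (Nat.le_of_dvd two_pos ((ZMod.natCast_eq_zero_iff 2 p).1 e)) (by omega)
  obtain ⟨φ, h1, h3⟩ := q8_grp ng_mul_ng (ng_ne_one h2) ng_comm hX hi hj hii hjj hij hall
  have eig : ∀ {x : V ≃ₗ[ZMod p] V} {v : V} (n : ℕ), v ≠ 0 → x v = ζ • v → x ^ n = 1 → ζ ^ n = 1 :=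
    fun n v0 e k => smul_left_injective _ v0 (by
      show _ • _ = _ • _
      rw [← pow_eig e, k, one_smul]; rfl)
  have key : ∀ v ≠ 0, p = 7 ∧ ∃ x ∈ Γ, x v = ζ • v ∧ x ^ 3 = ng ∧ ∃ t ∈ q8T, x * i * x⁻¹ = φ t.1 ∧ x * j * x⁻¹ = φ t.2 :=
    fun v v0 => by
      obtain ⟨x, hx, e⟩ := hE v
      obtain ⟨k, ht⟩ := (h1 x hx).resolve_left fun k => z8 (eig 8 v0 e k)
      obtain rfl := z6 (eig 6 v0 e (by
        rcases k with k | k <;> rw [show 6 = 3 + 3 from rfl, pow_add, k]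
        exacts [mul_one _, ng_mul_ng]))
      exact ⟨rfl, x, hx, e, k.resolve_left fun k =>
        absurd ((hζ.pow_eq_one_iff_dvd 3).1 (eig 3 v0 e k)) (by decide), ht⟩
  obtain ⟨v0, hv0⟩ := exists_ne (0 : V)
  obtain rfl := (key v0 hv0).1
  have hW : ∀ t : QuaternionGroup 2 × QuaternionGroup 2, ∃ W : Submodule (ZMod 7) V, (∀ v ∈ W, ∀ w ∈ W, b v w = 0) ∧
      ∀ x ∈ Γ, x ^ 3 = ng → x * i * x⁻¹ = φ t.1 → x * j * x⁻¹ = φ t.2 → ∀ v, x v = ζ • v → v ∈ W := fun t => by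
    by_cases k : ∃ y ∈ Γ, y ^ 3 = ng ∧ y * i * y⁻¹ = φ t.1 ∧ y * j * y⁻¹ = φ t.2
    · obtain ⟨y, hy, k1, k2, k3⟩ := k
      refine ⟨LinearMap.eqLocus (y : V →ₗ[ZMod 7] V) (ζ • LinearMap.id), fun v hv w hw => ?_,
        fun x hx e1 e2 e3 v e => h3 x hx y hy e1 k1 (e2.trans k2.symm) (e3.trans k3.symm) ▸ e⟩
      have := h.inv y hy v w
      rw [show y v = ζ • v from hv, show y w = ζ • w from hw, map_smul, map_smul, LinearMap.smul_apply, smul_smul,
        smul_eq_mul, ← sq] at this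
      by_contra k
      exact z2 (mul_right_cancel₀ k (this.trans (one_mul _).symm))
    · exact ⟨⊥, by simp, fun x hx e1 e2 e3 => (k ⟨x, hx, e1, e2, e3⟩).elim⟩
  choose W hW1 hW2 using hW
  have := Fintype.ofFinite V
  refine ⟨rfl, q8_arith Module.finrank_pos ?_⟩
  have c1 : Finset.univ.erase (0 : V) ⊆ q8T.biUnion fun t => (Finset.univ.filter (· ∈ W t)).erase 0 := fun v hv => by
    obtain ⟨-, x, hx, e, e1, t, ht, e2, e3⟩ := key v (Finset.mem_erase.1 hv).1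
    exact Finset.mem_biUnion.2 ⟨t, ht, Finset.mem_erase.2 ⟨(Finset.mem_erase.1 hv).1,
      Finset.mem_filter.2 ⟨Finset.mem_univ _, hW2 t x hx e1 e2 e3 v e⟩⟩⟩
  have c2 := (Finset.card_le_card c1).trans (Finset.card_biUnion_le_card_mul _ _
    (7 ^ (Module.finrank (ZMod 7) V / 2) - 1) fun t _ => by
      rw [Finset.card_erase_of_mem (by simp), ← Fintype.card_subtype, ← Nat.card_eq_fintype_card]
      refine Nat.sub_le_sub_right ?_ 1
      rw [show Nat.card {x // x ∈ W t} = _ from Module.natCard_eq_pow_finrank (K := ZMod 7) (V := W t), Nat.card_zmod]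
      exact Nat.pow_le_pow_right (by decide) (q8_iso h (hW1 t)))
  rwa [Finset.card_erase_of_mem (Finset.mem_univ _), Finset.card_univ, ← Nat.card_eq_fintype_card,
    Module.natCard_eq_pow_finrank (K := ZMod 7), Nat.card_zmod, q8T_card] at c2

end Cfsg.Agent.AH
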