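import Cfsg.Agent.AH.XA2
import Cfsg.Agent.AH.Q8
import Cfsg.Agent.AH.NA
import Cfsg.Agent.AH.EX
import Cfsg.Agent.AH.Pair

set_option autoImplicit false

namespace Cfsg.Agent.AH

open Subgroup

universe u

variable {p : ℕ} [Fact p.Prime] {V : Type u} [AddCommGroup V] [Module (ZMod p) V] [Finite V]
  {b : V →ₗ[ZMod p] V →ₗ[ZMod p] ZMod p} {Γ : Subgroup (V ≃ₗ[ZMod p] V)} {ζ : ZMod p}

theorem xs [Nontrivial V] (hp : 7 ≤ p) (h : Sp b Γ) (hs : Group.IsSolvable Γ)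
    (hζ : IsPrimitiveRoot ζ (p - 1)) (hE : EP Γ ζ) {E : Subgroup (V ≃ₗ[ZMod p] V)} (hX : XE ng Γ E) :
    p = 7 ∧ Module.finrank (ZMod p) V = 2 := by
  obtain ⟨A, hA⟩ := exists_MX E
  obtain rfl := xa2 hp h hs hζ hE hX hA
  have h2 : (2 : ZMod p) ≠ 0 := fun e => by
    have := Nat.le_of_dvd two_pos ((ZMod.natCast_eq_zero_iff 2 p).1 (by exact_mod_cast e))
    omega
  obtain ⟨-, -, h4, -⟩ := prim_pow hp hζ
  rcases qq h2 h h4 hE hX.le hX.nm hX.comm (fun e he => by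
    rcases hX.sq e he with e1 | e1
    · by_cases e2 : e = 1
      · exact Or.inl e2
      · refine Or.inr (Or.inl (eq_ng e1 fun v hv => ?_))
        by_contra v0
        exact e2 (mem_bot.1 (hA.max v (fun x hx => by rw [mem_bot.1 hx]; rfl) v0 e he hv))
    · exact Or.inr (Or.inr e1)) with h1 | ⟨-, i, hi, j, hj, a1, a2, a3, a4⟩
  · obtain ⟨e, he, b1, b2⟩ := hX.ex
    exact ((h1 e he).elim b1 b2).elim
  · exact q8 hp h hζ hE hX hi hj a1 a2 a3 a4

theorem st_aux (hp : 7 ≤ p) (hζ : IsPrimitiveRoot ζ (p - 1)) (n : ℕ) : ∀ {V : Type u} [AddCommGroup V]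
    [Module (ZMod p) V] [Finite V] [Nontrivial V] {b : V →ₗ[ZMod p] V →ₗ[ZMod p] ZMod p}
    {Γ : Subgroup (V ≃ₗ[ZMod p] V)}, Module.finrank (ZMod p) V = n → Sp b Γ → Group.IsSolvable Γ →
    Sm (Nat.card Γ) → EP Γ ζ → p = 7 ∧ ∃ U : Submodule (ZMod p) V,
      Module.finrank (ZMod p) U = 2 ∧ Nd b U ∧ Blk b Γ U := by
  induction n using Nat.strong_induction_on with
  | _ n ih =>
  intro V _ _ _ _ b Γ hn h hs hm hE
  obtain ⟨z0, -, -, -, z1, z2, -⟩ := prim_pow hp hζ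
  by_cases hprim : ∀ U : Submodule (ZMod p) V, U ≠ ⊥ → Nd b U → Blk b Γ U → U = ⊤
  · obtain ⟨v, hv⟩ := exists_ne (0 : V)
    obtain ⟨g, hg, e⟩ := hE v
    have g1 : g ≠ 1 := by
      rintro rfl
      have : (ζ - 1) • v = 0 := by rw [sub_smul, ← e, one_smul]; exact sub_self v
      exact z1 (sub_eq_zero.1 ((smul_eq_zero.1 this).resolve_right hv))
    have g2 : g ≠ ng := by
      rintro rfl
      have : (ζ + 1) • v = 0 := by rw [add_smul, ← e, one_smul, ng_apply, neg_add_cancel]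
      exact z2 (eq_neg_of_add_eq_zero_left ((smul_eq_zero.1 this).resolve_right hv))
    obtain ⟨B, hB, B0, Bn, Bc⟩ := exists_ab hs fun e => g1 (by rwa [e, mem_bot] at hg)
    obtain ⟨⟨c, hc⟩, c1⟩ := ne_bot_iff_exists_ne_one.1 B0
    have hz : ng ∈ Γ :=
      ((na hp h hm hζ hE hprim hB Bn Bc c hc).resolve_left fun e => c1 (Subtype.ext e)) ▸ hB hc
    obtain ⟨E, hX⟩ := ex hs hz (fun g _ => ng_comm g) ng_mul_ng
      (fun A hA An Ac => na hp h hm hζ hE hprim hA An Ac) ⟨g, hg, g1, g2⟩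
    obtain ⟨h7, h2⟩ := xs hp h hs hζ hE hX
    exact ⟨h7, ⊤, by rw [finrank_top, h2], fun v _ e => h.nd v fun w => e w trivial,
      fun x _ => Or.inl fun _ _ => trivial⟩
  · push Not at hprim
    obtain ⟨U, U0, hN, hB, U1⟩ := hprim
    obtain ⟨r, hr⟩ := exists_res (Stab Γ U) U fun x hx v hv => (hx.2 v).2 hv
    have : Nontrivial U := Submodule.nontrivial_iff_ne_bot.2 U0
    have : Module.Finite (ZMod p) V := Module.Finite.of_finite
    have s1 : Group.IsSolvable (Stab Γ U) :=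
      Group.isSolvable_of_isSolvable_injective (inclusion_injective (Stab_le (Γ := Γ) (U := U)))
    obtain ⟨h7, U', h2, hN', hB'⟩ := ih _ (hn ▸ Submodule.finrank_lt U1) (V := U) rfl (h.res Stab_le hN hr)
      (Group.isSolvable_of_surjective r.rangeRestrict_surjective)
      (fun q hq d => hm q hq (d.trans ((card_range_dvd r).trans (card_dvd_of_le Stab_le))))
      (fun u => by
        obtain ⟨x, hx, e⟩ := ep_stab hN hB z0 hE u.2
        exact ⟨r ⟨x, hx⟩, ⟨_, rfl⟩, Subtype.ext ((hr _ _).trans e)⟩)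
    refine ⟨h7, U'.map U.subtype, by rw [Submodule.finrank_map_subtype_eq, h2], ?_, fun x hx => ?_⟩
    · rintro _ ⟨v, hv, rfl⟩ e
      rw [hN' v hv fun w hw => e _ ⟨w, hw, rfl⟩, map_zero]
    · rcases hB x hx with e | e
      · have hx' : x ∈ Stab Γ U := mem_Stab.2 ⟨hx, e⟩
        rcases hB' (r ⟨x, hx'⟩) ⟨_, rfl⟩ with e' | e'
        · left
          rintro _ ⟨v, hv, rfl⟩
          exact ⟨_, e' v hv, hr _ _⟩
        · right
          rintro _ ⟨v, hv, rfl⟩ _ ⟨w, hw, rfl⟩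
          have := e' v hv w hw
          rwa [LinearMap.compl₁₂_apply, Submodule.subtype_apply, hr] at this
      · right
        rintro _ ⟨v, -, rfl⟩ _ ⟨w, -, rfl⟩
        exact e v v.2 w w.2

theorem st [Nontrivial V] (hp : 7 ≤ p) (h : Sp b Γ) (hs : Group.IsSolvable Γ) (hm : Sm (Nat.card Γ))
    (hζ : IsPrimitiveRoot ζ (p - 1)) (hE : EP Γ ζ) : p = 7 ∧ ∃ U : Submodule (ZMod p) V,
      Module.finrank (ZMod p) U = 2 ∧ Nd b U ∧ Blk b Γ U := st_aux hp hζ _ rfl h hs hm hE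

end Cfsg.Agent.AH
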