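import Cfsg.Agent.AH.LAM
import Cfsg.Agent.AH.ST
import Cfsg.Agent.AH.Form
import Cfsg.Agent.AH.BasB
import Cfsg.Agent.AH.BasC
import Cfsg.Agent.AH.BasL

/-! Project AH (S4162): only the primes 2, 3, 5 divide the order of a solvable rational group. -/

set_option autoImplicit false

namespace Cfsg.Agent.AH

open Subgroup

universe u

theorem gow_prim (q : ℕ) [Fact q.Prime] : ∃ ζ : ZMod q, IsPrimitiveRoot ζ (q - 1) := by
  obtain ⟨g, hg⟩ := IsCyclic.exists_ofOrder_eq_natCard (α := (ZMod q)ˣ)
  rw [Nat.card_eq_fintype_card, ZMod.card_units] at hg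
  exact ⟨g, IsPrimitiveRoot.coe_units_iff.2 (hg ▸ IsPrimitiveRoot.orderOf g)⟩

theorem gow_three : (3 : ZMod 7) ≠ 0 := by decide

theorem gow_step {G : Type u} [Group G] [Finite G] (hs : Group.IsSolvable G) (hR : RatG G)
    {V : Subgroup G} {q : ℕ} (hq : q.Prime) (h : MN V q) (hm : Sm V.index) : q ≤ 5 := by
  by_contra h5
  have h7 : 7 ≤ q := by
    by_contra k
    obtain rfl : q = 6 := by omega
    exact absurd hq (by decide)
  haveI := Fact.mk hq
  obtain ⟨W, _, _, φ, ρ, r⟩ := exists_rep V h.nm q h.comm h.exp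
  haveI := r.finite
  haveI := r.nontrivial h.ne
  have sm : Sm (Nat.card ρ.range) := fun t ht d =>
    hm t ht (d.trans (by rw [← index_ker]; exact index_dvd_of_le r.le_ker))
  have rΓ : RatG ρ.range := hR.of_surj _ ρ.rangeRestrict_surjective
  have sΓ : Group.IsSolvable ρ.range := Group.isSolvable_of_surjective ρ.rangeRestrict_surjective
  obtain ⟨b, nd, inv⟩ := form (r.irr h.min) (fun d => h5 (sm q hq d)) rΓ.inv
  obtain ⟨ζ, hζ⟩ := gow_prim q
  obtain ⟨z0, -, -, z2, -⟩ := prim_pow h7 hζ
  have ep := r.ep hR z0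
  have sp : Sp b ρ.range := ⟨fun v => by
    obtain ⟨x, hx, e⟩ := ep v
    have := inv x hx v v
    rw [e, map_smul, map_smul, LinearMap.smul_apply, smul_eq_mul, smul_eq_mul, ← mul_assoc,
      ← pow_two] at this
    by_contra k
    exact z2 ((mul_eq_right₀ k).1 this), nd, inv⟩
  obtain ⟨rfl, U, u2, un, ub⟩ := st h7 sp sΓ sm hζ ep
  exact lam sp rΓ sm (r.ep hR gow_three) u2 un ub

theorem gow {G : Type u} [Group G] [Finite G] (hs : Group.IsSolvable G) (hR : RatG G) :
    Sm (Nat.card G) := by
  induction hn : Nat.card G using Nat.strong_induction_on generalizing G with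
  | _ n ih =>
    subst hn
    by_cases h0 : (⊤ : Subgroup G) = ⊥
    · intro t ht d
      rw [← card_top, h0, card_bot] at d
      exact absurd d ht.not_dvd_one
    obtain ⟨V, q, hq, -, h⟩ := exists_MN hs (inferInstance : (⊤ : Subgroup G).Normal) h0
    haveI := h.nm
    have e := V.card_mul_index
    have hm : Sm V.index := ih _ (by
      have := (one_lt_card_iff_ne_bot V).2 h.ne
      have := Nat.pos_of_ne_zero (V.index_ne_zero_of_finite)
      change V.index < _
      rw [← e]; nlinarith) (G := G ⧸ V) inferInstance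
      (hR.of_surj _ (QuotientGroup.mk'_surjective V)) rfl
    intro t ht d
    rw [← e] at d
    rcases (Nat.Prime.dvd_mul ht).1 d with d | d
    · obtain ⟨k, hk⟩ := h.card hq le_rfl
      rw [hk] at d
      rw [(Nat.prime_dvd_prime_iff_eq ht hq).1 (ht.dvd_of_dvd_pow d)]
      exact gow_step hs hR hq h hm
    · exact hm t ht d

end Cfsg.Agent.AH
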