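import Cfsg.Agent.AH.L6a
import Cfsg.Agent.AH.EX
import Cfsg.Agent.AH.BasC

set_option autoImplicit false

namespace Cfsg.Agent.AH

open Subgroup

universe u

theorem l6_pow {G : Type*} [Group G] [Finite G] {u z x : G}
    (hz : ∀ y, y * u = u * y → y * z = z * y) (hzu : z * u = u * z) (hx : x * u = u * x) {k : ℕ}
    (hk : cc u = orderOf z * k) : x ^ k ∈ zpowers z := by
  set C := centralizer ({u} : Set G) with hC
  have hm : ∀ y, y ∈ C ↔ y * u = u * y := fun y => by
    rw [hC, mem_centralizer_singleton_iff]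
  let z' : C := ⟨z, (hm z).2 hzu⟩
  let x' : C := ⟨x, (hm x).2 hx⟩
  haveI : (zpowers z').Normal := ⟨fun n hn g => by
    obtain ⟨i, rfl⟩ := mem_zpowers_iff.1 hn
    have h1 : Commute g z' := Subtype.ext (hz g.1 ((hm _).1 g.2))
    rw [(h1.zpow_right i).eq, mul_inv_cancel_right]
    exact hn⟩
  have h1 := (zpowers z').card_mul_index
  rw [Nat.card_zpowers] at h1
  have h2 : orderOf z' = orderOf z := (orderOf_mk z _)
  have h3 : Nat.card C = orderOf z * k := hk
  rw [h2, h3] at h1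
  have h4 : (zpowers z').index = k := Nat.eq_of_mul_eq_mul_left (orderOf_pos z) h1
  have h5 := (zpowers z').pow_index_mem x'
  rw [h4] at h5
  obtain ⟨i, hi⟩ := mem_zpowers_iff.1 h5
  exact mem_zpowers_iff.2 ⟨i, by simpa using congrArg Subtype.val hi⟩

theorem l6_mem3 {G : Type*} [Group G] {u x : G} (h3 : u ^ 3 = 1) (hx : x ∈ zpowers u) :
    x = 1 ∨ x = u ∨ x = u⁻¹ := by
  obtain ⟨i, rfl⟩ := mem_zpowers_iff.1 hx
  have h3' : u ^ (3 : ℤ) = 1 := by exact_mod_cast h3
  have e : u ^ i = u ^ (i % 3) := by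
    conv_lhs => rw [← Int.emod_add_mul_ediv i 3, zpow_add, zpow_mul, h3', one_zpow, mul_one]
  have : i % 3 = 0 ∨ i % 3 = 1 ∨ i % 3 = 2 := by omega
  rcases this with h | h | h <;> rw [e, h]
  · simp
  · simp
  · right; right
    rw [eq_inv_iff_mul_eq_one, ← h3']
    group

theorem l6_mem2 {G : Type*} [Group G] {u x : G} (h2 : u * u = 1) (hx : x ∈ zpowers u) :
    x = 1 ∨ x = u := by
  obtain ⟨i, rfl⟩ := mem_zpowers_iff.1 hx
  have h3' : u ^ (2 : ℤ) = 1 := by rw [zpow_two]; exact h2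
  have e : u ^ i = u ^ (i % 2) := by
    conv_lhs => rw [← Int.emod_add_mul_ediv i 2, zpow_add, zpow_mul, h3', one_zpow, mul_one]
  have : i % 2 = 0 ∨ i % 2 = 1 := by omega
  rcases this with h | h <;> rw [e, h] <;> simp

theorem l6_five {n : ℕ} (h : ¬ 5 ∣ n) : (n : ZMod 5) ≠ 0 := fun e =>
  h ((ZMod.natCast_eq_zero_iff n 5).1 e)

theorem l6_cauchy {G : Type*} [Group G] {A : Subgroup G} [Finite A] {p : ℕ} (hp : p.Prime)
    (h : p ∣ Nat.card A) : ∃ a ∈ A, a ≠ 1 ∧ a ^ p = 1 := by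
  haveI := Fact.mk hp
  obtain ⟨a, ha⟩ := exists_prime_orderOf_dvd_card' p h
  refine ⟨a.1, a.2, fun e => ?_, ?_⟩
  · have : a = 1 := Subtype.ext e
    rw [this, orderOf_one] at ha
    exact hp.one_lt.ne ha
  · have := pow_orderOf_eq_one a
    rw [ha] at this
    simpa using congrArg Subtype.val this

theorem l6 {W : Type*} [AddCommGroup W] [Module (ZMod 5) W] [Finite W] [Nontrivial W]
    {Γ : Subgroup (W ≃ₗ[ZMod 5] W)} (hs : Group.IsSolvable Γ) (hI : Irr Γ) (hE : EP Γ 2) (u : Γ)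
    (h3 : u ^ 3 = 1) (hf : ∀ w, u.1 w = w → w = 0) (hc : cc u ≤ 3 ∨ (cc u ≤ 6 ∧ RatG Γ)) : False := by
  obtain ⟨w, hw⟩ := exists_ne (0 : W)
  have h3' : u.1 ^ 3 = 1 := by simpa using congrArg Subtype.val h3
  have hu1 : u ≠ 1 := fun e => hw (hf w (by rw [e]; rfl))
  have hou : orderOf u = 3 := by
    haveI := Fact.mk Nat.prime_three
    exact orderOf_eq_prime h3 hu1
  have h3c : 3 ∣ cc u := hou ▸ dvd_cc (Commute.refl u)
  have hpos := cc_pos u
  have hcc : cc u = 3 ∨ (cc u = 6 ∧ RatG Γ) := by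
    rcases hc with h | ⟨h, hR⟩
    · left; omega
    · by_cases h' : cc u = 3
      · exact Or.inl h'
      · exact Or.inr ⟨by omega, hR⟩
  obtain ⟨a0, ha0, ha0w⟩ := hE w
  have h4a : 4 ∣ orderOf (⟨a0, ha0⟩ : Γ) := by
    rw [orderOf_mk]; exact four_dvd hw ha0w
  have h4 : 4 ∣ Nat.card Γ := h4a.trans (orderOf_dvd_natCard _)
  have hng : (ng : W ≃ₗ[ZMod 5] W) ≠ 1 := ng_ne_one (by decide)
  -- elements of order three in the centralizer
  have hP : ∀ x : Γ, x * u = u * x → x ^ 3 = 1 → x = 1 ∨ x = u ∨ x = u⁻¹ := by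
    intro x hx hx3
    apply l6_mem3 h3
    have h2 : x ^ 2 ∈ zpowers u := by
      rcases hcc with h | ⟨h, -⟩
      · have := l6_pow (k := 1) (fun y hy => hy) rfl hx (by rw [hou, h])
        rw [pow_one] at this
        exact pow_mem this 2
      · exact l6_pow (k := 2) (fun y hy => hy) rfl hx (by rw [hou, h])
    have e : x = (x ^ 2) ^ 2 := by
      rw [← pow_mul, show 2 * 2 = 3 + 1 from rfl, pow_succ, hx3, one_mul]
    rw [e]; exact pow_mem h2 2
  -- normal abelian subgroups centralize `u`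
  have hK : ∀ A ≤ Γ, (∀ g ∈ Γ, ∀ a ∈ A, g * a * g⁻¹ ∈ A) → (∀ a ∈ A, ∀ a' ∈ A, a * a' = a' * a) →
      ∀ a ∈ A, u.1 * a = a * u.1 := by
    intro A hA hn hab
    refine cen3 h3' hf (hn u.1 u.2) hab (l6_five fun h5 => ?_)
    obtain ⟨a, ha, ha1, ha5⟩ := l6_cauchy Nat.prime_five h5
    let A5 : Subgroup (W ≃ₗ[ZMod 5] W) :=
      { carrier := {a | a ∈ A ∧ a ^ 5 = 1}
        mul_mem' := fun {x y} hx hy => ⟨A.mul_mem hx.1 hy.1, by
          rw [(show Commute x y from hab x hx.1 y hy.1).mul_pow, hx.2, hy.2, one_mul]⟩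
        one_mem' := ⟨A.one_mem, one_pow _⟩
        inv_mem' := fun {x} hx => ⟨A.inv_mem hx.1, by rw [inv_pow, hx.2, inv_one]⟩ }
    have hb : A5 = ⊥ := hI.pgroup (fun x hx => hA hx.1)
      (fun g hg x hx => ⟨hn g hg x hx.1, by rw [conj_pow, hx.2, mul_one, mul_inv_cancel]⟩)
      (fun x => ⟨1, Subtype.ext (by simpa using x.2.2)⟩)
    have : a ∈ A5 := ⟨ha, ha5⟩
    rw [hb] at this
    exact ha1 (mem_bot.1 this)
  have hA : ∀ A ≤ Γ, (∀ g ∈ Γ, ∀ a ∈ A, g * a * g⁻¹ ∈ A) → (∀ a ∈ A, ∀ a' ∈ A, a * a' = a' * a) →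
      ∀ a ∈ A, a = 1 ∨ a = ng := by
    intro A hA hn hab
    have hAu := hK A hA hn hab
    have hd : Nat.card A ∣ cc u := by
      rw [← Nat.card_congr (subgroupOfEquivOfLe hA).toEquiv]
      exact card_dvd_cc fun y hy => Subtype.ext (hAu y.1 hy).symm
    have hn3 : ¬ 3 ∣ Nat.card A := by
      intro h
      obtain ⟨c, hcA, hc1, hc3⟩ := l6_cauchy Nat.prime_three h
      have huA : u.1 ∈ A := by
        rcases hP ⟨c, hA hcA⟩ (Subtype.ext (hAu c hcA).symm) (Subtype.ext hc3) with e | e | e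
        · exact absurd (congrArg Subtype.val e) hc1
        · rw [← e]; exact hcA
        · have : u.1 = c⁻¹ := by
            have := congrArg Subtype.val e
            simp only [InvMemClass.coe_inv] at this
            rw [this, inv_inv]
          rw [this]; exact A.inv_mem hcA
      have hcj : ∀ g : Γ, g * u * g⁻¹ = u ∨ g * u * g⁻¹ = u⁻¹ := by
        intro g
        rcases hP (g * u * g⁻¹) (Subtype.ext (hAu _ (hn g.1 g.2 u.1 huA)).symm)
          (by rw [conj_pow, h3, mul_one, mul_inv_cancel]) with e | e | e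
        · exact absurd (by simpa using e) hu1
        · exact Or.inl e
        · exact Or.inr e
      have hi : (centralizer ({u} : Set Γ)).index ∣ 2 := by
        rw [index_dvd_two_iff]
        by_cases hall : ∀ g : Γ, g * u * g⁻¹ = u
        · refine ⟨1, fun b => Or.inr ?_⟩
          rw [mem_centralizer_singleton_iff, ← mul_inv_eq_iff_eq_mul]
          exact hall b
        · push Not at hall
          obtain ⟨a, ha⟩ := hall
          have ha' := (hcj a).resolve_left ha
          refine ⟨a, fun b => ?_⟩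
          simp only [mem_centralizer_singleton_iff, ← mul_inv_eq_iff_eq_mul]
          rcases hcj b with e | e
          · exact Or.inr e
          · left
            calc b * a * u * (b * a)⁻¹ = b * (a * u * a⁻¹) * b⁻¹ := by group
              _ = (b * u * b⁻¹)⁻¹ := by rw [ha']; group
              _ = u := by rw [e, inv_inv]
      have hm : cc u * (centralizer ({u} : Set Γ)).index = Nat.card Γ := card_mul_index _
      have hi' := (Nat.dvd_prime Nat.prime_two).1 hi
      rcases hcc with h' | ⟨h', hR⟩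
      · rw [← hm, h'] at h4
        omega
      · have h8 := hR.eight h4a
        rw [← hm, h'] at h8
        omega
    have hd2 : Nat.card A ∣ 2 := by
      have h6 : Nat.card A ∣ 2 * 3 := by
        rcases hcc with h' | ⟨h', -⟩
        · exact hd.trans (by rw [h']; norm_num)
        · rw [h'] at hd; exact hd
      exact (Nat.Coprime.dvd_mul_right
        ((Nat.Prime.coprime_iff_not_dvd Nat.prime_three).2 hn3).symm).1 h6
    intro a ha
    by_cases ha1 : a = 1
    · exact Or.inl ha1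
    right
    have hc2 : Nat.card A = 2 := by
      refine ((Nat.dvd_prime Nat.prime_two).1 hd2).resolve_left fun h => ha1 ?_
      rw [card_eq_one] at h
      rw [h] at ha
      exact mem_bot.1 ha
    obtain ⟨y, -, hy⟩ := (Nat.card_eq_two_iff' (1 : A)).1 hc2
    have huq : ∀ x ∈ A, x ≠ 1 → x = a := fun x hx hx1 => by
      have e1 := hy ⟨x, hx⟩ (fun e => hx1 (congrArg Subtype.val e))
      have e2 := hy ⟨a, ha⟩ (fun e => ha1 (congrArg Subtype.val e))
      exact congrArg Subtype.val (e1.trans e2.symm)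
    have haa : a * a = 1 := by
      have := huq a⁻¹ (A.inv_mem ha) (inv_ne_one.2 ha1)
      nth_rewrite 1 [← this]
      exact inv_mul_cancel a
    have hcen : ∀ g ∈ Γ, g * a = a * g := fun g hg => by
      rw [← mul_inv_eq_iff_eq_mul]
      exact huq _ (hn g hg a ha) (by simpa using ha1)
    refine eq_ng haa fun v hv => ?_
    rcases hI (Fix (zpowers a)) (fun g hg v hv x hx => by
      obtain ⟨i, rfl⟩ := mem_zpowers_iff.1 hx
      have e : g * a ^ i = a ^ i * g := ((show Commute g a from hcen g hg).zpow_right i).eq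
      have e' : g ((a ^ i) v) = (a ^ i) (g v) := congrArg (fun f : W ≃ₗ[ZMod 5] W => f v) e
      rw [← e', hv _ hx]) with e | e
    · have : v ∈ Fix (zpowers a) := fun x hx => by
        rcases l6_mem2 haa hx with rfl | rfl
        · rfl
        · exact hv
      rw [e] at this
      exact (Submodule.mem_bot _).1 this
    · refine absurd (LinearEquiv.ext fun v' => ?_) ha1
      have : v' ∈ Fix (zpowers a) := e ▸ Submodule.mem_top
      exact this a (mem_zpowers a)
  have hΓ : Γ ≠ ⊥ := fun e => hu1 (Subtype.ext (mem_bot.1 (e ▸ u.2)))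
  obtain ⟨B, hB, hB0, hBn, hBa⟩ := exists_ab hs hΓ
  have hz : (ng : W ≃ₗ[ZMod 5] W) ∈ Γ := by
    obtain ⟨b, hb⟩ := (ne_bot_iff_exists_ne_one).1 hB0
    rcases hA B hB hBn hBa b.1 b.2 with e | e
    · exact absurd (Subtype.ext e) hb
    · rw [← e]; exact hB b.2
  let z : Γ := ⟨ng, hz⟩
  have hzz : z * z = 1 := Subtype.ext ng_mul_ng
  have hoz : orderOf z = 2 := by
    refine orderOf_eq_prime (by rw [pow_two, hzz]) fun e => hng (congrArg Subtype.val e)
  have hzc : ∀ y : Γ, y * z = z * y := fun y => Subtype.ext (ng_comm y.1)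
  have h2c : 2 ∣ cc u := hoz ▸ dvd_cc (show Commute u z from hzc u)
  obtain ⟨h6, hR⟩ := hcc.resolve_left (by omega)
  obtain ⟨E, hX⟩ := ex hs hz (fun g _ => ng_comm g) ng_mul_ng hA ⟨u.1, u.2,
    fun e => hu1 (Subtype.ext e), fun e => hng (by
      rw [e, pow_succ, pow_two, ng_mul_ng, one_mul] at h3'
      exact h3')⟩
  refine q8u hR hX hng ng_mul_ng (fun g _ => ng_comm g) u.2 h3' fun e he hee => ?_
  have hu3 : ∀ x : W ≃ₗ[ZMod 5] W, u.1 * (u.1 * (u.1 * x * u.1⁻¹) * u.1⁻¹) * u.1⁻¹ = x := fun x => by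
    calc _ = u.1 ^ 3 * x * (u.1 ^ 3)⁻¹ := by simp only [pow_succ, pow_zero, one_mul]; group
      _ = x := by rw [h3']; group
  have hcm : ∀ x y : W ≃ₗ[ZMod 5] W, x * y = y * x →
      u.1 * x * u.1⁻¹ * (u.1 * y * u.1⁻¹) = u.1 * y * u.1⁻¹ * (u.1 * x * u.1⁻¹) := fun x y h => by
    calc _ = u.1 * (x * y) * u.1⁻¹ := by group
      _ = _ := by rw [h]; group
  set e1 := u.1 * e * u.1⁻¹ with he1
  set e2 := u.1 * e1 * u.1⁻¹ with he2
  have h12 : e1 * e2 = e2 * e1 := hcm _ _ hee
  have h20 : e2 * e = e * e2 := by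
    have := hcm _ _ h12
    rwa [← he2, show u.1 * e2 * u.1⁻¹ = e from hu3 e] at this
  let A : Subgroup (W ≃ₗ[ZMod 5] W) := closure {e, e1, e2}
  have hAE : A ≤ E := by
    rw [closure_le]
    rintro x (rfl | rfl | rfl)
    · exact he
    · exact hX.nm _ u.2 _ he
    · exact hX.nm _ u.2 _ (hX.nm _ u.2 _ he)
  have hAc : ∀ a ∈ A, ∀ a' ∈ A, a * a' = a' * a := by
    haveI : IsMulCommutative A := isMulCommutative_closure (by
      rintro x (rfl | rfl | rfl) y (rfl | rfl | rfl) <;>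
        first | rfl | assumption | (symm; assumption))
    intro a ha a' ha'
    exact congrArg Subtype.val (mul_comm' (⟨a, ha⟩ : A) ⟨a', ha'⟩)
  have hAn : ∀ a ∈ A, u.1 * a * u.1⁻¹ ∈ A := by
    intro a ha
    induction ha using closure_induction with
    | mem x hx =>
      apply Subgroup.subset_closure
      rcases hx with rfl | rfl | rfl
      · exact Or.inr (Or.inl rfl)
      · exact Or.inr (Or.inr rfl)
      · exact Or.inl (hu3 e)
    | one => simp
    | mul x y _ _ hx hy =>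
      have := A.mul_mem hx hy
      rwa [show u.1 * x * u.1⁻¹ * (u.1 * y * u.1⁻¹) = u.1 * (x * y) * u.1⁻¹ by group] at this
    | inv x _ hx =>
      have := A.inv_mem hx
      rwa [show (u.1 * x * u.1⁻¹)⁻¹ = u.1 * x⁻¹ * u.1⁻¹ by group] at this
  have hue : u.1 * e = e * u.1 := by
    refine cen3 h3' hf hAn hAc (l6_five fun h5 => ?_) e (Subgroup.subset_closure (Or.inl rfl))
    obtain ⟨a, ha, ha1, ha5⟩ := l6_cauchy Nat.prime_five h5
    have h4' : a ^ 4 = 1 := by
      rw [show a ^ 4 = (a * a) * (a * a) by simp only [pow_succ, pow_zero, one_mul, mul_assoc]]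
      rcases hX.sq a (hAE ha) with h | h <;> rw [h]
      · exact one_mul 1
      · exact ng_mul_ng
    rw [pow_succ, h4', one_mul] at ha5
    exact ha1 ha5
  have h5 := l6_pow (u := u) (z := z) (x := ⟨e, hX.le he⟩) (k := 3) (fun y _ => hzc y) (hzc u).symm
    (Subtype.ext hue.symm) (by rw [hoz, h6])
  have h7 : e * e * e = 1 ∨ e * e * e = ng := by
    rcases l6_mem2 hzz h5 with h | h
    · left; simpa [pow_succ] using congrArg Subtype.val h
    · right; simpa [pow_succ] using congrArg Subtype.val h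
  rcases hX.sq e he with h | h <;> rw [h] at h7
  · simpa using h7
  · rcases h7 with h7 | h7
    · right
      rw [← one_mul e, ← ng_mul_ng, mul_assoc, h7, mul_one]
    · left
      exact mul_eq_left.1 h7

end Cfsg.Agent.AH
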