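import Cfsg.Agent.AH.BasL
import Cfsg.Agent.AH.BasA

set_option autoImplicit false

namespace Cfsg.Agent.AH

open Subgroup

universe u

section
variable {F V : Type*} [Field F] [AddCommGroup V] [Module F V] {b : V →ₗ[F] V →ₗ[F] F}
  {Γ : Subgroup (V ≃ₗ[F] V)}

theorem cen3 {u : V ≃ₗ[F] V} (h3 : u ^ 3 = 1) (hf : ∀ w, u w = w → w = 0) {A : Subgroup (V ≃ₗ[F] V)}
    [Finite A] (hn : ∀ a ∈ A, u * a * u⁻¹ ∈ A) (hc : ∀ a ∈ A, ∀ a' ∈ A, a * a' = a' * a)
    (h0 : (Nat.card A : F) ≠ 0) : ∀ a ∈ A, u * a = a * u := by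
  have := Fintype.ofFinite A
  have hu : u⁻¹ = u * u := inv_eq_of_mul_eq_one_right (by rw [← h3, pow_succ', pow_two])
  have e0 : ∀ w, u w + u⁻¹ w = -w := fun w => by
    have h1 : u (u (u w)) = w := by
      rw [← LinearEquiv.mul_apply, ← LinearEquiv.mul_apply, ← hu, inv_mul_cancel]; rfl
    have := hf (w + (u w + u (u w))) (by rw [map_add, map_add, h1]; abel)
    rw [hu, LinearEquiv.mul_apply]
    exact eq_neg_of_add_eq_zero_right this
  let c : A → V ≃ₗ[F] V := fun a => a * u * (a : V ≃ₗ[F] V)⁻¹ * u⁻¹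
  have cm : ∀ a a', c (a * a') = c a * c a' := fun a a' => by
    have h1 := hc _ (hn _ (A.inv_mem a.2)) _ (A.mul_mem a'.2 (hn _ (A.inv_mem a'.2)))
    calc c (a * a') = a * ((a' * (u * (a' : V ≃ₗ[F] V)⁻¹ * u⁻¹)) * (u * (a : V ≃ₗ[F] V)⁻¹ * u⁻¹)) := by
          simp only [c, coe_mul]; group
      _ = _ := by rw [← h1]; simp only [c]; group
  have ci : ∀ a, c a⁻¹ = (c a)⁻¹ := fun a => eq_inv_of_mul_eq_one_left (by rw [← cm, inv_mul_cancel]; simp [c])
  have e1 : ∀ a w, c a (u w) + u⁻¹ ((c a)⁻¹ w) = -w := fun a w => by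
    have h1 : c a * u = a * u * (a : V ≃ₗ[F] V)⁻¹ := by simp only [c]; group
    have h2 : u⁻¹ * (c a)⁻¹ = a * u⁻¹ * (a : V ≃ₗ[F] V)⁻¹ := by simp only [c]; group
    rw [← LinearEquiv.mul_apply, ← LinearEquiv.mul_apply, h1, h2]
    simp only [LinearEquiv.mul_apply]
    rw [← map_add, e0, map_neg, ← LinearEquiv.mul_apply, mul_inv_cancel]
    rfl
  have s1 : ∀ w, ∑ a, c a (u w) = u (∑ a, c a w) := fun w => by
    have hb : Function.Bijective fun a : A => (⟨u * a * u⁻¹, hn _ a.2⟩ : A) :=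
      Finite.injective_iff_bijective.1 fun a a' e => Subtype.ext (by simpa using e)
    rw [map_sum, ← hb.sum_comp fun a => c a (u w)]
    refine Finset.sum_congr rfl fun a _ => ?_
    rw [← LinearEquiv.mul_apply, ← LinearEquiv.mul_apply]
    congr 1
    simp only [c]; group
  have s2 : ∀ w, ∑ a, (c a)⁻¹ w = ∑ a, c a w := fun w => by
    rw [← Equiv.sum_comp (Equiv.inv A) fun a => c a w]
    exact Finset.sum_congr rfl fun a _ => by rw [Equiv.inv_apply, ci]
  have s3 : ∀ w, ∑ a, c a w = (Nat.card A : F) • w := fun w => by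
    have := Finset.sum_congr (s₁ := Finset.univ) rfl fun a _ => e1 a w
    rw [Finset.sum_add_distrib, s1, ← map_sum, s2, e0, Finset.sum_neg_distrib, neg_inj] at this
    rw [this, Finset.sum_const, Finset.card_univ, Nat.card_eq_fintype_card, Nat.cast_smul_eq_nsmul]
  intro a ha
  have h1 : c ⟨a, ha⟩ = 1 := LinearEquiv.ext fun w => smul_right_injective V h0 (by
    change (Nat.card A : F) • c ⟨a, ha⟩ w = (Nat.card A : F) • w
    rw [← map_smul, ← s3, map_sum, ← Equiv.sum_comp (Equiv.mulLeft (⟨a, ha⟩ : A)) fun a => c a w]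
    exact Finset.sum_congr rfl fun a' _ => by rw [Equiv.coe_mulLeft, cm]; rfl)
  calc u * a = (a * u * a⁻¹ * u⁻¹) * (u * a) := by rw [show a * u * a⁻¹ * u⁻¹ = 1 from h1, one_mul]
    _ = a * u := by group

end

theorem l6a_core {G : Type*} [Group G] [Finite G] (hR : RatG G) {z u : G} {E : Subgroup G}
    (nm : ∀ g, ∀ e ∈ E, MulAut.conj g e ∈ E) (ex : ∃ e ∈ E, e ≠ 1 ∧ e ≠ z)
    (comm : ∀ e ∈ E, ∀ f ∈ E, e * f = f * e ∨ e * f = z * (f * e)) (sq : ∀ e ∈ E, e * e = 1 ∨ e * e = z)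
    (cen : ∀ g, (∀ e ∈ E, g * e = e * g) → g = 1 ∨ g = z) (hz : z ≠ 1) (h2 : z * z = 1)
    (hc : ∀ g, g * z = z * g) (h3 : u ^ 3 = 1)
    (hn : ∀ e ∈ E, e * MulAut.conj u e = MulAut.conj u e * e → e = 1 ∨ e = z) : False := by
  obtain ⟨a, ha, a1, a2⟩ := ex
  have zz : ∀ x, z * (z * x) = x := fun x => by rw [← mul_assoc, h2, one_mul]
  have zc : ∀ g x, g * (z * x) = z * (g * x) := fun g x => by rw [← mul_assoc, hc, mul_assoc]
  have kz : ∀ g, MulAut.conj g z = z := fun g => by rw [MulAut.conj_apply, hc, mul_inv_cancel_right]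
  have pm : ∀ g {x}, x = 1 ∨ x = z → Commute g x := by
    rintro g _ (rfl | rfl)
    exacts [Commute.one_right g, hc g]
  have kpm : ∀ g {x}, x = 1 ∨ x = z → MulAut.conj g x = x := by
    rintro g _ (rfl | rfl)
    exacts [map_one _, kz g]
  have no : ∀ {x y}, x * y = z * (y * x) → ¬ Commute x y := fun {x y} h h' =>
    hz (mul_right_cancel (b := y * x) (by rw [← h, h'.eq, one_mul]))
  have sw : ∀ {x y}, x * y = z * (y * x) → y * x = z * (x * y) := fun h => by rw [h, zz]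
  have two : ∀ {x f y}, x * y = z * (y * x) → f * y = z * (y * f) → Commute (x⁻¹ * f) y := fun {x f y} h h' => by
    change x⁻¹ * f * y = y * (x⁻¹ * f)
    rw [mul_assoc, h', inv_mul_eq_iff_eq_mul, ← mul_assoc x, h]
    simp only [mul_assoc, mul_inv_cancel_left]
  have kk : ∀ g k x : G, MulAut.conj (g * k) x = MulAut.conj g (MulAut.conj k x) := fun g k x => by
    rw [map_mul]; rfl
  have φ3 : ∀ x, MulAut.conj u (MulAut.conj u (MulAut.conj u x)) = x := fun x => by
    rw [← kk, ← kk, show u * u * u = 1 by rw [← h3, pow_succ, pow_two], map_one]; rfl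
  have anti : ∀ e ∈ E, ¬ (e = 1 ∨ e = z) → e * MulAut.conj u e = z * (MulAut.conj u e * e) := fun e he h =>
    (comm e he _ (nm u e he)).resolve_left fun h' => h (hn e he h')
  obtain ⟨b, hb⟩ : ∃ b, MulAut.conj u a = b := ⟨_, rfl⟩
  obtain ⟨c, hc'⟩ : ∃ c, MulAut.conj u b = c := ⟨_, rfl⟩
  have ha' : MulAut.conj u c = a := by rw [← hc', ← hb, φ3]
  have bE : b ∈ E := hb ▸ nm u a ha
  have cE : c ∈ E := hc' ▸ nm u b bE
  have ab : a * b = z * (b * a) := hb ▸ anti a ha (not_or.2 ⟨a1, a2⟩)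
  have bc : b * c = z * (c * b) := by simpa only [map_mul, kz, hb, hc'] using congrArg (MulAut.conj u) ab
  have ca : c * a = z * (a * c) := by simpa only [map_mul, kz, ha', hc'] using congrArg (MulAut.conj u) bc
  have abc : a * (b * c) = 1 ∨ a * (b * c) = z := hn _ (E.mul_mem ha (E.mul_mem bE cE)) (by
    rw [map_mul, map_mul, hb, hc', ha', ← mul_assoc b c a]
    rcases comm a ha _ (E.mul_mem bE cE) with h | h <;> rw [h]
    rw [zc, mul_assoc z])
  have cc : ∀ g, Commute g a → Commute g b → Commute g c := fun g x y => by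
    simpa using y.inv_right.mul_right (x.inv_right.mul_right (pm g abc))
  have K : ∀ f ∈ E, Commute f a → Commute f b → f = 1 ∨ f = z := fun f hf fa fb => by
    by_contra h
    have f1 : Commute (MulAut.conj u f) a := ha' ▸ (cc f fa fb).map (MulAut.conj u)
    have h1 := hn _ (E.mul_mem ha hf) (by
      rw [map_mul, hb, mul_assoc, ← mul_assoc f, fb.eq, mul_assoc, anti f hf h, ← mul_assoc a, ab]
      simp only [mul_assoc, zc a, zc b, zz]
      rw [← mul_assoc a, ← f1.eq, mul_assoc])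
    exact no ab (by simpa using (pm b h1).symm.mul_left fb.inv_left)
  have cls : ∀ f ∈ E, ∃ ε, (ε = 1 ∨ ε = z) ∧ (f = ε ∨ f = a * ε ∨ f = b * ε ∨ f = c * ε) := fun f hf => by
    rcases comm f hf a ha with h | h <;> rcases comm f hf b bE with h' | h'
    · exact ⟨f, K f hf h h', Or.inl rfl⟩
    · exact ⟨_, K _ (E.mul_mem (E.inv_mem ha) hf) ((Commute.refl a).inv_left.mul_left h) (two ab h'), by simp⟩
    · exact ⟨_, K _ (E.mul_mem (E.inv_mem bE) hf) (two (sw ab) h) ((Commute.refl b).inv_left.mul_left h'), by simp⟩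
    · exact ⟨_, K _ (E.mul_mem (E.inv_mem cE) hf) (two ca h) (two (sw bc) h'), by simp⟩
  have cenG : ∀ g, Commute g a → Commute g b → g = 1 ∨ g = z := fun g ga gb => cen g fun f hf => by
    obtain ⟨ε, hε, rfl | rfl | rfl | rfl⟩ := cls f hf
    exacts [pm g hε, ga.mul_right (pm g hε), gb.mul_right (pm g hε), (cc g ga gb).mul_right (pm g hε)]
  have aa : a * a = z := (sq a ha).resolve_left fun h => by
    have h1 : b * b = 1 := by simpa only [map_mul, map_one, hb] using congrArg (MulAut.conj u) h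
    have h4 : c * c = 1 := by simpa only [map_mul, map_one, hc'] using congrArg (MulAut.conj u) h1
    have h5 : a * b * (a * b) = z := by
      rw [mul_assoc, ← mul_assoc b, sw ab, mul_assoc z, zc, mul_assoc a b, h1, mul_one, h, mul_one]
    have h6 : a * b = a * (b * c) * c := by simp only [mul_assoc, h4, mul_one]
    rw [h6] at h5
    rcases abc with e | e <;> rw [e] at h5
    · exact hz (by rw [← h5, one_mul, h4])
    · exact hz (by rw [← h5, mul_assoc, zc c, h4, zz])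
  obtain ⟨h, ε, hh, hε, ψa⟩ : ∃ h ε, h * u * h⁻¹ = u⁻¹ ∧ (ε = 1 ∨ ε = z) ∧ MulAut.conj h a = a * ε := by
    obtain ⟨h, hh⟩ := isConj_iff.1 (hR.inv u)
    have hu : (u * h) * u * (u * h)⁻¹ = u⁻¹ := by
      rw [show u * h * u * (u * h)⁻¹ = u * (h * u * h⁻¹) * u⁻¹ by group, hh]; group
    have hu' : (u * (u * h)) * u * (u * (u * h))⁻¹ = u⁻¹ := by
      rw [show u * (u * h) * u * (u * (u * h))⁻¹ = u * (u * h * u * (u * h)⁻¹) * u⁻¹ by group, hu]; group
    obtain ⟨ε, hε, e | e | e | e⟩ := cls _ (nm h a ha)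
    · rw [← kpm h hε, (MulAut.conj h).injective.eq_iff] at e
      exact absurd (e ▸ hε) (not_or.2 ⟨a1, a2⟩)
    · exact ⟨h, ε, hh, hε, e⟩
    · exact ⟨_, ε, hu', hε, by rw [kk, kk, e, map_mul, map_mul, hc', ha', kpm u hε, kpm u hε]⟩
    · exact ⟨_, ε, hu, hε, by rw [kk, e, map_mul, ha', kpm u hε]⟩
  have ψφ : ∀ x, MulAut.conj h (MulAut.conj u x) = MulAut.conj u (MulAut.conj u (MulAut.conj h x)) := fun x => by
    rw [← kk, ← kk, ← kk, show u * u = u⁻¹ from eq_inv_of_mul_eq_one_left (by rw [← h3, pow_succ, pow_two]), ← hh,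
      inv_mul_cancel_right]
  have ψb : MulAut.conj h b = c * ε := by rw [← hb, ψφ, ψa, map_mul, map_mul, hb, hc', kpm u hε, kpm u hε]
  have ψc : MulAut.conj h c = b * ε := by rw [← hc', ψφ, ψb, map_mul, map_mul, ha', hb, kpm u hε, kpm u hε]
  obtain rfl : z = ε := (hε.resolve_left fun e => by
    have h1 := kpm h abc
    rw [map_mul, map_mul, ψa, ψb, ψc, e, mul_one, mul_one, mul_one, mul_right_inj] at h1
    exact no bc h1.symm).symm
  obtain ⟨g, γa, γb, γc⟩ : ∃ g, MulAut.conj g a = a ∧ MulAut.conj g b = z * c ∧ MulAut.conj g c = b := by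
    refine ⟨h * b, ?_, ?_, ?_⟩ <;> rw [kk, MulAut.conj_apply b]
    · rw [sw ab, ← mul_assoc, mul_inv_cancel_right, map_mul, kz, ψa, hc a, zz]
    · rw [mul_inv_cancel_right, ψb, hc]
    · rw [bc, ← mul_assoc, mul_inv_cancel_right, map_mul, kz, ψc, hc b, zz]
  have fx : ∀ {k x : G}, MulAut.conj k x = x ↔ Commute k x := fun {k x} => by
    rw [MulAut.conj_apply, mul_inv_eq_iff_eq_mul]; rfl
  have ga : Commute g a := fx.1 γa
  have γ2 : MulAut.conj (g * g) b = z * b := by rw [kk, γb, map_mul, kz, γc]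
  have γ3 : MulAut.conj (g * (g * g)) b = c := by rw [kk, γ2, map_mul, kz, γb, zz]
  have g2 := cenG (a⁻¹ * (g * g)) ((Commute.refl a).inv_left.mul_left (ga.mul_left ga)) (two ab (by
    rw [← mul_assoc, ← γ2, MulAut.conj_apply, inv_mul_cancel_right]))
  have g4 : g * g * (g * g) = z := by
    rcases g2 with e | e <;> rw [inv_mul_eq_iff_eq_mul] at e <;> rw [e]
    · rw [mul_one, aa]
    · rw [hc a, mul_assoc, zc a, zz, aa]
  have g5 : g ^ 5 = z * g := by rw [← g4]; simp only [pow_succ, pow_zero, one_mul, mul_assoc]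
  have g8 : g ^ 8 = 1 := by rw [← h2, ← g4]; simp only [pow_succ, pow_zero, one_mul, mul_assoc]
  obtain ⟨k, hk⟩ := isConj_iff.1
    (hR g 5 (Nat.Coprime.coprime_dvd_right (orderOf_dvd_of_pow_eq_one g8) (by norm_num)))
  rw [g5, ← MulAut.conj_apply] at hk
  have ka : Commute k a := by
    have h1 : Commute k (g * g) := fx.1 (by rw [map_mul, hk, mul_assoc, zc g, zz])
    simpa [mul_assoc] using h1.mul_right (pm k g2).inv_right
  have fin : ∀ m, Commute m g → Commute m a → MulAut.conj m b ≠ MulAut.conj k b := fun m mg ma e => by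
    have h1 := cenG (m⁻¹ * k) (ma.inv_left.mul_left ka) (fx.1 (by
      rw [kk, ← e, ← kk, inv_mul_cancel, map_one]; rfl))
    have h4 : Commute k g := by simpa using mg.mul_left (pm g h1).symm
    exact hz (mul_right_cancel (b := g) (by rw [← hk, fx.2 h4, one_mul]))
  have kab : a * MulAut.conj k b = z * (MulAut.conj k b * a) := by
    simpa only [map_mul, kz, fx.2 ka] using congrArg (MulAut.conj k) ab
  have gg := Commute.refl g
  obtain ⟨ε, hε, e | e | e | e⟩ := cls _ (nm k b bE)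
  · exact no kab (e ▸ pm a hε)
  · exact no kab (e ▸ (Commute.refl a).mul_right (pm a hε))
  · rcases hε with rfl | rfl
    · exact fin 1 (Commute.one_left _) (Commute.one_left _) (by rw [e, mul_one, map_one]; rfl)
    · exact fin _ (gg.mul_left gg) (ga.mul_left ga) (by rw [e, γ2, hc])
  · rcases hε with rfl | rfl
    · exact fin _ (gg.mul_left (gg.mul_left gg)) (ga.mul_left (ga.mul_left ga)) (by rw [e, γ3, mul_one])
    · exact fin _ gg ga (by rw [e, γb, hc])

theorem q8u {A : Type*} [Group A] {z u : A} {Γ E : Subgroup A} [Finite Γ] (hR : RatG Γ) (hX : XE z Γ E)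
    (hz : z ≠ 1) (h2 : z * z = 1) (hc : ∀ g ∈ Γ, g * z = z * g) (hu : u ∈ Γ) (h3 : u ^ 3 = 1)
    (hn : ∀ e ∈ E, e * (u * e * u⁻¹) = u * e * u⁻¹ * e → e = 1 ∨ e = z) : False := by
  obtain ⟨e, he, e1, e2⟩ := hX.ex
  refine l6a_core hR (z := ⟨z, hX.le hX.neg⟩) (u := ⟨u, hu⟩) (E := E.subgroupOf Γ)
    (fun g e he => hX.nm g g.2 e he) ⟨⟨e, hX.le he⟩, he, fun h => e1 (congrArg Subtype.val h), fun h => e2 (congrArg Subtype.val h)⟩
    (fun e he f hf => (hX.comm e he f hf).imp Subtype.ext Subtype.ext)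
    (fun e he => (hX.sq e he).imp Subtype.ext Subtype.ext)
    (fun g h => (hX.cen g g.2 fun e he => congrArg Subtype.val (h ⟨e, hX.le he⟩ he)).imp Subtype.ext Subtype.ext)
    (fun h => hz (congrArg Subtype.val h)) (Subtype.ext h2) (fun g => Subtype.ext (hc g g.2)) (Subtype.ext h3)
    fun e he h => (hn e he (congrArg Subtype.val h)).imp Subtype.ext Subtype.ext

end Cfsg.Agent.AH
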