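import Cfsg.Agent.AH.PL0
import Cfsg.Agent.H9.SLBasic

/-! A class function on a `7'`-subgroup of `SL(2,7)`. -/

set_option autoImplicit false

namespace Cfsg.Agent.AH

open Subgroup

universe u

/-- the conclusion of `pl` -/
def plC (K : Subgroup M7) : Prop :=
  ∃ ε : M7 → ℤ, (∀ k ∈ K, ∀ m ∈ K, ε (k * m * k⁻¹) = ε m) ∧ (∀ m ∈ K, ε (m ^ 11) = - ε m) ∧
    (∃ m ∈ K, ε m ≠ 0) ∧ ∀ L : Subgroup M7, (∀ m ∈ K, ∀ m' ∈ K, ∀ u u' : Fin 2 → ZMod 7, u ≠ 0 → u' ≠ 0 →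
      m.1.mulVec u = (2 : ZMod 7) • u → m'.1.mulVec u' = (2 : ZMod 7) • u' → m * m'⁻¹ ∈ L) →
      ∃ y ∈ L, ∃ n, 0 < n ∧ ∀ m ∈ K, ∑ i ∈ Finset.range n, ε (m * y ^ i) = 0

theorem pl_card : Nat.card M7 = 336 := by
  rw [H9.card_sl_two, ZMod.card]
  rfl

theorem pl_tr (k m : M7) : (k * m * k⁻¹).1.trace = m.1.trace := by
  have h : (k⁻¹ * (k * m)).1.trace = m.1.trace := by rw [inv_mul_cancel_left]
  rw [← h]
  exact Matrix.trace_mul_comm (k * m).1 (k⁻¹).1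

theorem pl_e1 : j0.1.mulVec ![1, 0] = (2 : ZMod 7) • ![1, 0] := by decide

theorem pl_e2 : (j0⁻¹).1.mulVec ![0, 1] = (2 : ZMod 7) • ![0, 1] := by decide

theorem pl_j3 : j0 ^ 3 = 1 := by decide

theorem pl_j1 : j0 ≠ 1 := by decide

theorem pl_mv (a b : M7) (u : Fin 2 → ZMod 7) : (a * b).1.mulVec u = a.1.mulVec (b.1.mulVec u) :=
  (Matrix.mulVec_mulVec u a.1 b.1).symm

theorem pl_mv1 (u : Fin 2 → ZMod 7) : (1 : M7).1.mulVec u = u := Matrix.one_mulVec u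

theorem pl_one {K : Subgroup M7} (h7 : ¬ 7 ∣ Nat.card K) (hj : j0 ∈ K) {m : M7} (hm : m ∈ K)
    (h : m.1.mulVec ![1, 1] = (2 : ZMod 7) • ![1, 1]) {m0 : M7} (h0 : m0 ∈ K)
    (ht : m0.1.trace = 3 ∨ m0.1.trace = 4) : plC K := by
  refine ⟨fun m => (if m.1.trace = 3 then 1 else 0) - (if m.1.trace = 4 then 1 else 0),
    fun k _ m _ => by simp only [pl_tr], fun m _ => ?_, ⟨m0, h0, ?_⟩, fun L hL => ⟨-1, ?_, 2, two_pos, fun m _ => ?_⟩⟩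
  · simp only [(tr_eleven m).1, (tr_eleven m).2, neg_sub]
  · rcases ht with e | e <;> simp only [e] <;> decide
  · rcases (jj h7 hj hm h).1 with e | e
    · exact e ▸ pow_mem (hL _ hj _ hm _ _ (by decide) (by decide) pl_e1 h) 2
    · exact e ▸ pow_mem (hL _ (inv_mem hj) _ hm _ _ (by decide) (by decide) pl_e2 h) 2
  · have e : (m * (-1) ^ 1).1.trace = -m.1.trace := by
      rw [pow_one, mul_neg, mul_one, Matrix.SpecialLinearGroup.coe_neg, Matrix.trace_neg]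
    rw [Finset.sum_range_succ, Finset.sum_range_one, pow_zero, mul_one]
    simp only [e]
    generalize m.1.trace = t
    revert t
    decide

theorem pl_hom {K : Subgroup M7} (hj : j0 ∈ K) (hk : ∀ k ∈ K, k * j0 * k⁻¹ ≠ j0⁻¹) :
    ∃ χ : K →* Multiplicative (ZMod 3), χ ⟨j0, hj⟩ ≠ 1 := by
  haveI : Fact (Nat.Prime 3) := ⟨Nat.prime_three⟩
  have o3 : orderOf (⟨j0, hj⟩ : K) = 3 :=
    orderOf_eq_prime (Subtype.ext pl_j3) fun e => pl_j1 (congrArg Subtype.val e)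
  have c3 : Nat.card (zpowers (⟨j0, hj⟩ : K)) = 3 := by rw [Nat.card_zpowers, o3]
  have hp : IsPGroup 3 (zpowers (⟨j0, hj⟩ : K)) := IsPGroup.of_card (n := 1) c3
  have hi : ¬ 3 ∣ (zpowers (⟨j0, hj⟩ : K)).index := fun h => by
    have h1 : 3 * 3 ∣ Nat.card K := by
      rw [← (zpowers (⟨j0, hj⟩ : K)).card_mul_index, c3]; exact Nat.mul_dvd_mul_left 3 h
    have h2 := h1.trans (card_subgroup_dvd_card K)
    rw [pl_card] at h2
    exact absurd h2 (by decide)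
  let P : Sylow 3 K := hp.toSylow hi
  have hP : normalizer ((P : Subgroup K) : Set K) ≤ centralizer ((P : Subgroup K) : Set K) := by
    intro k hk'
    have h1 : k * ⟨j0, hj⟩ * k⁻¹ ∈ zpowers (⟨j0, hj⟩ : K) := (mem_normalizer_iff.1 hk' _).1 (mem_zpowers _)
    have h2 : k * ⟨j0, hj⟩ * k⁻¹ = ⟨j0, hj⟩ := by
      rw [mem_zpowers_iff_mem_range_orderOf, o3, Finset.mem_image] at h1
      obtain ⟨i, hi, e⟩ := h1
      rw [Finset.mem_range] at hi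
      interval_cases i
      · rw [pow_zero, eq_comm, conj_eq_one_iff] at e
        exact absurd (congrArg Subtype.val e) pl_j1
      · rw [← e, pow_one]
      · refine absurd ?_ (hk k k.2)
        have e' : j0 ^ 2 = k.1 * j0 * k.1⁻¹ := congrArg Subtype.val e
        rw [← e', eq_inv_iff_mul_eq_one, ← pow_succ, pl_j3]
    intro x hx
    obtain ⟨i, rfl⟩ := mem_zpowers_iff.1 (show x ∈ zpowers (⟨j0, hj⟩ : K) from hx)
    exact ((show Commute k ⟨j0, hj⟩ from mul_inv_eq_iff_eq_mul.1 h2).zpow_right i).symm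
  let e : P ≃* Multiplicative (ZMod 3) := mulEquivOfPrimeCardEq (p := 3) c3 (by simp)
  refine ⟨e.toMonoidHom.comp (MonoidHom.transferSylow P hP), fun h => ?_⟩
  have h1 : (⟨j0, hj⟩ : K) ∈ (MonoidHom.transferSylow P hP).ker :=
    MonoidHom.mem_ker.2 (e.map_eq_one_iff.1 h)
  have h2 := disjoint_def.1 (MonoidHom.ker_transferSylow_disjoint P hP _ hp) h1 (mem_zpowers _)
  exact pl_j1 (congrArg Subtype.val h2)

theorem pl_eps {H : Type*} [Group H] {K : Subgroup H} {j : H} (hj : j ∈ K) (χ : K →* Multiplicative (ZMod 3))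
    (h : χ ⟨j, hj⟩ ≠ 1) : ∃ ε : H → ℤ, (∀ k ∈ K, ∀ m ∈ K, ε (k * m * k⁻¹) = ε m) ∧ (∀ m ∈ K, ε (m ^ 11) = - ε m) ∧
      ε j ≠ 0 ∧ ∀ m ∈ K, ∑ i ∈ Finset.range 3, ε (m * (j * j) ^ i) = 0 := by
  classical
  let f : Multiplicative (ZMod 3) → ℤ := fun a => if a.toAdd = 1 then 1 else if a.toAdd = 2 then -1 else 0
  have f1 : ∀ a, f (a ^ 11) = - f a := by decide
  have f2 : ∀ a, a ≠ 1 → f a ≠ 0 := by decide
  have f3 : ∀ a b, b ≠ 1 → f (a * (b * b) ^ 0) + f (a * (b * b) ^ 1) + f (a * (b * b) ^ 2) = 0 := by decide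
  obtain ⟨ε, hε⟩ : ∃ ε : H → ℤ, ∀ m : K, ε m = f (χ m) :=
    ⟨fun m => if hm : m ∈ K then f (χ ⟨m, hm⟩) else 0, fun m => dif_pos m.2⟩
  refine ⟨ε, fun k hk m hm => ?_, fun m hm => ?_, ?_, fun m hm => ?_⟩
  · refine (hε (⟨k, hk⟩ * ⟨m, hm⟩ * ⟨k, hk⟩⁻¹)).trans ?_
    rw [hε ⟨m, hm⟩, map_mul, map_mul, map_inv, mul_inv_cancel_comm]
  · refine (hε (⟨m, hm⟩ ^ 11)).trans ?_
    rw [hε ⟨m, hm⟩, map_pow, f1]
  · exact (hε ⟨j, hj⟩).symm ▸ f2 _ h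
  · have k : ∀ i : ℕ, ε (m * (j * j) ^ i) = f (χ ⟨m, hm⟩ * (χ ⟨j, hj⟩ * χ ⟨j, hj⟩) ^ i) := fun i => by
      refine (hε (⟨m, hm⟩ * (⟨j, hj⟩ * ⟨j, hj⟩) ^ i)).trans ?_
      rw [map_mul, map_pow, map_mul]
    rw [Finset.sum_range_succ, Finset.sum_range_succ, Finset.sum_range_one, k, k, k]
    exact f3 _ _ h

theorem pl_two {K : Subgroup M7} (hj : j0 ∈ K) (χ : K →* Multiplicative (ZMod 3)) (h : χ ⟨j0, hj⟩ ≠ 1) :
    plC K := by
  obtain ⟨ε, h1, h2, h3, h4⟩ := pl_eps hj χ h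
  refine ⟨ε, h1, h2, ⟨j0, hj, h3⟩, fun L hL => ⟨j0 * j0, ?_, 3, three_pos, h4⟩⟩
  have := hL _ hj _ (inv_mem hj) _ _ (by decide) (by decide) pl_e1 pl_e2
  rwa [inv_inv] at this

theorem pl_j {K : Subgroup M7} (h7 : ¬ 7 ∣ Nat.card K) (hj : j0 ∈ K) {m : M7} (hm : m ∈ K)
    (h : m.1.mulVec ![1, 1] = (2 : ZMod 7) • ![1, 1]) : plC K := by
  by_cases h0 : ∃ m0 ∈ K, m0.1.trace = 3
  · obtain ⟨m0, h0, ht⟩ := h0
    exact pl_one h7 hj hm h h0 (Or.inl ht)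
  · obtain ⟨χ, hχ⟩ := pl_hom hj fun k hk e => by
      obtain ⟨w, hw, ht⟩ := (jj h7 hj hm h).2 k e
      refine h0 ⟨_, mul_mem hk ?_, ht⟩
      rcases hw with rfl | rfl | rfl
      exacts [hm, mul_mem hj hm, mul_mem (inv_mem hj) hm]
    exact pl_two hj χ hχ

theorem pl_conj {K : Subgroup M7} (g : M7) (h : plC (K.comap (MulAut.conj g).toMonoidHom)) : plC K := by
  obtain ⟨ε, h1, h2, ⟨m0, hm0, h3⟩, h4⟩ := h
  have mem : ∀ {H : Subgroup M7} {m : M7}, m ∈ H.comap (MulAut.conj g).toMonoidHom ↔ g * m * g⁻¹ ∈ H := Iff.rfl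
  have mem' : ∀ m ∈ K, g⁻¹ * m * g ∈ K.comap (MulAut.conj g).toMonoidHom := fun m hm =>
    mem.2 (by simpa [mul_assoc] using hm)
  refine ⟨fun m => ε (g⁻¹ * m * g), fun k hk m hm => ?_, fun m hm => ?_, ⟨_, mem.1 hm0, ?_⟩, fun L hL => ?_⟩
  · exact (congrArg ε (by group)).trans (h1 _ (mem' k hk) _ (mem' m hm))
  · exact (congrArg ε (by simpa using (conj_pow (a := g⁻¹) (b := m) (i := 11)).symm)).trans (h2 _ (mem' m hm))
  · simpa [mul_assoc] using h3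
  · have ev : ∀ (m : M7) (u : Fin 2 → ZMod 7), m.1.mulVec u = (2 : ZMod 7) • u →
        (g * m * g⁻¹).1.mulVec (g.1.mulVec u) = (2 : ZMod 7) • g.1.mulVec u := fun m u e => by
      rw [← pl_mv, inv_mul_cancel_right, pl_mv, e, Matrix.mulVec_smul]
    have ne : ∀ u : Fin 2 → ZMod 7, u ≠ 0 → g.1.mulVec u ≠ 0 := fun u hu e => hu (by
      rw [← pl_mv1 u, ← inv_mul_cancel g, pl_mv, e, Matrix.mulVec_zero])
    obtain ⟨y, hy, n, hn, h5⟩ := h4 (L.comap (MulAut.conj g).toMonoidHom) fun m hm m' hm' u u' hu hu' e e' =>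
      mem.2 (by
        convert hL _ (mem.1 hm) _ (mem.1 hm') _ _ (ne u hu) (ne u' hu') (ev m u e) (ev m' u' e') using 1
        group)
    refine ⟨_, mem.1 hy, n, hn, fun m hm => ?_⟩
    rw [← h5 _ (mem' m hm)]
    refine Finset.sum_congr rfl fun i _ => congrArg ε ?_
    rw [conj_pow]
    group

theorem pl_norm {m : M7} (h : m.1.mulVec ![1, 0] = (2 : ZMod 7) • ![1, 0]) : ∃ g : M7, g * j0 * g⁻¹ = m := by
  obtain ⟨m, hm⟩ := m
  have h0 := congrFun h 0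
  have h1 := congrFun h 1
  simp [Matrix.mulVec, dotProduct, Fin.sum_univ_two] at h0 h1
  rw [Matrix.det_fin_two, h0, h1, mul_zero, sub_zero] at hm
  have h2 : m 1 1 = 4 := by
    generalize m 1 1 = d at hm
    revert d
    decide
  refine ⟨⟨!![1, 4 * m 0 1; 0, 1], by simp [Matrix.det_fin_two]⟩, mul_inv_eq_iff_eq_mul.2 (Subtype.ext ?_)⟩
  change !![1, 4 * m 0 1; 0, 1] * !![2, 0; 0, 4] = m * !![1, 4 * m 0 1; 0, 1]
  rw [Matrix.eta_fin_two m, h0, h1, h2]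
  generalize m 0 1 = a
  revert a
  decide

theorem pl (K : Subgroup M7) (h7 : ¬ 7 ∣ Nat.card K)
    (hE : ∀ u : Fin 2 → ZMod 7, ∃ m ∈ K, m.1.mulVec u = (2 : ZMod 7) • u) :
    ∃ ε : M7 → ℤ, (∀ k ∈ K, ∀ m ∈ K, ε (k * m * k⁻¹) = ε m) ∧ (∀ m ∈ K, ε (m ^ 11) = - ε m) ∧
      (∃ m ∈ K, ε m ≠ 0) ∧ ∀ L : Subgroup M7, (∀ m ∈ K, ∀ m' ∈ K, ∀ u u' : Fin 2 → ZMod 7, u ≠ 0 → u' ≠ 0 →
        m.1.mulVec u = (2 : ZMod 7) • u → m'.1.mulVec u' = (2 : ZMod 7) • u' → m * m'⁻¹ ∈ L) →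
        ∃ y ∈ L, ∃ n, 0 < n ∧ ∀ m ∈ K, ∑ i ∈ Finset.range n, ε (m * y ^ i) = 0 := by
  obtain ⟨m1, hm1, e1⟩ := hE ![1, 0]
  obtain ⟨g, rfl⟩ := pl_norm e1
  obtain ⟨m, hm, e⟩ := hE (g.1.mulVec ![1, 1])
  refine pl_conj g (pl_j (m := g⁻¹ * m * g)
    (fun h => h7 (h.trans (card_comap_dvd_of_injective K _ (MulAut.conj g).injective))) hm1 ?_ ?_)
  · change g * (g⁻¹ * m * g) * g⁻¹ ∈ K
    simpa [mul_assoc] using hm
  · rw [pl_mv, pl_mv, e, Matrix.mulVec_smul, ← pl_mv, inv_mul_cancel, pl_mv1]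

end Cfsg.Agent.AH
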