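import Cfsg.Agent.AH.Pair
import Cfsg.Agent.AH.PL

set_option autoImplicit false

namespace Cfsg.Agent.AH

open Subgroup

universe u

theorem lam {V : Type*} [AddCommGroup V] [Module (ZMod 7) V] [Finite V]
    {b : V →ₗ[ZMod 7] V →ₗ[ZMod 7] ZMod 7} {Γ : Subgroup (V ≃ₗ[ZMod 7] V)} (h : Sp b Γ) (hR : RatG Γ)
    (hm : Sm (Nat.card Γ)) (hE : EP Γ 3) {U : Submodule (ZMod 7) V}
    (h2 : Module.finrank (ZMod 7) U = 2) (hN : Nd b U) (hB : Blk b Γ U) : False := by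
  classical
  obtain ⟨c, ρ, hc, hcU, hρ⟩ := to_sl h h2 hN
  have h30 : (3 : ZMod 7) ≠ 0 := by decide
  have h32 : (3 : ZMod 7) ^ 2 = 2 := by decide
  have h7 : ¬ 7 ∣ Nat.card ρ.range := by
    intro hd
    have a1 : Nat.card ρ.range ∣ Nat.card (Stab Γ U) := card_range_dvd ρ
    have a2 : Nat.card (Stab Γ U) ∣ Nat.card Γ := card_dvd_of_le Stab_le
    have := hm 7 Nat.prime_seven (hd.trans (a1.trans a2))
    omega
  have h11 : Nat.Coprime 11 (Nat.card Γ) := by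
    refine (Nat.Prime.coprime_iff_not_dvd (by norm_num)).2 fun hd => ?_
    have := hm 11 (by norm_num) hd
    omega
  have hev : ∀ (x : Stab Γ U) (u : Fin 2 → ZMod 7), x.1 (c u) = (3 : ZMod 7) ^ 2 • c u →
      (ρ x).1.mulVec u = (2 : ZMod 7) • u := by
    intro x u hx
    apply hc
    rw [hρ, hx, h32, map_smul]
  have hEK : ∀ u : Fin 2 → ZMod 7, ∃ m ∈ ρ.range, m.1.mulVec u = (2 : ZMod 7) • u := by
    intro u
    obtain ⟨x, hx, hxe⟩ := ep_stab hN hB h30 hE ((hcU _).2 ⟨u, rfl⟩)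
    refine ⟨ρ ⟨x * x, (Stab Γ U).mul_mem hx hx⟩, ⟨_, rfl⟩, hev _ _ ?_⟩
    change x (x (c u)) = _
    rw [hxe, map_smul, hxe, smul_smul, pow_two]
  obtain ⟨ε, e1, e2, ⟨m0, ⟨x0, rfl⟩, e3⟩, e4⟩ := pl ρ.range h7 hEK
  let e : (V ≃ₗ[ZMod 7] V) → ℤ := fun x => if hx : x ∈ Stab Γ U then ε (ρ ⟨x, hx⟩) else 0
  have he : ∀ x : Stab Γ U, e x = ε (ρ x) := fun x => dif_pos x.2
  have he0 : ∀ x, x ∉ Stab Γ U → e x = 0 := fun x hx => dif_neg hx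
  refine ind hR h11 ((Stab Γ U).subgroupOf Γ) (fun x => e x.1) (fun x hx => he0 _ hx) ?_ ?_
    ⟨⟨x0.1, x0.2.1⟩, by rw [← he] at e3; exact e3⟩ ?_
  · intro k hk m
    have hk' : k.1 ∈ Stab Γ U := hk
    change e (k.1 * m.1 * k.1⁻¹) = e m.1
    by_cases hm' : m.1 ∈ Stab Γ U
    · have a1 := he (⟨k.1, hk'⟩ * ⟨m.1, hm'⟩ * ⟨k.1, hk'⟩⁻¹)
      have a2 := he ⟨m.1, hm'⟩
      rw [map_mul, map_mul, map_inv, e1 _ ⟨_, rfl⟩ _ ⟨_, rfl⟩] at a1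
      exact a1.trans a2.symm
    · rw [he0 _ hm', he0]
      intro hh
      apply hm'
      have := (Stab Γ U).mul_mem ((Stab Γ U).mul_mem ((Stab Γ U).inv_mem hk') hh) hk'
      rwa [show k.1⁻¹ * (k.1 * m.1 * k.1⁻¹) * k.1 = m.1 by group] at this
  · intro m hm
    have hm' : m.1 ∈ Stab Γ U := hm
    have a1 := he (⟨m.1, hm'⟩ ^ 11)
    have a2 := he ⟨m.1, hm'⟩
    rw [map_pow, e2 _ ⟨_, rfl⟩, ← a2] at a1
    exact a1
  · intro g hg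
    have hg' : g.1 ∉ Stab Γ U := hg
    let T : Subgroup (Stab Γ U) :=
      { carrier := {τ | ∃ hh : g.1⁻¹ * τ.1 * g.1 ∈ Stab Γ U, ρ ⟨_, hh⟩ = 1}
        mul_mem' := by
          rintro a a' ⟨ha, ha1⟩ ⟨ha', ha1'⟩
          have q : g.1⁻¹ * (a * a').1 * g.1 = (g.1⁻¹ * a.1 * g.1) * (g.1⁻¹ * a'.1 * g.1) := by
            rw [Subgroup.coe_mul]; group
          refine ⟨by rw [q]; exact (Stab Γ U).mul_mem ha ha', ?_⟩
          rw [← mul_one (1 : M7)]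
          nth_rewrite 1 [← ha1]
          rw [← ha1', ← map_mul]
          congr 1
          exact Subtype.ext q
        one_mem' := by
          have q : g.1⁻¹ * (1 : Stab Γ U).1 * g.1 = 1 := by
            rw [Subgroup.coe_one]; group
          refine ⟨by rw [q]; exact (Stab Γ U).one_mem, ?_⟩
          rw [← map_one ρ]
          congr 1
          exact Subtype.ext q
        inv_mem' := by
          rintro a ⟨ha, ha1⟩
          have q : g.1⁻¹ * (a⁻¹).1 * g.1 = (g.1⁻¹ * a.1 * g.1)⁻¹ := by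
            rw [Subgroup.coe_inv]; group
          refine ⟨by rw [q]; exact (Stab Γ U).inv_mem ha, ?_⟩
          rw [← inv_one, ← ha1, ← map_inv]
          exact congrArg ρ (Subtype.ext q) }
    have hu1 : c ![1, 0] ∈ U := (hcU _).2 ⟨_, rfl⟩
    have hv1 : (![1, 0] : Fin 2 → ZMod 7) ≠ 0 := by decide
    have hc0 : ∀ u, u ≠ 0 → c u ≠ 0 := fun u hu hh => hu (hc (hh.trans (map_zero c).symm))
    obtain ⟨y, ⟨τ, ⟨hτ, hτ1⟩, rfl⟩, n, hn, hs⟩ := e4 (T.map ρ) (by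
      intro m hm m' hm' u u' hu hu' hmu hmu'
      obtain ⟨x1, hx1, hx1g, hx1u, hx1v⟩ :=
        pair h hN hB h30 hE g.2 hg' ((hcU _).2 ⟨u, rfl⟩) hu1 (hc0 u hu) (hc0 _ hv1)
      obtain ⟨x2, hx2, hx2g, hx2u, hx2v⟩ :=
        pair h hN hB h30 hE g.2 hg' ((hcU _).2 ⟨u', rfl⟩) hu1 (hc0 u' hu') (hc0 _ hv1)
      have b1 : ρ ⟨x1, hx1⟩ = m := uniq h7 ⟨_, rfl⟩ hm hu ((hev ⟨x1, hx1⟩ u hx1u).trans hmu.symm)
      have b2 : ρ ⟨x2, hx2⟩ = m' := uniq h7 ⟨_, rfl⟩ hm' hu' ((hev ⟨x2, hx2⟩ u' hx2u).trans hmu'.symm)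
      have b3 : ρ ⟨_, hx1g⟩ = ρ ⟨_, hx2g⟩ :=
        uniq h7 ⟨_, rfl⟩ ⟨_, rfl⟩ hv1 ((hev ⟨_, hx1g⟩ _ hx1v).trans (hev ⟨_, hx2g⟩ _ hx2v).symm)
      have q : g.1⁻¹ * (x1 * x2⁻¹) * g.1 = (g.1⁻¹ * x1 * g.1) * (g.1⁻¹ * x2 * g.1)⁻¹ := by group
      refine ⟨⟨x1, hx1⟩ * ⟨x2, hx2⟩⁻¹, ⟨?_, ?_⟩, by rw [map_mul, map_inv, b1, b2]⟩
      · change g.1⁻¹ * (x1 * x2⁻¹) * g.1 ∈ _
        rw [q]
        exact (Stab Γ U).mul_mem hx1g ((Stab Γ U).inv_mem hx2g)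
      · rw [← mul_inv_cancel (ρ ⟨_, hx2g⟩)]
        nth_rewrite 1 [← b3]
        rw [← map_inv, ← map_mul]
        congr 1
        exact Subtype.ext q)
    refine ⟨⟨τ.1, τ.2.1⟩, fun m => ?_, n, hn, fun m => ?_⟩
    · change e (g.1⁻¹ * (m.1 * τ.1) * g.1) = e (g.1⁻¹ * m.1 * g.1)
      have q : g.1⁻¹ * (m.1 * τ.1) * g.1 = (g.1⁻¹ * m.1 * g.1) * (g.1⁻¹ * τ.1 * g.1) := by group
      rw [q]
      by_cases hm' : g.1⁻¹ * m.1 * g.1 ∈ Stab Γ U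
      · have a1 := he (⟨_, hm'⟩ * ⟨_, hτ⟩)
        have a2 := he ⟨_, hm'⟩
        rw [map_mul, hτ1, mul_one] at a1
        exact a1.trans a2.symm
      · rw [he0 _ hm', he0]
        exact fun hh => hm' (((Stab Γ U).mul_mem_cancel_right hτ).1 hh)
    · change ∑ i ∈ Finset.range n, e (m.1 * τ.1 ^ i) = 0
      by_cases hm' : m.1 ∈ Stab Γ U
      · rw [← hs (ρ ⟨_, hm'⟩) ⟨_, rfl⟩]
        refine Finset.sum_congr rfl fun i _ => ?_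
        have a1 := he (⟨_, hm'⟩ * τ ^ i)
        rw [map_mul, map_pow] at a1
        exact a1
      · refine Finset.sum_eq_zero fun i _ => he0 _ fun hh => hm' ?_
        exact ((Stab Γ U).mul_mem_cancel_right ((Stab Γ U).pow_mem τ.2 i)).1 hh

end Cfsg.Agent.AH
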