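import Cfsg.Agent.AH.Defs

set_option autoImplicit false

namespace Cfsg.Agent.AH

open Subgroup

universe u

/-- the element `diag(2,4)` -/
def j0 : M7 := ⟨!![2, 0; 0, 4], by decide⟩

variable {K : Subgroup M7}

namespace PL0

/-- the coefficients of a power in terms of the matrix and the identity -/
def ch (t : ZMod 7) : ℕ → ZMod 7 × ZMod 7
  | 0 => (0, 1)
  | n + 1 => ((ch t n).1 * t + (ch t n).2, -(ch t n).1)

theorem det_en (m : M7) : m.1 0 0 * m.1 1 1 - m.1 0 1 * m.1 1 0 = 1 := by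
  rw [← Matrix.det_fin_two]; exact m.2

theorem sq_eq (m : M7) : m.1 * m.1 = m.1.trace • m.1 - 1 := by
  have h := det_en m
  ext i j
  fin_cases i <;> fin_cases j <;>
    simp [Matrix.mul_apply, Fin.sum_univ_two, Matrix.trace_fin_two] <;>
    first | ring1 | linear_combination -h

theorem pow_eq (m : M7) (n : ℕ) :
    (m ^ n).1 = (ch m.1.trace n).1 • m.1 + (ch m.1.trace n).2 • (1 : Matrix (Fin 2) (Fin 2) (ZMod 7)) := by
  induction n with
  | zero => simp [ch]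
  | succ n ih =>
    rw [pow_succ, Matrix.SpecialLinearGroup.coe_mul, ih, add_mul, smul_mul_assoc, smul_mul_assoc, sq_eq, one_mul]
    simp only [ch]
    module

theorem pow_one' {m : M7} {n : ℕ} (h : ch m.1.trace n = (0, 1)) : m ^ n = 1 :=
  Subtype.ext (by rw [pow_eq, h]; simp)

theorem sev (h7 : ¬ 7 ∣ Nat.card K) {m : M7} (hm : m ∈ K) (h : m ^ 7 = 1) : m = 1 := by
  by_contra k
  exact h7 ((orderOf_eq_prime h k).symm.dvd.trans (K.orderOf_dvd_natCard hm))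

/-- quadruples of entries -/
abbrev Q4 : Type := ZMod 7 × ZMod 7 × ZMod 7 × ZMod 7

/-- the entries -/
def en (m : M7) : Q4 := (m.1 0 0, m.1 0 1, m.1 1 0, m.1 1 1)
/-- product -/
def mu (x y : Q4) : Q4 := (x.1 * y.1 + x.2.1 * y.2.2.1, x.1 * y.2.1 + x.2.1 * y.2.2.2,
  x.2.2.1 * y.1 + x.2.2.2 * y.2.2.1, x.2.2.1 * y.2.1 + x.2.2.2 * y.2.2.2)
/-- inverse -/
def iv (x : Q4) : Q4 := (x.2.2.2, -x.2.1, -x.2.2.1, x.1)
/-- trace -/
def tr (x : Q4) : ZMod 7 := x.1 + x.2.2.2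

theorem en_inj {m m' : M7} : m = m' ↔ en m = en m' := by
  refine ⟨congrArg en, fun h => Subtype.ext ?_⟩
  simp only [en, Prod.mk.injEq] at h
  ext i j
  fin_cases i <;> fin_cases j
  exacts [h.1, h.2.1, h.2.2.1, h.2.2.2]

theorem en_mul (m m' : M7) : en (m * m') = mu (en m) (en m') := by
  simp [en, mu, Matrix.mul_apply, Fin.sum_univ_two]

theorem en_inv (m : M7) : en m⁻¹ = iv (en m) := by
  simp [en, iv, Matrix.SpecialLinearGroup.coe_inv, Matrix.adjugate_fin_two]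

theorem en_one : en 1 = (1, 0, 0, 1) := by decide
theorem en_neg : en (-1) = (6, 0, 0, 6) := by decide
theorem en_j0 : en j0 = (2, 0, 0, 4) := by decide
theorem tr_en (m : M7) : m.1.trace = tr (en m) := Matrix.trace_fin_two _

end PL0

open PL0

theorem tr_two (h7 : ¬ 7 ∣ Nat.card K) {m : M7} (hm : m ∈ K) :
    (m.1.trace = 2 → m = 1) ∧ (m.1.trace = -2 → m = -1) := by
  refine ⟨fun h => sev h7 hm (pow_one' (by rw [h]; decide)), fun h => ?_⟩
  have h1 : m ^ 2 = 1 := sev h7 (pow_mem hm 2) (by rw [← pow_mul]; exact pow_one' (by rw [h]; decide))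
  rw [pow_two, en_inj, en_mul, en_one] at h1
  rw [tr_en] at h
  have h2 := det_en m
  rw [en_inj, en_neg]
  unfold en at *
  generalize m.1 0 0 = a, m.1 0 1 = b, m.1 1 0 = c, m.1 1 1 = d at *
  revert a b c d
  decide +kernel

theorem uniq (h7 : ¬ 7 ∣ Nat.card K) {m m' : M7} (hm : m ∈ K) (hm' : m' ∈ K) {u : Fin 2 → ZMod 7}
    (hu : u ≠ 0) (h : m.1.mulVec u = m'.1.mulVec u) : m = m' := by
  have h1 : (m'⁻¹ * m).1.mulVec u = u := by
    rw [Matrix.SpecialLinearGroup.coe_mul, ← Matrix.mulVec_mulVec, h, Matrix.mulVec_mulVec,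
      ← Matrix.SpecialLinearGroup.coe_mul, inv_mul_cancel, Matrix.SpecialLinearGroup.coe_one, Matrix.one_mulVec]
  have h2 := congrArg (·.mulVec u) (sq_eq (m'⁻¹ * m))
  simp only [← Matrix.mulVec_mulVec, h1, Matrix.sub_mulVec, Matrix.smul_mulVec, Matrix.one_mulVec] at h2
  have h3 : ((m'⁻¹ * m).1.trace - 2) • u = 0 := by
    rw [sub_smul, two_smul, sub_eq_zero]
    exact (eq_sub_iff_add_eq.1 h2).symm
  exact (inv_mul_eq_one.1 ((tr_two h7 (mul_mem (inv_mem hm') hm)).1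
    (sub_eq_zero.1 ((smul_eq_zero.1 h3).resolve_right hu)))).symm

theorem tr_eleven (m : M7) : ((m ^ 11).1.trace = 3 ↔ m.1.trace = 4) ∧ ((m ^ 11).1.trace = 4 ↔ m.1.trace = 3) := by
  rw [pow_eq, Matrix.trace_add, Matrix.trace_smul, Matrix.trace_smul, Matrix.trace_one]
  generalize m.1.trace = t
  revert t
  decide +kernel

theorem pow_twelve (h7 : ¬ 7 ∣ Nat.card K) {m : M7} (hm : m ∈ K) (h3 : m.1.trace ≠ 3)
    (h4 : m.1.trace ≠ 4) : m ^ 12 = 1 := by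
  rcases (by decide +kernel : ∀ t : ZMod 7, t ≠ 3 → t ≠ 4 → t = 2 ∨ t = -2 ∨ ch t 12 = (0, 1)) _ h3 h4 with h | h | h
  · rw [(tr_two h7 hm).1 h, one_pow]
  · rw [(tr_two h7 hm).2 h]; exact Even.neg_one_pow (by decide)
  · exact pow_one' h

set_option synthInstance.maxSize 100000 in
set_option synthInstance.maxHeartbeats 400000 in
theorem jj (h7 : ¬ 7 ∣ Nat.card K) (hj : j0 ∈ K) {m : M7} (hm : m ∈ K)
    (h : m.1.mulVec ![1, 1] = (2 : ZMod 7) • ![1, 1]) :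
    ((j0 * m⁻¹) ^ 2 = -1 ∨ (j0⁻¹ * m⁻¹) ^ 2 = -1) ∧ ∀ k : M7, k * j0 * k⁻¹ = j0⁻¹ →
      ∃ w ∈ ({m, j0 * m, j0⁻¹ * m} : Set M7), (k * w).1.trace = 3 := by
  have h1 := tr_two h7 (mul_mem hj (inv_mem hm))
  have h2 := tr_two h7 (mul_mem (inv_mem hj) (inv_mem hm))
  have h3 := tr_two h7 (mul_mem (mul_mem (mul_mem hj hm) (inv_mem hj)) (inv_mem hm))
  have h4 : m.1 0 0 + m.1 0 1 = 2 := by simpa [Matrix.mulVec, dotProduct] using congrFun h 0
  have h5 : m.1 1 0 + m.1 1 1 = 2 := by simpa [Matrix.mulVec, dotProduct] using congrFun h 1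
  have h6 := det_en m
  simp only [Set.mem_insert_iff, Set.mem_singleton_iff, exists_eq_or_imp, exists_eq_left]
  simp only [pow_two, tr_en, en_inj, en_mul, en_inv, en_one, en_neg, en_j0] at h1 h2 h3 ⊢
  have key : ∀ a b c d : ZMod 7, a + b = 2 → c + d = 2 → a * d - b * c = 1 → ∀ x : Q4, x = (a, b, c, d) →
      ((tr (mu (2, 0, 0, 4) (iv x)) = 2 → mu (2, 0, 0, 4) (iv x) = (1, 0, 0, 1)) ∧
        (tr (mu (2, 0, 0, 4) (iv x)) = -2 → mu (2, 0, 0, 4) (iv x) = (6, 0, 0, 6))) →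
      ((tr (mu (iv (2, 0, 0, 4)) (iv x)) = 2 → mu (iv (2, 0, 0, 4)) (iv x) = (1, 0, 0, 1)) ∧
        (tr (mu (iv (2, 0, 0, 4)) (iv x)) = -2 → mu (iv (2, 0, 0, 4)) (iv x) = (6, 0, 0, 6))) →
      ((tr (mu (mu (mu (2, 0, 0, 4) x) (iv (2, 0, 0, 4))) (iv x)) = 2 →
          mu (mu (mu (2, 0, 0, 4) x) (iv (2, 0, 0, 4))) (iv x) = (1, 0, 0, 1)) ∧
        (tr (mu (mu (mu (2, 0, 0, 4) x) (iv (2, 0, 0, 4))) (iv x)) = -2 →
          mu (mu (mu (2, 0, 0, 4) x) (iv (2, 0, 0, 4))) (iv x) = (6, 0, 0, 6))) →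
      (mu (mu (2, 0, 0, 4) (iv x)) (mu (2, 0, 0, 4) (iv x)) = (6, 0, 0, 6) ∨
        mu (mu (iv (2, 0, 0, 4)) (iv x)) (mu (iv (2, 0, 0, 4)) (iv x)) = (6, 0, 0, 6)) ∧
      ∀ p q r s : ZMod 7, mu (mu (p, q, r, s) (2, 0, 0, 4)) (iv (p, q, r, s)) = iv (2, 0, 0, 4) →
        p * s - q * r = 1 → (tr (mu (p, q, r, s) x) = 3 ∨ tr (mu (p, q, r, s) (mu (2, 0, 0, 4) x)) = 3 ∨
          tr (mu (p, q, r, s) (mu (iv (2, 0, 0, 4)) x)) = 3) := by
    intro a b c d k1 k2 k3 x hx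
    subst hx
    revert a b c d
    decide +kernel
  obtain ⟨k1, k2⟩ := key _ _ _ _ h4 h5 h6 _ rfl h1 h2 h3
  exact ⟨k1, fun k hk => k2 _ _ _ _ hk (det_en k)⟩

theorem cen_j0 (k : M7) (h : k * j0 = j0 * k) : k ∈ zpowers j0 ∨ -k ∈ zpowers j0 := by
  have h1 : k = 1 ∨ k = j0 ∨ k = j0⁻¹ ∨ k = -1 ∨ k = -1 * j0 ∨ k = -1 * j0⁻¹ := by
    have h2 := det_en k
    simp only [en_inj, en_mul, en_inv, en_one, en_neg, en_j0] at h ⊢
    unfold en at *
    generalize k.1 0 0 = a, k.1 0 1 = b, k.1 1 0 = c, k.1 1 1 = d at *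
    revert a b c d
    decide +kernel
  rcases h1 with rfl | rfl | rfl | rfl | rfl | rfl
  · exact .inl (one_mem _)
  · exact .inl (mem_zpowers _)
  · exact .inl (inv_mem (mem_zpowers _))
  · exact .inr (by simp)
  · exact .inr (by simp)
  · exact .inr (by simp)

end Cfsg.Agent.AH
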