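import Cfsg.Agent.AH.BasL

set_option autoImplicit false

namespace Cfsg.Agent.AH

open Subgroup

universe u

section grp

variable {A : Type*} [Group A] {z : A} (hz : ∀ a, a * z = z * a) (hzz : z * z = 1)
include hz hzz

theorem qq_sq {x i : A} (h : x * i * x⁻¹ = i ∨ x * i * x⁻¹ = z * i) : x ^ 2 * i = i * x ^ 2 := by
  have e : x ^ 2 * i * (x ^ 2)⁻¹ = i := by
    have e1 : x ^ 2 * i * (x ^ 2)⁻¹ = x * (x * i * x⁻¹) * x⁻¹ := by rw [pow_two]; group
    rcases h with h | h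
    · rw [e1, h, h]
    · rw [e1, h, ← mul_assoc, hz x, mul_assoc z, mul_assoc z, h, ← mul_assoc, hzz, one_mul]
  exact mul_inv_eq_iff_eq_mul.1 e

theorem qq_zsq (a : A) : z * a * (z * a) = a * a := by
  rw [mul_assoc, ← mul_assoc a, hz a, ← mul_assoc, ← mul_assoc, hzz, one_mul]

omit hz in
theorem qq_inv {i : A} (hi : i * i = z) : i⁻¹ = z * i := by
  rw [inv_eq_iff_mul_eq_one, ← hi, ← mul_assoc, ← mul_assoc, mul_assoc (i * i), hi, hzz]

omit hz in
theorem qq_pm {a a' t : A} (h : a = t ∨ a = z * t) (h' : a' = t ∨ a' = z * t) :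
    a = a' ∨ a = z * a' := by
  rcases h with rfl | rfl <;> rcases h' with rfl | rfl
  · exact Or.inl rfl
  · exact Or.inr (by rw [← mul_assoc, hzz, one_mul])
  · exact Or.inr rfl
  · exact Or.inl rfl

omit hz in
theorem qq_cen (h1 : z ≠ 1) {C : Subgroup A} (hs : ∀ e ∈ C, e = 1 ∨ e = z ∨ e * e = z) {i e : A}
    (hi : i ∈ C) (hii : i * i = z) (he : e ∈ C) (h : e * i = i * e) :
    e = 1 ∨ e = z ∨ e = i ∨ e = z * i := by
  rcases hs e he with h2 | h2 | h2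
  · exact Or.inl h2
  · exact Or.inr (Or.inl h2)
  rcases hs _ (C.mul_mem he hi) with h3 | h3 | h3
  · exact Or.inr (Or.inr (Or.inr (by rw [eq_inv_of_mul_eq_one_left h3, qq_inv hzz hii])))
  · exact Or.inr (Or.inr (Or.inl (by
      rw [eq_mul_inv_of_mul_eq h3, qq_inv hzz hii, ← mul_assoc, hzz, one_mul])))
  · refine absurd ?_ h1
    rw [← h3, mul_assoc, ← mul_assoc i, ← h, mul_assoc, ← mul_assoc, h2, hii, hzz]

theorem qq_q8 (h1 : z ≠ 1) {C : Subgroup A} (hs : ∀ e ∈ C, e = 1 ∨ e = z ∨ e * e = z)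
    (hc : ∀ e ∈ C, ∀ f ∈ C, e * f = f * e ∨ e * f = z * (f * e)) {i j : A}
    (hi : i ∈ C) (hii : i * i = z) (hj : j ∈ C) (hjj : j * j = z) (hij : i * j = z * (j * i)) :
    ∀ e ∈ C, Q8m z i j e := by
  intro e he
  rcases hc e he i hi with h | h
  · rcases qq_cen hzz h1 hs hi hii he h with h | h | h | h
    exacts [Or.inl h, Or.inr (Or.inl h), Or.inr (Or.inr (Or.inl h)),
      Or.inr (Or.inr (Or.inr (Or.inl h)))]
  have hji : j * i = z * (i * j) := by rw [hij, ← mul_assoc, hzz, one_mul]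
  have e1 : e * j * i = i * (e * j) := by
    rw [mul_assoc, hji, ← mul_assoc, hz e, mul_assoc, ← mul_assoc e, h, mul_assoc z, ← mul_assoc z,
      hzz, one_mul, mul_assoc]
  have e2 : e = e * j * (z * j) := by rw [← qq_inv hzz hjj, mul_inv_cancel_right]
  refine Or.inr (Or.inr (Or.inr (Or.inr ?_)))
  rcases qq_cen hzz h1 hs hi hii (C.mul_mem he hj) e1 with h | h | h | h <;> rw [h] at e2
  · exact Or.inr (Or.inl (by rw [e2, one_mul]))
  · exact Or.inl (by rw [e2, ← mul_assoc, hzz, one_mul])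
  · exact Or.inr (Or.inr (Or.inr (by rw [e2, ← mul_assoc, hz i, mul_assoc])))
  · exact Or.inr (Or.inr (Or.inl (by
      rw [e2, mul_assoc, ← mul_assoc i, hz i, mul_assoc, ← mul_assoc, hzz, one_mul])))

theorem qq_twelve (h1 : z ≠ 1) {i j x : A} (hii : i * i = z)
    (h : ∀ k : ℕ, Q8m z i j (x ^ k * i * (x ^ k)⁻¹)) : x ^ 12 * i = i * x ^ 12 := by
  have h2 : ∀ k : Fin 4, ∃ m : Fin 3, x ^ k.1 * i * (x ^ k.1)⁻¹ = ![i, j, i * j] m ∨
      x ^ k.1 * i * (x ^ k.1)⁻¹ = z * ![i, j, i * j] m := fun k => by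
    have e : x ^ k.1 * i * (x ^ k.1)⁻¹ * (x ^ k.1 * i * (x ^ k.1)⁻¹) = z := by
      rw [show x ^ k.1 * i * (x ^ k.1)⁻¹ * (x ^ k.1 * i * (x ^ k.1)⁻¹) =
        x ^ k.1 * (i * i) * (x ^ k.1)⁻¹ by group, hii, hz, mul_inv_cancel_right]
    rcases h k.1 with h | h | h | h | h | h | h | h
    · rw [h, one_mul] at e; exact absurd e.symm h1
    · rw [h, hzz] at e; exact absurd e.symm h1
    exacts [⟨0, Or.inl h⟩, ⟨0, Or.inr h⟩, ⟨1, Or.inl h⟩, ⟨1, Or.inr h⟩, ⟨2, Or.inl h⟩,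
      ⟨2, Or.inr h⟩]
  choose f hf using h2
  have key : ∀ a c : Fin 4, a < c → f a = f c → x ^ 12 * i = i * x ^ 12 := fun a c hac e => by
    obtain ⟨d, hd⟩ : ∃ d : ℕ, c.1 = a.1 + d := ⟨c.1 - a.1, by have : a.1 < c.1 := hac; omega⟩
    have h3 := qq_pm hzz (hf c) (e ▸ hf a)
    have h4 : x ^ d * i * (x ^ d)⁻¹ = i ∨ x ^ d * i * (x ^ d)⁻¹ = z * i := by
      have e1 : x ^ c.1 * i * (x ^ c.1)⁻¹ = x ^ a.1 * (x ^ d * i * (x ^ d)⁻¹) * (x ^ a.1)⁻¹ := by
        rw [hd, pow_add]; group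
      rw [e1] at h3
      rcases h3 with h3 | h3
      · exact Or.inl (mul_left_cancel (mul_right_cancel h3))
      · rw [← mul_assoc z, ← mul_assoc z, ← hz (x ^ a.1), mul_assoc _ z] at h3
        exact Or.inr (mul_left_cancel (mul_right_cancel h3))
    have h5 : Commute ((x ^ d) ^ 2) i := qq_sq hz hzz h4
    have h6 : d = 1 ∨ d = 2 ∨ d = 3 := by have : a.1 < c.1 := hac; have := c.2; omega
    rcases h6 with rfl | rfl | rfl
    · have := (h5.pow_left 6).eq; rwa [← pow_mul, ← pow_mul] at this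
    · have := (h5.pow_left 3).eq; rwa [← pow_mul, ← pow_mul] at this
    · have := (h5.pow_left 2).eq; rwa [← pow_mul, ← pow_mul] at this
  obtain ⟨a, c, hac, e⟩ := Fintype.exists_ne_map_eq_of_card_lt f (by simp)
  rcases lt_or_gt_of_ne hac with h3 | h3
  exacts [key a c h3 e, key c a h3 e.symm]

end grp

variable {F V : Type*} [Field F] [AddCommGroup V] [Module F V] {b : V →ₗ[F] V →ₗ[F] F}
  {Γ : Subgroup (V ≃ₗ[F] V)}

theorem qq (h2 : (2 : F) ≠ 0) (h : Sp b Γ) {ζ : F} (hζ : ζ ^ 4 ≠ 1) (hE : EP Γ ζ)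
    {C : Subgroup (V ≃ₗ[F] V)} (hC : C ≤ Γ) (hn : ∀ g ∈ Γ, ∀ e ∈ C, g * e * g⁻¹ ∈ C)
    (hc : ∀ e ∈ C, ∀ f ∈ C, e * f = f * e ∨ e * f = ng * (f * e))
    (hs : ∀ e ∈ C, e = 1 ∨ e = ng ∨ e * e = ng) :
    (∀ e ∈ C, e = 1 ∨ e = ng) ∨ (ζ ^ 24 = 1 ∧ ∃ i ∈ C, ∃ j ∈ C, i * i = ng ∧ j * j = ng ∧
      i * j = ng * (j * i) ∧ ∀ e ∈ C, Q8m ng i j e) := by
  rcases subsingleton_or_nontrivial V with hV | hV
  · exact Or.inl fun e _ => Or.inl (LinearEquiv.ext fun _ => Subsingleton.elim _ _)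
  have h1 : (ng : V ≃ₗ[F] V) ≠ 1 := ng_ne_one h2
  by_cases hall : ∀ e ∈ C, e = 1 ∨ e = ng
  · exact Or.inl hall
  right
  push Not at hall
  obtain ⟨i, hi, hi1, hi2⟩ := hall
  have hii : i * i = ng := ((hs i hi).resolve_left hi1).resolve_left hi2
  have no : ∀ n : ℕ, (ζ ^ n) ^ 2 ≠ 1 → ¬ ∀ x ∈ Γ, x ^ n * i = i * x ^ n := fun n hn' hx => by
    refine h1 (hii.symm.trans (h.QL (hC hi) fun v => ?_))
    obtain ⟨x, hx', e⟩ := hE v
    exact h.q_zero (Γ.pow_mem hx' n) (hx x hx') (pow_eig e n) hn'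
  have sq : ∀ x : V ≃ₗ[F] V, x * i * x⁻¹ * (x * i * x⁻¹) = ng := fun x => by
    rw [show x * i * x⁻¹ * (x * i * x⁻¹) = x * (i * i) * x⁻¹ by group, hii, ng_comm,
      mul_inv_cancel_right]
  obtain ⟨j, hj, hjj, hij⟩ : ∃ j ∈ C, j * j = ng ∧ i * j = ng * (j * i) := by
    by_contra hno
    refine no 2 (by rwa [← pow_mul]) fun x hx => qq_sq ng_comm ng_mul_ng ?_
    have hm := hn x hx i hi
    rcases hc i hi _ hm with e | e
    · rcases qq_cen ng_mul_ng h1 hs hi hii hm e.symm with e1 | e1 | e1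
      · have := sq x
        rw [e1, one_mul] at this
        exact absurd this.symm h1
      · have := sq x
        rw [e1, ng_mul_ng] at this
        exact absurd this.symm h1
      · exact e1
    · exact absurd ⟨_, hm, sq x, e⟩ hno
  have q8 := qq_q8 ng_comm ng_mul_ng h1 hs hc hi hii hj hjj hij
  refine ⟨?_, i, hi, j, hj, hii, hjj, hij, q8⟩
  by_contra h24
  exact no 12 (by rwa [← pow_mul]) fun x hx =>
    qq_twelve ng_comm ng_mul_ng h1 hii fun k => q8 _ (hn _ (Γ.pow_mem hx k) i hi)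

theorem d8 [Nontrivial V] (h2 : (2 : F) ≠ 0) (h : Sp b Γ) {ζ : F} (hζ : ζ ^ 4 ≠ 1)
    {C : Subgroup (V ≃ₗ[F] V)} (hC : C ≤ Γ) (hn : ∀ g ∈ Γ, ∀ e ∈ C, g * e * g⁻¹ ∈ C)
    (hE : ∀ w, (∀ c ∈ C, c w = w → c = 1) → ∃ x ∈ Γ, x w = ζ • w)
    {a s : V ≃ₗ[F] V} (ha : a ∈ C) (hs : s ∈ C) (haa : a * a = 1) (hss : s * s = 1)
    (has : a * s = ng * (s * a)) (hall : ∀ e ∈ C, Q8m ng a s e) : False := by
  have h1 : (ng : V ≃ₗ[F] V) ≠ 1 := ng_ne_one h2
  have hsa : s * a = ng * (a * s) := by rw [has, ← mul_assoc, ng_mul_ng, one_mul]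
  have zs := qq_zsq (A := V ≃ₗ[F] V) ng_comm ng_mul_ng
  have rr : a * s * (a * s) = ng := by
    rw [mul_assoc, ← mul_assoc s, hsa, mul_assoc ng, mul_assoc a s, hss, mul_one, ← mul_assoc,
      ng_comm, mul_assoc, haa, mul_one]
  have ar : a * (a * s) = ng * (a * s * a) := by
    rw [mul_assoc a s, hsa, ← mul_assoc a ng, ng_comm, mul_assoc ng, ← mul_assoc ng, ng_mul_ng,
      one_mul]
  have sr : s * (a * s) = ng * (a * s * s) := by rw [← mul_assoc, hsa, mul_assoc]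
  have zr : ∀ c : V ≃ₗ[F] V, c * (a * s) = ng * (a * s * c) →
      ng * c * (a * s) = ng * (a * s * (ng * c)) := fun c hc => by
    rw [mul_assoc, hc, ← mul_assoc (a * s), ng_comm, mul_assoc ng (a * s)]
  have hr := C.mul_mem ha hs
  unfold Q8m at hall
  generalize a * s = r at *
  have zero : ∀ w : V, -w = w → w = 0 :=
    fun w hw => by
      have : (2 : F) • w = 0 := by rw [two_smul]; nth_rewrite 1 [← hw]; exact neg_add_cancel w
      exact (smul_eq_zero.1 this).resolve_left h2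
  refine h1 (rr.symm.trans (h.QL (hC hr) fun w => ?_))
  by_cases hw : ∀ c ∈ C, c w = w → c = 1
  · obtain ⟨x, hx, e⟩ := hE w hw
    refine h.q_zero (Γ.pow_mem hx 2) (qq_sq ng_comm ng_mul_ng ?_) (pow_eig e 2) (by rwa [← pow_mul])
    have sq : x * r * x⁻¹ * (x * r * x⁻¹) = ng := by
      rw [show x * r * x⁻¹ * (x * r * x⁻¹) = x * (r * r) * x⁻¹ by group, rr, ng_comm,
        mul_inv_cancel_right]
    rcases hall _ (hn x hx r hr) with e | e | e | e | e | e | e <;> try exact e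
    all_goals
      rw [e] at sq
      simp only [zs, haa, hss, one_mul, ng_mul_ng] at sq
      exact absurd sq.symm h1
  push Not at hw
  obtain ⟨c, hc, hcw, hc1⟩ := hw
  have A : c * c = ng → b w (r w) = 0 := fun e => by
    have : (c * c) w = w := by rw [LinearEquiv.mul_apply, hcw, hcw]
    rw [e, ng_apply] at this
    rw [zero w this, map_zero, LinearMap.zero_apply]
  have B : c * r = ng * (r * c) → b w (r w) = 0 := fun e => by
    have e1 := h.inv c (hC hc) w (r w)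
    have e2 : c (r w) = -r w := by
      rw [← LinearEquiv.mul_apply, e, LinearEquiv.mul_apply, LinearEquiv.mul_apply, hcw, ng_apply]
    rw [hcw, e2, map_neg] at e1
    exact (mul_eq_zero.1 (show 2 * b w (r w) = 0 by linear_combination -e1)).resolve_left h2
  rcases hall c hc with e | e | e | e | e | e | e | e
  · exact absurd e hc1
  · rw [e, ng_apply] at hcw
    rw [zero w hcw, map_zero, LinearMap.zero_apply]
  · exact B (by rw [e]; exact ar)
  · exact B (by rw [e]; exact zr a ar)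
  · exact B (by rw [e]; exact sr)
  · exact B (by rw [e]; exact zr s sr)
  · exact A (by rw [e, rr])
  · exact A (by rw [e, zs, rr])

end Cfsg.Agent.AH
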