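import Cfsg.Agent.AH.QQ

set_option autoImplicit false
set_option linter.unusedSectionVars false

namespace Cfsg.Agent.AH

open Subgroup

universe u

variable {p : ℕ} [Fact p.Prime] {V : Type u} [AddCommGroup V] [Module (ZMod p) V] [Finite V]
  {b : V →ₗ[ZMod p] V →ₗ[ZMod p] ZMod p} {Γ : Subgroup (V ≃ₗ[ZMod p] V)} {ζ : ZMod p} {E A : Subgroup (V ≃ₗ[ZMod p] V)}

/-- stabilizer in `E` of a vector -/
def xa1_stab (E : Subgroup (V ≃ₗ[ZMod p] V)) (u : V) : Subgroup (V ≃ₗ[ZMod p] V) where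
  carrier := {e | e ∈ E ∧ e u = u}
  mul_mem' := fun {a c} ha hc => ⟨E.mul_mem ha.1 hc.1, by
    show a (c u) = u
    rw [hc.2, ha.2]⟩
  one_mem' := ⟨E.one_mem, rfl⟩
  inv_mem' := fun {a} ha => ⟨E.inv_mem ha.1, by
    have h1 : a⁻¹ (a u) = u := a.symm_apply_apply u
    rwa [ha.2] at h1⟩

theorem xa1_mem_stab {u : V} {e : V ≃ₗ[ZMod p] V} : e ∈ xa1_stab E u ↔ e ∈ E ∧ e u = u := Iff.rfl

theorem xa1_two (hp : 7 ≤ p) : (2 : ZMod p) ≠ 0 := by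
  intro h
  have h1 : ((2 : ℕ) : ZMod p) = 0 := by exact_mod_cast h
  rw [ZMod.natCast_eq_zero_iff] at h1
  have := Nat.le_of_dvd (by norm_num) h1
  omega

theorem exists_MX [Nontrivial V] (E : Subgroup (V ≃ₗ[ZMod p] V)) : ∃ A, MX E A := by
  classical
  haveI : Nonempty {u : V // u ≠ 0} := by
    obtain ⟨u, hu⟩ := exists_ne (0 : V)
    exact ⟨⟨u, hu⟩⟩
  obtain ⟨u, hu⟩ := Finite.exists_max (fun u : {u : V // u ≠ 0} => Nat.card (xa1_stab E u.1))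
  refine ⟨xa1_stab E u.1, fun e he => he.1, ?_, ?_⟩
  · intro h0
    have h1 : u.1 ∈ Fix (xa1_stab E u.1) := fun x hx => hx.2
    rw [h0, Submodule.mem_bot] at h1
    exact u.2 h1
  · intro w hw hw0 e he hew
    have hle : xa1_stab E u.1 ≤ xa1_stab E w := fun x hx => ⟨hx.1, hw x hx⟩
    have heq : xa1_stab E u.1 = xa1_stab E w :=
      Subgroup.eq_of_le_of_card_ge hle (hu ⟨w, hw0⟩)
    rw [heq]
    exact ⟨he, hew⟩

theorem XE.card_ne (hp : 7 ≤ p) (hX : XE ng Γ E) {L : Subgroup (V ≃ₗ[ZMod p] V)} (hL : L ≤ E) :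
    (Nat.card L : ZMod p) ≠ 0 := by
  have hP : IsPGroup 2 L := by
    intro x
    refine ⟨2, Subtype.ext ?_⟩
    have h4 : x.1 ^ 2 ^ 2 = (x.1 * x.1) * (x.1 * x.1) := by
      rw [show (2 : ℕ) ^ 2 = 2 + 2 from rfl, pow_add, pow_two]
    rw [SubgroupClass.coe_pow, h4, OneMemClass.coe_one]
    rcases hX.sq x.1 (hL x.2) with h | h
    · rw [h, one_mul]
    · rw [h, ng_mul_ng]
  haveI : Fact (Nat.Prime 2) := ⟨Nat.prime_two⟩
  obtain ⟨n, hn⟩ := IsPGroup.iff_card.1 hP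
  rw [hn, Nat.cast_pow]
  exact pow_ne_zero _ (by exact_mod_cast xa1_two hp)

theorem MX.elem (hp : 7 ≤ p) (hX : XE ng Γ E) (hA : MX E A) :
    ng ∉ A ∧ (∀ a ∈ A, a * a = 1) ∧ ∀ a ∈ A, ∀ a' ∈ A, a * a' = a' * a := by
  have h0 : ng ∉ A := by
    intro hn
    obtain ⟨u, hu, hu0⟩ := Submodule.exists_mem_ne_zero_of_ne_bot hA.ne
    have h1 : -u = u := hu ng hn
    have h2 : (2 : ZMod p) • u = 0 := by
      rw [two_smul]
      nth_rewrite 1 [← h1]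
      exact neg_add_cancel u
    exact hu0 ((smul_eq_zero.1 h2).resolve_left (xa1_two hp))
  refine ⟨h0, fun a ha => ?_, fun a ha a' ha' => ?_⟩
  · rcases hX.sq a (hA.le ha) with h | h
    · exact h
    · exact absurd (h ▸ A.mul_mem ha ha) h0
  · rcases hX.comm a (hA.le ha) a' (hA.le ha') with h | h
    · exact h
    · exfalso
      apply h0
      have h1 : ng = a * a' * (a' * a)⁻¹ := by rw [h, mul_inv_cancel_right]
      rw [h1]
      exact A.mul_mem (A.mul_mem ha ha') (A.inv_mem (A.mul_mem ha' ha))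

theorem xa1 (hp : 7 ≤ p) (h : Sp b Γ) (hζ : IsPrimitiveRoot ζ (p - 1)) (hE : EP Γ ζ)
    (hX : XE ng Γ E) (hA : MX E A) :
    (∀ e ∈ E, (∀ a ∈ A, e * a = a * e) → e ∈ A ∨ ng * e ∈ A) ∨
    ((p = 7 ∨ p = 13) ∧ ∃ i ∈ E, ∃ j ∈ E, (∀ a ∈ A, i * a = a * i) ∧ (∀ a ∈ A, j * a = a * j) ∧
      i * i = ng ∧ j * j = ng ∧ i * j = ng * (j * i) ∧
      ∀ e ∈ E, (∀ a ∈ A, e * a = a * e) → ∃ a ∈ A, Q8m ng i j (a * e)) := by
  classical
  obtain ⟨hζ0, -, hζ4, -, -, -, -, hζ24⟩ := prim_pow hp hζ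
  have h2 := xa1_two hp
  have hU : Nd b (Fix A) := h.fix_nd (hA.le.trans hX.le) (hX.card_ne hp hA.le)
  obtain ⟨u0, hu0, hu00⟩ := Submodule.exists_mem_ne_zero_of_ne_bot hA.ne
  haveI : Nontrivial (Fix A) := ⟨⟨⟨u0, hu0⟩, 0, fun e => hu00 (congrArg Subtype.val e)⟩⟩
  obtain ⟨r, hr⟩ := exists_res (Stab Γ (Fix A)) (Fix A) (fun x hx => (mem_Stab.1 hx).2)
  have hS := h.res Stab_le hU hr
  -- conjugates of elements of `A` by elements keeping a nonzero fixed vector fixed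
  have hconj : ∀ x ∈ Γ, ∀ u ∈ Fix A, u ≠ 0 → x u ∈ Fix A → ∀ a ∈ A, x⁻¹ * a * x ∈ A := by
    intro x hx u hu hu' hxu a ha
    have h1 : x⁻¹ * a * x ∈ E := by
      have := hX.nm x⁻¹ (Γ.inv_mem hx) a (hA.le ha)
      rwa [inv_inv] at this
    refine hA.max u hu hu' _ h1 ?_
    show x⁻¹ (a (x u)) = u
    rw [hxu a ha]
    exact x.symm_apply_apply u
  have hstab : ∀ x ∈ Γ, (∀ a ∈ A, x⁻¹ * a * x ∈ A) → x ∈ Stab Γ (Fix A) := by
    intro x hx hc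
    refine mem_Stab.2 ⟨hx, fun v hv a ha => ?_⟩
    have h1 : x⁻¹ (a (x v)) = v := hv _ (hc a ha)
    have h3 := congrArg x h1
    rwa [show x (x⁻¹ (a (x v))) = a (x v) from x.apply_symm_apply _] at h3
  have hEP : EP r.range ζ := by
    intro u
    by_cases hu : u = 0
    · exact ⟨1, one_mem _, by rw [hu, map_zero, smul_zero]⟩
    · obtain ⟨x, hx, hxu⟩ := hE u.1
      have hu' : u.1 ≠ 0 := fun e => hu (Subtype.ext e)
      have hx' : x ∈ Stab Γ (Fix A) :=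
        hstab x hx (hconj x hx u.1 u.2 hu' (hxu ▸ (Fix A).smul_mem ζ u.2))
      exact ⟨r ⟨x, hx'⟩, ⟨_, rfl⟩, Subtype.ext ((hr _ _).trans hxu)⟩
  -- elements of `E` centralizing `A` stabilize `Fix A`
  have hcN : ∀ e ∈ E, (∀ a ∈ A, e * a = a * e) → e ∈ Stab Γ (Fix A) := by
    intro e he hc
    refine hstab e (hX.le he) (fun a ha => ?_)
    rw [mul_assoc, ← hc a ha, inv_mul_cancel_left]
    exact ha
  have hngN : (ng : V ≃ₗ[ZMod p] V) ∈ Stab Γ (Fix A) :=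
    hcN ng hX.neg (fun a _ => (ng_comm a).symm)
  have hrng : r ⟨ng, hngN⟩ = ng := LinearEquiv.ext fun v => Subtype.ext (hr _ _)
  -- kernel of the restriction on `E`
  have hK : ∀ x : Stab Γ (Fix A), x.1 ∈ E → r x = 1 → x.1 ∈ A := by
    intro x hx h1
    refine hA.max u0 hu0 hu00 _ hx ?_
    have h3 := hr x ⟨u0, hu0⟩
    rw [h1] at h3
    exact h3.symm
  have hK' : ∀ x : Stab Γ (Fix A), x.1 ∈ A → r x = 1 := fun x hx =>
    LinearEquiv.ext fun v => Subtype.ext ((hr x v).trans (v.2 _ hx))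
  let C' : Subgroup (Stab Γ (Fix A)) :=
    (E ⊓ centralizer (A : Set (V ≃ₗ[ZMod p] V))).comap (Stab Γ (Fix A)).subtype
  have hC' : ∀ x : Stab Γ (Fix A), x ∈ C' ↔ x.1 ∈ E ∧ ∀ a ∈ A, x.1 * a = a * x.1 := fun x =>
    ⟨fun hx => ⟨hx.1, fun a ha => (mem_centralizer_iff.1 hx.2 a ha).symm⟩,
      fun hx => ⟨hx.1, mem_centralizer_iff.2 fun a ha => (hx.2 a ha).symm⟩⟩
  have hsq : ∀ x : Stab Γ (Fix A), x.1 * x.1 = ng → r x * r x = ng := by
    intro x hx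
    rw [← map_mul, ← hrng]
    exact congrArg r (Subtype.ext hx)
  have hsq1 : ∀ x : Stab Γ (Fix A), x.1 * x.1 = 1 → r x * r x = 1 := by
    intro x hx
    rw [← map_mul, ← map_one r]
    exact congrArg r (Subtype.ext hx)
  have hcm : ∀ x y : Stab Γ (Fix A), x.1 * y.1 = y.1 * x.1 → r x * r y = r y * r x := by
    intro x y hxy
    rw [← map_mul, ← map_mul]
    exact congrArg r (Subtype.ext hxy)
  have hcm' : ∀ x y : Stab Γ (Fix A), x.1 * y.1 = ng * (y.1 * x.1) →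
      r x * r y = ng * (r y * r x) := by
    intro x y hxy
    rw [← hrng, ← map_mul, ← map_mul, ← map_mul]
    exact congrArg r (Subtype.ext hxy)
  have hne : (ng : Fix A ≃ₗ[ZMod p] Fix A) ≠ 1 := ng_ne_one h2
  have hq := qq h2 hS hζ4 hEP (C := C'.map r) (map_le_range r C') ?_ ?_ ?_
  rotate_left
  · rintro _ ⟨g, rfl⟩ _ ⟨e, he, rfl⟩
    obtain ⟨he1, he2⟩ := (hC' e).1 he
    refine ⟨g * e * g⁻¹, (hC' _).2 ⟨hX.nm g.1 (Stab_le g.2) e.1 he1, fun a ha => ?_⟩,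
      by rw [map_mul, map_mul, map_inv]⟩
    have h1 : g.1⁻¹ * a * g.1 ∈ A :=
      hconj g.1 (Stab_le g.2) u0 hu0 hu00 ((mem_Stab.1 g.2).2 u0 hu0) a ha
    have h3 := he2 _ h1
    show g.1 * e.1 * g.1⁻¹ * a = a * (g.1 * e.1 * g.1⁻¹)
    calc g.1 * e.1 * g.1⁻¹ * a = g.1 * (e.1 * (g.1⁻¹ * a * g.1)) * g.1⁻¹ := by group
      _ = g.1 * ((g.1⁻¹ * a * g.1) * e.1) * g.1⁻¹ := by rw [h3]
      _ = a * (g.1 * e.1 * g.1⁻¹) := by group
  · rintro _ ⟨e, he, rfl⟩ _ ⟨f, hf, rfl⟩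
    rcases hX.comm e.1 ((hC' e).1 he).1 f.1 ((hC' f).1 hf).1 with h1 | h1
    · exact Or.inl (hcm e f h1)
    · exact Or.inr (hcm' e f h1)
  · rintro _ ⟨e, he, rfl⟩
    have he1 := ((hC' e).1 he).1
    rcases hX.sq e.1 he1 with h1 | h1
    · by_cases hf : ∀ v, r e v = v → v = 0
      · exact Or.inr (Or.inl (eq_ng (hsq1 e h1) hf))
      · push Not at hf
        obtain ⟨v, hv, hv0⟩ := hf
        refine Or.inl (hK' e (hA.max v.1 v.2 (fun h3 => hv0 (Subtype.ext h3)) _ he1 ?_))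
        rw [← hr e v, hv]
    · exact Or.inr (Or.inr (hsq e h1))
  rcases hq with hq | ⟨h24, _, ⟨i, hi, rfl⟩, _, ⟨j, hj, rfl⟩, hii, hjj, hij, hall⟩
  · refine Or.inl fun e he hc => ?_
    have heN := hcN e he hc
    rcases hq (r ⟨e, heN⟩) ⟨_, (hC' _).2 ⟨he, hc⟩, rfl⟩ with h1 | h1
    · exact Or.inl (hK _ he h1)
    · refine Or.inr (hK (⟨ng, hngN⟩ * ⟨e, heN⟩) (E.mul_mem hX.neg he) ?_)
      rw [map_mul, hrng, h1, ng_mul_ng]
  · obtain ⟨hi1, hi2⟩ := (hC' i).1 hi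
    obtain ⟨hj1, hj2⟩ := (hC' j).1 hj
    refine Or.inr ⟨hζ24 h24, i.1, hi1, j.1, hj1, hi2, hj2, ?_, ?_, ?_, fun e he hc => ?_⟩
    · refine (hX.sq i.1 hi1).resolve_left fun h1 => hne ?_
      rw [← hii, hsq1 i h1]
    · refine (hX.sq j.1 hj1).resolve_left fun h1 => hne ?_
      rw [← hjj, hsq1 j h1]
    · refine (hX.comm i.1 hi1 j.1 hj1).resolve_left fun h1 => hne ?_
      rw [hcm i j h1] at hij
      exact (mul_eq_right.1 hij.symm)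
    · have heN := hcN e he hc
      have key : ∀ q : Stab Γ (Fix A), q.1 ∈ E → r ⟨e, heN⟩ = r q → ∃ a ∈ A, a * e = q.1 := by
        intro q hq1 hq2
        refine ⟨q.1 * e⁻¹, hK (q * (⟨e, heN⟩ : Stab Γ (Fix A))⁻¹) (E.mul_mem hq1 (E.inv_mem he)) ?_,
          inv_mul_cancel_right _ _⟩
        rw [map_mul, map_inv, hq2, mul_inv_cancel]
      have hn := hX.neg
      rcases hall (r ⟨e, heN⟩) ⟨_, (hC' _).2 ⟨he, hc⟩, rfl⟩ with
        h1 | h1 | h1 | h1 | h1 | h1 | h1 | h1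
      · obtain ⟨a, ha, h3⟩ := key 1 E.one_mem (by rw [h1, map_one])
        exact ⟨a, ha, Or.inl h3⟩
      · obtain ⟨a, ha, h3⟩ := key ⟨ng, hngN⟩ hn (by rw [h1, hrng])
        exact ⟨a, ha, Or.inr (Or.inl h3)⟩
      · obtain ⟨a, ha, h3⟩ := key i hi1 h1
        exact ⟨a, ha, Or.inr (Or.inr (Or.inl h3))⟩
      · obtain ⟨a, ha, h3⟩ := key (⟨ng, hngN⟩ * i) (E.mul_mem hn hi1) (by rw [h1, map_mul, hrng])
        exact ⟨a, ha, Or.inr (Or.inr (Or.inr (Or.inl h3)))⟩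
      · obtain ⟨a, ha, h3⟩ := key j hj1 h1
        exact ⟨a, ha, Or.inr (Or.inr (Or.inr (Or.inr (Or.inl h3))))⟩
      · obtain ⟨a, ha, h3⟩ := key (⟨ng, hngN⟩ * j) (E.mul_mem hn hj1) (by rw [h1, map_mul, hrng])
        exact ⟨a, ha, Or.inr (Or.inr (Or.inr (Or.inr (Or.inr (Or.inl h3)))))⟩
      · obtain ⟨a, ha, h3⟩ := key (i * j) (E.mul_mem hi1 hj1) (by rw [h1, map_mul])
        exact ⟨a, ha, Or.inr (Or.inr (Or.inr (Or.inr (Or.inr (Or.inr (Or.inl h3))))))⟩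
      · obtain ⟨a, ha, h3⟩ := key (⟨ng, hngN⟩ * (i * j)) (E.mul_mem hn (E.mul_mem hi1 hj1))
          (by rw [h1, map_mul, map_mul, hrng])
        exact ⟨a, ha, Or.inr (Or.inr (Or.inr (Or.inr (Or.inr (Or.inr (Or.inr h3))))))⟩

end Cfsg.Agent.AH
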