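import Cfsg.Agent.AH.Defs

/-! Project AH: the central product of a dihedral and a quaternion group of order eight. -/

set_option autoImplicit false
set_option linter.unusedSimpArgs false

namespace Cfsg.Agent.AH

namespace XA2

section abs

variable {M : Type*} [Group M] {z α σ ι κ d q : M}

/-- a dihedral group of order eight with central involution `z` -/
structure D (z α σ : M) : Prop where
  zz : z * z = 1
  zc : ∀ x, x * z = z * x
  aa : α * α = 1
  ss : σ * σ = 1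
  as : α * σ = z * (σ * α)

theorem D.zz' (h : D z α σ) (x : M) : z * (z * x) = x := by rw [← mul_assoc, h.zz, one_mul]
theorem D.aa' (h : D z α σ) (x : M) : α * (α * x) = x := by rw [← mul_assoc, h.aa, one_mul]
theorem D.ss' (h : D z α σ) (x : M) : σ * (σ * x) = x := by rw [← mul_assoc, h.ss, one_mul]
theorem D.zc' (h : D z α σ) (g x : M) : g * (z * x) = z * (g * x) := by
  rw [← mul_assoc, h.zc, mul_assoc]
theorem D.sa (h : D z α σ) : σ * α = z * (α * σ) := by rw [h.as, h.zz']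
theorem D.sa' (h : D z α σ) (x : M) : σ * (α * x) = z * (α * (σ * x)) := by
  rw [← mul_assoc, h.sa, mul_assoc, mul_assoc]

theorem D.z_mul (h : D z α σ) (hd : Q8m z α σ d) : Q8m z α σ (z * d) := by
  rcases hd with rfl | rfl | rfl | rfl | rfl | rfl | rfl | rfl <;> simp [Q8m, h.zz, h.zz']

theorem D.a_mul (h : D z α σ) (hd : Q8m z α σ d) : Q8m z α σ (α * d) := by
  rcases hd with e | e | e | e | e | e | e | e <;> rw [e] <;>
    simp [Q8m, h.aa, h.aa', h.zc α, h.zc' α]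

theorem D.mul_s (h : D z α σ) (hd : Q8m z α σ d) : Q8m z α σ (d * σ) := by
  rcases hd with e | e | e | e | e | e | e | e <;> rw [e] <;> simp [Q8m, h.ss, mul_assoc]

theorem D.sq (h : D z α σ) (hq : q * q = z) (ca : q * α = α * q) (cs : q * σ = σ * q)
    (hd : Q8m z α σ d) : d * q * (d * q) = z ∨ d * q = α * σ * q ∨ d * q = z * (α * σ * q) := by
  have ca' : ∀ x, q * (α * x) = α * (q * x) := fun x => by rw [← mul_assoc, ca, mul_assoc]
  have cs' : ∀ x, q * (σ * x) = σ * (q * x) := fun x => by rw [← mul_assoc, cs, mul_assoc]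
  rcases hd with e | e | e | e | e | e | e | e <;> rw [e] <;>
    simp [mul_assoc, ca', cs', hq, h.zc α, h.zc σ, h.zc' α, h.zc' σ, h.zc' q, h.zz', h.aa, h.aa',
      h.ss, h.ss', h.zz]

/-- the central product of a dihedral and a quaternion group -/
structure DQ (z α σ ι κ : M) : Prop extends D z α σ where
  ii : ι * ι = z
  kk : κ * κ = z
  ik : ι * κ = z * (κ * ι)
  ia : ι * α = α * ι
  ka : κ * α = α * κ
  is : ι * σ = σ * ι
  ks : κ * σ = σ * κ

/-- the five anticommuting involutions -/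
def tt (α σ ι κ : M) : Fin 5 → M := ![α, σ, α * σ * ι, α * σ * κ, α * σ * (ι * κ)]

theorem DQ.rel (h : DQ z α σ ι κ) : (∀ k, tt α σ ι κ k * tt α σ ι κ k = 1) ∧
    ∀ k l, k ≠ l → tt α σ ι κ k * tt α σ ι κ l = z * (tt α σ ι κ l * tt α σ ι κ k) := by
  have ia' : ∀ x, ι * (α * x) = α * (ι * x) := fun x => by rw [← mul_assoc, h.ia, mul_assoc]
  have ka' : ∀ x, κ * (α * x) = α * (κ * x) := fun x => by rw [← mul_assoc, h.ka, mul_assoc]
  have is' : ∀ x, ι * (σ * x) = σ * (ι * x) := fun x => by rw [← mul_assoc, h.is, mul_assoc]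
  have ks' : ∀ x, κ * (σ * x) = σ * (κ * x) := fun x => by rw [← mul_assoc, h.ks, mul_assoc]
  have ii' : ∀ x, ι * (ι * x) = z * x := fun x => by rw [← mul_assoc, h.ii]
  have kk' : ∀ x, κ * (κ * x) = z * x := fun x => by rw [← mul_assoc, h.kk]
  have ki : κ * ι = z * (ι * κ) := by rw [h.ik, h.toD.zz']
  have ki' : ∀ x, κ * (ι * x) = z * (ι * (κ * x)) := fun x => by
    rw [← mul_assoc, ki, mul_assoc, mul_assoc]
  have hD := h.toD
  constructor
  · intro k
    fin_cases k <;>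
      simp [tt, mul_assoc, ia', ka', is', ks', ii', kk', ki', h.ii, h.kk, hD.zc α, hD.zc σ,
        hD.zc ι, hD.zc' α, hD.zc' σ, hD.zc' ι, hD.zc' κ, hD.zz', hD.aa, hD.aa', hD.ss,
        hD.ss', hD.zz, hD.sa']
  · intro k l hkl
    fin_cases k <;> fin_cases l <;> first
      | exact absurd rfl hkl
      | simp [tt, mul_assoc, ia', ka', is', ks', ii', kk', ki', ki, h.ia, h.ka, h.is, h.ks, h.ii,
          h.kk, hD.zc α, hD.zc σ, hD.zc ι, hD.zc κ, hD.zc' α, hD.zc' σ, hD.zc' ι, hD.zc' κ, hD.zz',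
          hD.aa, hD.aa', hD.ss, hD.ss', hD.zz, hD.sa', hD.sa]

/-- normal form -/
def Rep (z α σ ι κ c : M) : Prop :=
  ∃ d q, Q8m z α σ d ∧ (q = 1 ∨ q = ι ∨ q = κ ∨ q = ι * κ) ∧ c = d * q

theorem DQ.z_mul (h : DQ z α σ ι κ) {c : M} (hc : Rep z α σ ι κ c) : Rep z α σ ι κ (z * c) := by
  obtain ⟨d, q, hd, hq, rfl⟩ := hc
  exact ⟨_, q, h.toD.z_mul hd, hq, (mul_assoc _ _ _).symm⟩

theorem DQ.a_mul (h : DQ z α σ ι κ) {c : M} (hc : Rep z α σ ι κ c) : Rep z α σ ι κ (α * c) := by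
  obtain ⟨d, q, hd, hq, rfl⟩ := hc
  exact ⟨_, q, h.toD.a_mul hd, hq, (mul_assoc _ _ _).symm⟩

theorem DQ.mul_s (h : DQ z α σ ι κ) {c : M} (hc : Rep z α σ ι κ c) : Rep z α σ ι κ (c * σ) := by
  obtain ⟨d, q, hd, hq, rfl⟩ := hc
  refine ⟨_, q, h.toD.mul_s hd, hq, ?_⟩
  have : q * σ = σ * q := by
    rcases hq with e | e | e | e <;> rw [e]
    · rw [one_mul, mul_one]
    · exact h.is
    · exact h.ks
    · rw [mul_assoc, h.ks, ← mul_assoc, h.is, mul_assoc]
  rw [mul_assoc, this, mul_assoc]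

theorem rep_q (hq : q = 1 ∨ q = ι ∨ q = κ ∨ q = ι * κ) : Rep z α σ ι κ q :=
  ⟨1, q, Or.inl rfl, hq, (one_mul _).symm⟩

theorem DQ.of_q8 (h : DQ z α σ ι κ) {i j c : M} (hi : i = ι ∨ i = α * ι) (hj : j = κ ∨ j = α * κ)
    (hc : Q8m z i j c) : Rep z α σ ι κ c := by
  have h1 : Rep z α σ ι κ 1 := rep_q (Or.inl rfl)
  have h2 : Rep z α σ ι κ i := by
    rcases hi with e | e <;> rw [e]
    · exact rep_q (by simp)
    · exact h.a_mul (rep_q (by simp))
  have h3 : Rep z α σ ι κ j := by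
    rcases hj with e | e <;> rw [e]
    · exact rep_q (by simp)
    · exact h.a_mul (rep_q (by simp))
  have h0 : Rep z α σ ι κ (ι * κ) := rep_q (by simp)
  have ia' : ι * (α * κ) = α * (ι * κ) := by rw [← mul_assoc, h.ia, mul_assoc]
  have h4 : Rep z α σ ι κ (i * j) := by
    rcases hi with e | e <;> rcases hj with e' | e' <;> rw [e, e']
    · exact h0
    · rw [ia']; exact h.a_mul h0
    · rw [mul_assoc]; exact h.a_mul h0
    · rw [mul_assoc, ia', h.toD.aa']; exact h0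
  rcases hc with e | e | e | e | e | e | e | e <;> rw [e]
  exacts [h1, by simpa using h.z_mul h1, h2, h.z_mul h2, h3, h.z_mul h3, h4, h.z_mul h4]

theorem DQ.all (h : DQ z α σ ι κ) {c : M} (hc : Rep z α σ ι κ c) :
    c = 1 ∨ c = z ∨ c * c = z ∨ ∃ k, c = tt α σ ι κ k ∨ c = z * tt α σ ι κ k := by
  obtain ⟨d, q, hd, hq, rfl⟩ := hc
  have hD := h.toD
  rcases hq with e | e | e | e <;> rw [e]
  · rw [mul_one]
    rcases hd with e | e | e | e | e | e | e | e
    · exact Or.inl e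
    · exact Or.inr (Or.inl e)
    · exact Or.inr (Or.inr (Or.inr ⟨0, Or.inl e⟩))
    · exact Or.inr (Or.inr (Or.inr ⟨0, Or.inr e⟩))
    · exact Or.inr (Or.inr (Or.inr ⟨1, Or.inl e⟩))
    · exact Or.inr (Or.inr (Or.inr ⟨1, Or.inr e⟩))
    all_goals
      refine Or.inr (Or.inr (Or.inl ?_))
      rw [e]
      simp [mul_assoc, hD.zc' α, hD.zc' σ, hD.zz', hD.aa, hD.aa', hD.ss, hD.sa']
  · exact Or.inr (Or.inr ((hD.sq h.ii h.ia h.is hd).imp_right fun e => ⟨2, e⟩))
  · exact Or.inr (Or.inr ((hD.sq h.kk h.ka h.ks hd).imp_right fun e => ⟨3, e⟩))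
  · refine Or.inr (Or.inr ((hD.sq ?_ ?_ ?_ hd).imp_right fun e => ⟨4, e⟩))
    · calc ι * κ * (ι * κ) = ι * κ * (z * (κ * ι)) := by rw [← h.ik]
        _ = z * (ι * (κ * κ) * ι) := by rw [hD.zc']; simp only [mul_assoc]
        _ = z := by rw [h.kk, hD.zc, mul_assoc, h.ii, hD.zz']
    · rw [mul_assoc, h.ka, ← mul_assoc, h.ia, mul_assoc]
    · rw [mul_assoc, h.ks, ← mul_assoc, h.is, mul_assoc]

/-- make an element of order four commute with `σ` -/
theorem D.fix (h : D z α σ) {i : M} (ii : i * i = z) (ia : i * α = α * i)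
    (is : i * σ = σ * i ∨ i * σ = z * (σ * i)) :
    ∃ ι, (i = ι ∨ i = α * ι) ∧ ι * ι = z ∧ ι * α = α * ι ∧ ι * σ = σ * ι := by
  rcases is with e | e
  · exact ⟨i, Or.inl rfl, ii, ia, e⟩
  · refine ⟨α * i, Or.inr (h.aa' i).symm, ?_, by rw [mul_assoc, ia], ?_⟩
    · rw [mul_assoc, ← mul_assoc i, ia, mul_assoc, h.aa', ii]
    · rw [mul_assoc, e, h.sa', h.zc' α]

theorem D.dq (h : D z α σ) {i j : M} (ii : i * i = z) (jj : j * j = z) (ij : i * j = z * (j * i))
    (ia : i * α = α * i) (ja : j * α = α * j) (is : i * σ = σ * i ∨ i * σ = z * (σ * i))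
    (js : j * σ = σ * j ∨ j * σ = z * (σ * j)) :
    ∃ ι κ, DQ z α σ ι κ ∧ (i = ι ∨ i = α * ι) ∧ (j = κ ∨ j = α * κ) := by
  obtain ⟨ι, hi, h1, h2, h3⟩ := h.fix ii ia is
  obtain ⟨κ, hj, h4, h5, h6⟩ := h.fix jj ja js
  refine ⟨ι, κ, ⟨h, h1, h4, ?_, h2, h5, h3, h6⟩, hi, hj⟩
  have ia' : ∀ x, ι * (α * x) = α * (ι * x) := fun x => by rw [← mul_assoc, h2, mul_assoc]
  have ka' : ∀ x, κ * (α * x) = α * (κ * x) := fun x => by rw [← mul_assoc, h5, mul_assoc]
  rcases hi with e | e <;> rcases hj with e' | e' <;> rw [e, e'] at ij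
  · exact ij
  · rw [ia', mul_assoc, ← h.zc' α] at ij
    exact mul_left_cancel ij
  · rw [ka', mul_assoc, ← h.zc' α] at ij
    exact mul_left_cancel ij
  · rwa [mul_assoc, mul_assoc, ia', ka', h.aa', h.aa'] at ij

end abs

end XA2

end Cfsg.Agent.AH
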