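import Cfsg.Agent.AH.XA1
import Cfsg.Agent.AH.FiveB
import Cfsg.Agent.AH.XA2a

/-! Project AH: the group `E` has no noncentral involution with a fixed vector. -/

set_option autoImplicit false
set_option linter.unusedSectionVars false

namespace Cfsg.Agent.AH

open Subgroup

universe u


variable {p : ℕ} [Fact p.Prime] {V : Type u} [AddCommGroup V] [Module (ZMod p) V] [Finite V]
  {b : V →ₗ[ZMod p] V →ₗ[ZMod p] ZMod p} {Γ : Subgroup (V ≃ₗ[ZMod p] V)} {ζ : ZMod p} {E A : Subgroup (V ≃ₗ[ZMod p] V)}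

theorem xa2_two (hp : 7 ≤ p) : (2 : ZMod p) ≠ 0 := fun h => by
  have := Nat.le_of_dvd two_pos ((ZMod.natCast_eq_zero_iff 2 p).1 (by exact_mod_cast h))
  omega

theorem xa2_neg (hp : 7 ≤ p) {v : V} (h : v = -v) : v = 0 := by
  have h1 : (2 : ZMod p) • v = 0 := by rw [two_smul]; exact add_eq_zero_iff_eq_neg.2 h
  exact (smul_eq_zero.1 h1).resolve_left (xa2_two hp)

/-- the restriction to the fixed space of `A ⊓ C(s)` -/
theorem xa2_res (hp : 7 ≤ p) (h : Sp b Γ) (hs : Group.IsSolvable Γ) (hζ : ζ ≠ 0)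
    (hE : EP Γ ζ) (hX : XE ng Γ E) (hA : MX E A) {s : V ≃ₗ[ZMod p] V} (hsE : s ∈ E) :
    ∃ (U : Submodule (ZMod p) V) (_ : Nontrivial U) (b' : U →ₗ[ZMod p] U →ₗ[ZMod p] ZMod p)
      (Δ C : Subgroup (U ≃ₗ[ZMod p] U))
      (f : (E ⊓ centralizer (A ⊓ centralizer {s} : Subgroup _) : Subgroup _) →* (U ≃ₗ[ZMod p] U)),
      Sp b' Δ ∧ Group.IsSolvable Δ ∧ C = f.range ∧ C ≤ Δ ∧ (∀ g ∈ Δ, ∀ e ∈ C, g * e * g⁻¹ ∈ C) ∧
      (∀ w, (∀ c ∈ C, c w = w → c = 1) → ∃ x ∈ Δ, x w = ζ • w) ∧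
      (∀ e, e.1 = ng → f e = ng) ∧ ∀ e, e.1 ∈ A → e.1 * s = s * e.1 → f e = 1 := by
  set A₁ : Subgroup (V ≃ₗ[ZMod p] V) := A ⊓ centralizer {s} with hA₁
  have hm : ∀ l, l ∈ A₁ ↔ l ∈ A ∧ l * s = s * l := fun l => by
    rw [hA₁, mem_inf, mem_centralizer_singleton_iff]
  have hle : A₁ ≤ E := inf_le_left.trans hA.le
  set N : Subgroup (V ≃ₗ[ZMod p] V) := Γ ⊓ normalizer (A₁ : Set _) with hN
  have hNU : ∀ x ∈ N, ∀ v ∈ Fix A₁, x v ∈ Fix A₁ := fun x hx v hv l hl => by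
    have h1 : x⁻¹ * l * x ∈ A₁ := (mem_normalizer_iff''.1 hx.2 l).1 hl
    have h2 := congrArg x (hv _ h1)
    rwa [← LinearEquiv.mul_apply, ← mul_assoc, ← mul_assoc, mul_inv_cancel, one_mul] at h2
  obtain ⟨r, hr⟩ := exists_res N (Fix A₁) hNU
  have hCN : E ⊓ centralizer (A₁ : Set _) ≤ N :=
    inf_le_inf hX.le (centralizer_le_normalizer _)
  obtain ⟨u, hu, hu0⟩ := (Submodule.ne_bot_iff _).1 hA.ne
  have hu1 : u ∈ Fix A₁ := fun l hl => hu l hl.1
  have hnt : Nontrivial (Fix A₁) := ⟨⟨⟨u, hu1⟩, 0, fun e => hu0 (congrArg Subtype.val e)⟩⟩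
  have hng : ∀ e : (E ⊓ centralizer (A₁ : Set _) : Subgroup _), e.1 = ng →
      r.comp (inclusion hCN) e = ng := fun e he => LinearEquiv.ext fun v => Subtype.ext (by
    rw [MonoidHom.comp_apply, hr, coe_inclusion, he]; rfl)
  have hsC : s ∈ E ⊓ centralizer (A₁ : Set _) :=
    ⟨hsE, mem_centralizer_iff.2 fun l hl => ((hm l).1 hl).2⟩
  refine ⟨Fix A₁, hnt, _, r.range, _, r.comp (inclusion hCN),
    h.res inf_le_left (h.fix_nd (hle.trans hX.le) (hX.card_ne hp hle)) hr, ?_, rfl, ?_, ?_, ?_,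
    hng, ?_⟩
  · have : Group.IsSolvable N := Group.isSolvable_of_isSolvable_injective
      (f := inclusion (inf_le_left : N ≤ Γ)) (inclusion_injective _)
    exact Group.isSolvable_of_surjective r.rangeRestrict_surjective
  · rintro _ ⟨e, rfl⟩
    exact ⟨_, rfl⟩
  · rintro _ ⟨g, rfl⟩ _ ⟨e, rfl⟩
    refine ⟨⟨g * e * (g : V ≃ₗ[ZMod p] V)⁻¹, hX.nm _ g.2.1 _ e.2.1,
      mem_centralizer_iff.2 fun l hl => ?_⟩, ?_⟩
    · have h1 := mem_centralizer_iff.1 e.2.2 _ ((mem_normalizer_iff''.1 g.2.2 l).1 hl)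
      calc l * (g * e * (g : V ≃ₗ[ZMod p] V)⁻¹) =
            g * ((g : V ≃ₗ[ZMod p] V)⁻¹ * l * g * e) * (g : V ≃ₗ[ZMod p] V)⁻¹ := by group
        _ = _ := by rw [h1]; group
    · rw [MonoidHom.comp_apply, MonoidHom.comp_apply, ← map_inv, ← map_mul, ← map_mul]
      rfl
  · intro w hw
    have hw0 : (w : V) ≠ 0 := fun e => ng_ne_one (xa2_two hp) (hw ng
      ⟨⟨ng, hX.neg, mem_centralizer_iff.2 fun l _ => ng_comm l⟩, hng _ rfl⟩
      (by rw [show w = 0 from Subtype.ext e, map_zero]))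
    have key : ∀ e ∈ E, e w = w → e ∈ A₁ := by
      intro e he hew
      have h1 : e ∈ E ⊓ centralizer (A₁ : Set _) := ⟨he, mem_centralizer_iff.2 fun l hl => by
        refine (hX.comm l (hle hl) e he).resolve_right fun h2 => hw0 (xa2_neg hp ?_)
        have h3 := congrArg (fun g : V ≃ₗ[ZMod p] V => g w) h2
        simpa only [LinearEquiv.mul_apply, hew, w.2 l hl, ng_apply] using h3⟩
      have h2 := hw _ ⟨⟨e, h1⟩, rfl⟩ (Subtype.ext (by
        rw [MonoidHom.comp_apply, hr, coe_inclusion]; exact hew))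
      have h3 : ∀ v ∈ Fix A₁, e v = v := fun v hv => by
        have h4 := hr (inclusion hCN ⟨e, h1⟩) ⟨v, hv⟩
        rw [← MonoidHom.comp_apply, h2] at h4
        exact h4.symm
      refine (hm e).2 ⟨hA.max u hu hu0 e he (h3 u hu1), ?_⟩
      refine (hX.comm e he s hsE).resolve_right fun h4 => hu0 ?_
      have h5 := congrArg (fun g : V ≃ₗ[ZMod p] V => g u) h4
      simp only [LinearEquiv.mul_apply, h3 u hu1, h3 _ (hNU s (hCN hsC) u hu1), ng_apply] at h5
      exact s.map_eq_zero_iff.1 (xa2_neg hp h5)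
    obtain ⟨x, hx, hxw⟩ := hE w
    have hxN : x ∈ N := ⟨hx, mem_normalizer_fintype fun l hl => key _ (hX.nm x hx l (hle hl)) (by
      have h1 : (x * l * x⁻¹) (x w) = x w := by
        rw [← LinearEquiv.mul_apply, inv_mul_cancel_right, LinearEquiv.mul_apply, w.2 l hl]
      rw [hxw, map_smul] at h1
      exact smul_right_injective V hζ h1)⟩
    exact ⟨_, ⟨⟨x, hxN⟩, rfl⟩, Subtype.ext (by rw [hr]; exact hxw)⟩
  · intro e he hes
    refine LinearEquiv.ext fun v => Subtype.ext ?_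
    rw [MonoidHom.comp_apply, hr, coe_inclusion]
    exact v.2 _ ((hm _).2 ⟨he, hes⟩)

theorem xa2 (hp : 7 ≤ p) (h : Sp b Γ) (hs : Group.IsSolvable Γ) (hζ : IsPrimitiveRoot ζ (p - 1))
    (hE : EP Γ ζ) (hX : XE ng Γ E) (hA : MX E A) : A = ⊥ := by
  obtain ⟨hng, hsq, hab⟩ := hA.elem hp hX
  obtain ⟨hζ0, -, hζ4, -⟩ := prim_pow hp hζ
  refine (eq_bot_iff_forall _).2 fun a ha => ?_
  by_contra ha1
  have haE := hA.le ha
  have zz : ∀ x : V ≃ₗ[ZMod p] V, ng * (ng * x) = x := fun x => by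
    rw [← mul_assoc, ng_mul_ng, one_mul]
  have zc : ∀ g x : V ≃ₗ[ZMod p] V, g * (ng * x) = ng * (g * x) := fun g x => by
    rw [← mul_assoc, ng_comm, mul_assoc]
  obtain ⟨s, hsE, hss, has⟩ : ∃ s ∈ E, s * s = 1 ∧ a * s = ng * (s * a) := by
    obtain ⟨s, hsE, h1⟩ : ∃ s ∈ E, a * s ≠ s * a := by
      by_contra h1
      push Not at h1
      rcases hX.cen a (hX.le haE) h1 with e | e
      exacts [ha1 e, hng (e ▸ ha)]
    have h2 := (hX.comm a haE s hsE).resolve_left h1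
    have h3 : s * a = ng * (a * s) := by rw [h2, zz]
    rcases hX.sq s hsE with e | e
    · exact ⟨s, hsE, e, h2⟩
    · refine ⟨a * s, E.mul_mem haE hsE, ?_, by rw [mul_assoc, h3, zc a, zz]⟩
      rw [mul_assoc, ← mul_assoc s, h3, mul_assoc, mul_assoc, e, zc, ← mul_assoc a, hsq a ha,
        one_mul, ng_mul_ng]
  have hsa : s * a = ng * (a * s) := by rw [has, zz]
  have hA1 : ∀ l ∈ A, l * s = s * l ∨ a * l * s = s * (a * l) := fun l hl =>
    (hX.comm l (hA.le hl) s hsE).imp_right fun e => by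
      rw [mul_assoc, e, zc, ← mul_assoc a, has, mul_assoc, zz, mul_assoc]
  obtain ⟨U, _, b', Δ, C, f, hSp, hsol, rfl, hC, hn, hgen, fz, f1⟩ :=
    xa2_res hp h hs hζ0 hE hX hA hsE
  have mk : ∀ e ∈ E, (∀ l ∈ A, e * l = l * e) →
      e ∈ E ⊓ centralizer (A ⊓ centralizer {s} : Subgroup _) := fun e he h1 =>
    ⟨he, mem_centralizer_iff.2 fun l hl => (h1 l hl.1).symm⟩
  let a' : (E ⊓ centralizer (A ⊓ centralizer {s} : Subgroup _) : Subgroup _) :=
    ⟨a, mk a haE (hab a ha)⟩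
  let s' : (E ⊓ centralizer (A ⊓ centralizer {s} : Subgroup _) : Subgroup _) :=
    ⟨s, hsE, mem_centralizer_iff.2 fun l hl => mem_centralizer_singleton_iff.1 hl.2⟩
  let z' : (E ⊓ centralizer (A ⊓ centralizer {s} : Subgroup _) : Subgroup _) :=
    ⟨ng, mk ng hX.neg fun l _ => (ng_comm l).symm⟩
  have hz : f z' = ng := fz z' rfl
  have hD : XA2.D ng (f a') (f s') := ⟨ng_mul_ng, ng_comm,
    by rw [← map_mul, show a' * a' = 1 from Subtype.ext (hsq a ha), map_one],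
    by rw [← map_mul, show s' * s' = 1 from Subtype.ext hss, map_one],
    by rw [← hz, ← map_mul, ← map_mul, ← map_mul]; exact congrArg f (Subtype.ext has)⟩
  have fA : ∀ l, l.1 ∈ A → f l = 1 ∨ f l = f a' := fun l hl =>
    (hA1 l.1 hl).imp (f1 l hl) fun e => by
      have h1 := f1 (a' * l) (A.mul_mem ha hl) e
      rw [map_mul] at h1
      rw [← hD.aa' (f l), h1, mul_one]
  have red : ∀ e : (E ⊓ centralizer (A ⊓ centralizer {s} : Subgroup _) : Subgroup _),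
      ∃ e' : (E ⊓ centralizer (A ⊓ centralizer {s} : Subgroup _) : Subgroup _),
        (∀ l ∈ A, e'.1 * l = l * e'.1) ∧ (f e = f e' ∨ f e = f e' * f s') := by
    have h1 : ∀ e : (E ⊓ centralizer (A ⊓ centralizer {s} : Subgroup _) : Subgroup _),
        e.1 * a = a * e.1 → ∀ l ∈ A, e.1 * l = l * e.1 := fun e he l hl => by
      have h2 := mem_centralizer_iff.1 e.2.2
      rcases hA1 l hl with h3 | h3
      · exact (h2 l ⟨hl, mem_centralizer_singleton_iff.2 h3⟩).symm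
      · have h4 := h2 (a * l) ⟨A.mul_mem ha hl, mem_centralizer_singleton_iff.2 h3⟩
        rw [← mul_assoc, he, mul_assoc, mul_assoc] at h4
        exact (mul_left_cancel h4).symm
    intro e
    rcases hX.comm e.1 e.2.1 a haE with h2 | h2
    · exact ⟨e, h1 e h2, Or.inl rfl⟩
    · refine ⟨e * s', h1 _ ?_, Or.inr (by rw [map_mul, mul_assoc, hD.ss, mul_one])⟩
      change e.1 * s * a = a * (e.1 * s)
      rw [mul_assoc, hsa, zc, ← mul_assoc e.1, h2, mul_assoc, zz, mul_assoc]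
  rcases xa1 hp h hζ hE hX hA with H | ⟨hp', i, hi, j, hj, ic, jc, ii, jj, ij, H⟩
  · refine d8 (xa2_two hp) hSp hζ4 hC hn hgen ⟨a', rfl⟩ ⟨s', rfl⟩ hD.aa hD.ss hD.as ?_
    rintro _ ⟨e, rfl⟩
    obtain ⟨e', h1, h2⟩ := red e
    have h3 : ∀ l, l.1 ∈ A → Q8m ng (f a') (f s') (f l) := fun l hl => by
      rcases fA l hl with e | e <;> simp [Q8m, e]
    have h4 : Q8m ng (f a') (f s') (f e') := by
      rcases H e'.1 e'.2.1 h1 with h5 | h5
      · exact h3 e' h5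
      · have h6 := hD.z_mul (h3 (z' * e') h5)
        rwa [map_mul, hz, hD.zz'] at h6
    rcases h2 with h2 | h2 <;> rw [h2]
    exacts [h4, hD.mul_s h4]
  · let i' : (E ⊓ centralizer (A ⊓ centralizer {s} : Subgroup _) : Subgroup _) := ⟨i, mk i hi ic⟩
    let j' : (E ⊓ centralizer (A ⊓ centralizer {s} : Subgroup _) : Subgroup _) := ⟨j, mk j hj jc⟩
    have c1 : ∀ x y, x.1 * y.1 = y.1 * x.1 → f x * f y = f y * f x := fun x y e => by
      rw [← map_mul, ← map_mul]; exact congrArg f (Subtype.ext e)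
    have c2 : ∀ x y, x.1 * y.1 = ng * (y.1 * x.1) → f x * f y = ng * (f y * f x) := fun x y e => by
      rw [← hz, ← map_mul, ← map_mul, ← map_mul]; exact congrArg f (Subtype.ext e)
    have c3 : ∀ x, x.1 * x.1 = ng → f x * f x = ng := fun x e => by
      rw [← map_mul]; exact fz _ e
    obtain ⟨ι, κ, hDQ, hι, hκ⟩ := hD.dq (c3 i' ii) (c3 j' jj) (c2 i' j' ij) (c1 i' a' (ic a ha))
      (c1 j' a' (jc a ha)) ((hX.comm i hi s hsE).imp (c1 i' s') (c2 i' s'))
      ((hX.comm j hj s hsE).imp (c1 j' s') (c2 j' s'))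
    have ma : f a' ∈ f.range := ⟨_, rfl⟩
    have ms : f s' ∈ f.range := ⟨_, rfl⟩
    have mm : ∀ x y, (f x = y ∨ f x = f a' * y) → y ∈ f.range := fun x y e => by
      rcases e with e | e
      · exact ⟨x, e⟩
      · exact ⟨a' * x, by rw [map_mul, e, hD.aa']⟩
    have mi := mm _ _ hι
    have mj := mm _ _ hκ
    refine five hp' hSp hsol hζ hC hn hgen (XA2.tt (f a') (f s') ι κ) (fun k => ?_) hDQ.rel.1
      hDQ.rel.2 ?_
    · have mas := mul_mem ma ms
      fin_cases k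
      exacts [ma, ms, mul_mem mas mi, mul_mem mas mj, mul_mem mas (mul_mem mi mj)]
    · rintro _ ⟨e, rfl⟩
      obtain ⟨e', h1, h2⟩ := red e
      obtain ⟨l, hl, h3⟩ := H e'.1 e'.2.1 h1
      let l' : (E ⊓ centralizer (A ⊓ centralizer {s} : Subgroup _) : Subgroup _) :=
        ⟨l, mk l (hA.le hl) (hab l hl)⟩
      have h4 : Q8m z' i' j' (l' * e') := by
        simp only [Q8m, Subtype.ext_iff]
        exact h3
      have h5 : Q8m ng (f i') (f j') (f l' * f e') := by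
        rw [← map_mul, ← hz]
        rcases h4 with e | e | e | e | e | e | e | e <;> rw [e] <;> simp [Q8m]
      have h6 := hDQ.of_q8 hι hκ h5
      have h7 : XA2.Rep ng (f a') (f s') ι κ (f e') := by
        rcases fA l' hl with e | e <;> rw [e] at h6
        · rwa [one_mul] at h6
        · have h8 := hDQ.a_mul h6
          rwa [hD.aa'] at h8
      refine hDQ.all ?_
      rcases h2 with h2 | h2 <;> rw [h2]
      exacts [h7, hDQ.mul_s h7]

end Cfsg.Agent.AH
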